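import Mathlib

/-!
# The algebra of the class sums for the group `3^3:2^2`
-/

set_option autoImplicit false

namespace Cfsg.Agent.Lib.Recog13

open Matrix

/-- The expression of the class sum. -/
def Bf {K : Type*} [Field K] (r0 r1 r2 S d0 d1 d2 a0 a1 a2 b0 b1 b2 : K) : K :=
  1 + a0 * b0 / d0 + a1 * b1 / d1 + a2 * b2 / d2 +
    r0 * (1 + a0) * (1 + b0) / (1 + d0) + r1 * (1 + a1) * (1 + b1) / (1 + d1) +
    r2 * (1 + a2) * (1 + b2) / (1 + d2) +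
    r0 * (a1 + a2) * (b1 + b2) / (d1 + d2) + r1 * (a0 + a2) * (b0 + b2) / (d0 + d2) +
    r2 * (a0 + a1) * (b0 + b1) / (d0 + d1) +
    S * (1 + a0 + a1 + a2) * (1 + b0 + b1 + b2) / (1 + d0 + d1 + d2)

/-- Parseval for an orthogonal basis. -/
theorem parseval4 {K : Type*} [Field K] (U : Fin 4 → Fin 4 → K) (δ N : Fin 4 → K)
    (hN : ∀ j, N j ≠ 0) (hd : ∀ i, ∑ r, U i r * δ r * U i r = N i)
    (hoff : ∀ i j, i ≠ j → ∑ r, U i r * δ r * U j r = 0) (w w' : Fin 4 → K)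
    (hz : ∀ j, (∑ r, U j r * δ r * w r) * (∑ r, U j r * δ r * w' r) = 0) :
    ∑ r, w r * δ r * w' r = 0 := by
  set M : Matrix (Fin 4) (Fin 4) K := Matrix.of U with hM
  set D : Matrix (Fin 4) (Fin 4) K := diagonal δ with hD
  have hMD : ∀ (j : Fin 4) (x : Fin 4 → K), (M *ᵥ (D *ᵥ x)) j = ∑ r, U j r * δ r * x r := by
    intro j x
    have e : D *ᵥ x = fun r => δ r * x r := by
      funext r
      rw [hD, mulVec_diagonal]
    rw [e]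
    simp only [mulVec, dotProduct, hM, Matrix.of_apply]
    refine Finset.sum_congr rfl fun r _ => ?_
    ring
  have h : M * D * Mᵀ = diagonal N := by
    ext i j
    rw [Matrix.mul_apply]
    simp only [hD, Matrix.mul_diagonal, Matrix.transpose_apply, hM, Matrix.of_apply]
    by_cases hij : i = j
    · subst hij
      rw [hd, diagonal_apply_eq]
    · rw [hoff i j hij, diagonal_apply_ne _ hij]
  have h1 : M * (D * Mᵀ * diagonal (fun j => (N j)⁻¹)) = 1 := by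
    rw [← Matrix.mul_assoc, ← Matrix.mul_assoc, h, diagonal_mul_diagonal]
    ext i j
    by_cases hij : i = j
    · subst hij
      simp [hN]
    · simp [diagonal, hij]
  have h2 := mul_eq_one_comm.mp h1
  have hDT : Dᵀ = D := by simp [hD]
  have h3 : w ⬝ᵥ (D *ᵥ w') = w ⬝ᵥ (((D * Mᵀ * diagonal (fun j => (N j)⁻¹)) * M) *ᵥ (D *ᵥ w')) := by
    rw [h2, one_mulVec]
  have h4 : ∑ r, w r * δ r * w' r = w ⬝ᵥ (D *ᵥ w') := by
    simp only [hD, mulVec_diagonal, dotProduct]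
    refine Finset.sum_congr rfl fun r _ => ?_
    ring
  rw [h4, h3, Matrix.mul_assoc, Matrix.mul_assoc, ← mulVec_mulVec, ← mulVec_mulVec, dotProduct_mulVec,
    ← mulVec_transpose, hDT, ← mulVec_mulVec, dotProduct_mulVec, ← mulVec_transpose, transpose_transpose]
  simp only [dotProduct, mulVec_diagonal]
  apply Finset.sum_eq_zero
  intro j _
  rw [hMD, hMD]
  calc (∑ r, U j r * δ r * w r) * ((N j)⁻¹ * ∑ r, U j r * δ r * w' r) =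
      (N j)⁻¹ * ((∑ r, U j r * δ r * w r) * ∑ r, U j r * δ r * w' r) := by ring
    _ = 0 := by rw [hz, mul_zero]

/-- Parseval, in coordinates. -/
theorem parseval_explicit {K : Type*} [Field K] {δ0 δ1 δ2 δ3 a0 a1 a2 a3 b0 b1 b2 b3 c0 c1 c2 c3
    e0 e1 e2 e3 na nb nc ne : K} (hna : na ≠ 0) (hnb : nb ≠ 0) (hnc : nc ≠ 0) (hne : ne ≠ 0)
    (aa : a0 * δ0 * a0 + a1 * δ1 * a1 + a2 * δ2 * a2 + a3 * δ3 * a3 = na)
    (ab : a0 * δ0 * b0 + a1 * δ1 * b1 + a2 * δ2 * b2 + a3 * δ3 * b3 = 0)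
    (ac : a0 * δ0 * c0 + a1 * δ1 * c1 + a2 * δ2 * c2 + a3 * δ3 * c3 = 0)
    (ae : a0 * δ0 * e0 + a1 * δ1 * e1 + a2 * δ2 * e2 + a3 * δ3 * e3 = 0)
    (bb : b0 * δ0 * b0 + b1 * δ1 * b1 + b2 * δ2 * b2 + b3 * δ3 * b3 = nb)
    (bc : b0 * δ0 * c0 + b1 * δ1 * c1 + b2 * δ2 * c2 + b3 * δ3 * c3 = 0)
    (be : b0 * δ0 * e0 + b1 * δ1 * e1 + b2 * δ2 * e2 + b3 * δ3 * e3 = 0)
    (cc : c0 * δ0 * c0 + c1 * δ1 * c1 + c2 * δ2 * c2 + c3 * δ3 * c3 = nc)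
    (ce : c0 * δ0 * e0 + c1 * δ1 * e1 + c2 * δ2 * e2 + c3 * δ3 * e3 = 0)
    (ee : e0 * δ0 * e0 + e1 * δ1 * e1 + e2 * δ2 * e2 + e3 * δ3 * e3 = ne)
    {w0 w1 w2 w3 v0 v1 v2 v3 : K}
    (za : (a0 * δ0 * w0 + a1 * δ1 * w1 + a2 * δ2 * w2 + a3 * δ3 * w3) *
      (a0 * δ0 * v0 + a1 * δ1 * v1 + a2 * δ2 * v2 + a3 * δ3 * v3) = 0)
    (zb : (b0 * δ0 * w0 + b1 * δ1 * w1 + b2 * δ2 * w2 + b3 * δ3 * w3) *
      (b0 * δ0 * v0 + b1 * δ1 * v1 + b2 * δ2 * v2 + b3 * δ3 * v3) = 0)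
    (zc : (c0 * δ0 * w0 + c1 * δ1 * w1 + c2 * δ2 * w2 + c3 * δ3 * w3) *
      (c0 * δ0 * v0 + c1 * δ1 * v1 + c2 * δ2 * v2 + c3 * δ3 * v3) = 0)
    (ze : (e0 * δ0 * w0 + e1 * δ1 * w1 + e2 * δ2 * w2 + e3 * δ3 * w3) *
      (e0 * δ0 * v0 + e1 * δ1 * v1 + e2 * δ2 * v2 + e3 * δ3 * v3) = 0) :
    w0 * δ0 * v0 + w1 * δ1 * v1 + w2 * δ2 * v2 + w3 * δ3 * v3 = 0 := by
  have h := parseval4 (K := K) ![![a0, a1, a2, a3], ![b0, b1, b2, b3], ![c0, c1, c2, c3], ![e0, e1, e2, e3]]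
    ![δ0, δ1, δ2, δ3] ![na, nb, nc, ne]
    (by
      intro j
      fin_cases j
      · exact hna
      · exact hnb
      · exact hnc
      · exact hne)
    (by
      intro i
      rw [Fin.sum_univ_four]
      fin_cases i
      · exact aa
      · exact bb
      · exact cc
      · exact ee)
    (by
      intro i j hij
      rw [Fin.sum_univ_four]
      fin_cases i <;> fin_cases j
      · exact absurd rfl hij
      · exact ab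
      · exact ac
      · exact ae
      · show b0 * δ0 * a0 + b1 * δ1 * a1 + b2 * δ2 * a2 + b3 * δ3 * a3 = 0
        linear_combination ab
      · exact absurd rfl hij
      · exact bc
      · exact be
      · show c0 * δ0 * a0 + c1 * δ1 * a1 + c2 * δ2 * a2 + c3 * δ3 * a3 = 0
        linear_combination ac
      · show c0 * δ0 * b0 + c1 * δ1 * b1 + c2 * δ2 * b2 + c3 * δ3 * b3 = 0
        linear_combination bc
      · exact absurd rfl hij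
      · exact ce
      · show e0 * δ0 * a0 + e1 * δ1 * a1 + e2 * δ2 * a2 + e3 * δ3 * a3 = 0
        linear_combination ae
      · show e0 * δ0 * b0 + e1 * δ1 * b1 + e2 * δ2 * b2 + e3 * δ3 * b3 = 0
        linear_combination be
      · show e0 * δ0 * c0 + e1 * δ1 * c1 + e2 * δ2 * c2 + e3 * δ3 * c3 = 0
        linear_combination ce
      · exact absurd rfl hij)
    ![w0, w1, w2, w3] ![v0, v1, v2, v3]
    (by
      intro j
      rw [Fin.sum_univ_four, Fin.sum_univ_four]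
      fin_cases j
      · exact za
      · exact zb
      · exact zc
      · exact ze)
  rw [Fin.sum_univ_four] at h
  exact h

/-- An elementary identity. -/
theorem three_term {K : Type*} [Field K] {A B D : K} (hA : A ≠ 0) (hB : B ≠ 0) (hD : D ≠ 0)
    (hAB : A + B = D) {a b a' b' s s' : K} (hs : a + b = s) (hs' : a' + b' = s') :
    a * a' / A + b * b' / B - s * s' / D =
      (B * a - A * b) * (B * a' - A * b') / (A * B * D) := by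
  subst hAB hs hs'
  field_simp
  ring

/-- The linear forms. -/
def Lf {K : Type*} [Field K] (di dj dk xi xj xk : K) : K := (dj + dk) * (1 + xi) - (1 + di) * (xj + xk)

section Core

variable {K : Type*} [Field K] {d0 d1 d2 : K}

theorem diff0 (A0 : 1 + d0 ≠ 0) (B0 : d1 + d2 ≠ 0) (D : 1 + d0 + d1 + d2 ≠ 0) (x0 x1 x2 y0 y1 y2 : K) :
    Bf 2 (-1) (-1) (-1) d0 d1 d2 x0 x1 x2 y0 y1 y2 - Bf (-1) (-1) (-1) 2 d0 d1 d2 x0 x1 x2 y0 y1 y2 =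
      3 * (Lf d0 d1 d2 x0 x1 x2 * Lf d0 d1 d2 y0 y1 y2 / ((1 + d0) * (d1 + d2) * (1 + d0 + d1 + d2))) := by
  have t := three_term A0 B0 D (by ring) (a := 1 + x0) (b := x1 + x2) (a' := 1 + y0) (b' := y1 + y2)
    (s := 1 + x0 + x1 + x2) (s' := 1 + y0 + y1 + y2) (by ring) (by ring)
  unfold Bf Lf
  linear_combination 3 * t

theorem diff1 (A1 : 1 + d1 ≠ 0) (B1 : d0 + d2 ≠ 0) (D : 1 + d0 + d1 + d2 ≠ 0) (x0 x1 x2 y0 y1 y2 : K) :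
    Bf (-1) 2 (-1) (-1) d0 d1 d2 x0 x1 x2 y0 y1 y2 - Bf (-1) (-1) (-1) 2 d0 d1 d2 x0 x1 x2 y0 y1 y2 =
      3 * (Lf d1 d0 d2 x1 x0 x2 * Lf d1 d0 d2 y1 y0 y2 / ((1 + d1) * (d0 + d2) * (1 + d0 + d1 + d2))) := by
  have t := three_term A1 B1 D (by ring) (a := 1 + x1) (b := x0 + x2) (a' := 1 + y1) (b' := y0 + y2)
    (s := 1 + x0 + x1 + x2) (s' := 1 + y0 + y1 + y2) (by ring) (by ring)
  unfold Bf Lf
  linear_combination 3 * t

theorem diff2 (A2 : 1 + d2 ≠ 0) (B2 : d0 + d1 ≠ 0) (D : 1 + d0 + d1 + d2 ≠ 0) (x0 x1 x2 y0 y1 y2 : K) :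
    Bf (-1) (-1) 2 (-1) d0 d1 d2 x0 x1 x2 y0 y1 y2 - Bf (-1) (-1) (-1) 2 d0 d1 d2 x0 x1 x2 y0 y1 y2 =
      3 * (Lf d2 d0 d1 x2 x0 x1 * Lf d2 d0 d1 y2 y0 y1 / ((1 + d2) * (d0 + d1) * (1 + d0 + d1 + d2))) := by
  have t := three_term A2 B2 D (by ring) (a := 1 + x2) (b := x0 + x1) (a' := 1 + y2) (b' := y0 + y1)
    (s := 1 + x0 + x1 + x2) (s' := 1 + y0 + y1 + y2) (by ring) (by ring)
  unfold Bf Lf
  linear_combination 3 * t

theorem rel_q (A0 : 1 + d0 ≠ 0) (A1 : 1 + d1 ≠ 0) (A2 : 1 + d2 ≠ 0) (B0 : d1 + d2 ≠ 0) (B1 : d0 + d2 ≠ 0)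
    (B2 : d0 + d1 ≠ 0) (D : 1 + d0 + d1 + d2 ≠ 0) (x0 x1 x2 y0 y1 y2 : K) :
    Bf (-1) (-1) (-1) 2 d0 d1 d2 x0 x1 x2 y0 y1 y2 =
      1 + x0 * y0 / d0 + x1 * y1 / d1 + x2 * y2 / d2 -
        (1 + x0 + x1 + x2) * (1 + y0 + y1 + y2) / (1 + d0 + d1 + d2) -
        (Lf d0 d1 d2 x0 x1 x2 * Lf d0 d1 d2 y0 y1 y2 / ((1 + d0) * (d1 + d2) * (1 + d0 + d1 + d2)) +
         Lf d1 d0 d2 x1 x0 x2 * Lf d1 d0 d2 y1 y0 y2 / ((1 + d1) * (d0 + d2) * (1 + d0 + d1 + d2)) +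
         Lf d2 d0 d1 x2 x0 x1 * Lf d2 d0 d1 y2 y0 y1 / ((1 + d2) * (d0 + d1) * (1 + d0 + d1 + d2))) := by
  have t0 := three_term A0 B0 D (by ring) (a := 1 + x0) (b := x1 + x2) (a' := 1 + y0) (b' := y1 + y2)
    (s := 1 + x0 + x1 + x2) (s' := 1 + y0 + y1 + y2) (by ring) (by ring)
  have t1 := three_term A1 B1 D (by ring) (a := 1 + x1) (b := x0 + x2) (a' := 1 + y1) (b' := y0 + y2)
    (s := 1 + x0 + x1 + x2) (s' := 1 + y0 + y1 + y2) (by ring) (by ring)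
  have t2 := three_term A2 B2 D (by ring) (a := 1 + x2) (b := x0 + x1) (a' := 1 + y2) (b' := y0 + y1)
    (s := 1 + x0 + x1 + x2) (s' := 1 + y0 + y1 + y2) (by ring) (by ring)
  unfold Bf Lf
  linear_combination -t0 - t1 - t2

theorem gram_uu (h0 : d0 ≠ 0) (h1 : d1 ≠ 0) (h2 : d2 ≠ 0) (D : 1 + d0 + d1 + d2 ≠ 0) (x0 x1 x2 y0 y1 y2 : K) :
    (1 - (1 + x0 + x1 + x2) / (1 + d0 + d1 + d2)) * 1 * (1 - (1 + y0 + y1 + y2) / (1 + d0 + d1 + d2)) +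
      (x0 - (1 + x0 + x1 + x2) / (1 + d0 + d1 + d2) * d0) * d0⁻¹ *
        (y0 - (1 + y0 + y1 + y2) / (1 + d0 + d1 + d2) * d0) +
      (x1 - (1 + x0 + x1 + x2) / (1 + d0 + d1 + d2) * d1) * d1⁻¹ *
        (y1 - (1 + y0 + y1 + y2) / (1 + d0 + d1 + d2) * d1) +
      (x2 - (1 + x0 + x1 + x2) / (1 + d0 + d1 + d2) * d2) * d2⁻¹ *
        (y2 - (1 + y0 + y1 + y2) / (1 + d0 + d1 + d2) * d2) =
    1 + x0 * y0 / d0 + x1 * y1 / d1 + x2 * y2 / d2 -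
        (1 + x0 + x1 + x2) * (1 + y0 + y1 + y2) / (1 + d0 + d1 + d2) := by
  field_simp
  ring

theorem gram_ue (h0 : d0 ≠ 0) (h1 : d1 ≠ 0) (h2 : d2 ≠ 0) (D : 1 + d0 + d1 + d2 ≠ 0) (x0 x1 x2 : K) :
    (1 - (1 + x0 + x1 + x2) / (1 + d0 + d1 + d2)) * 1 * 1 +
      (x0 - (1 + x0 + x1 + x2) / (1 + d0 + d1 + d2) * d0) * d0⁻¹ * d0 +
      (x1 - (1 + x0 + x1 + x2) / (1 + d0 + d1 + d2) * d1) * d1⁻¹ * d1 +
      (x2 - (1 + x0 + x1 + x2) / (1 + d0 + d1 + d2) * d2) * d2⁻¹ * d2 = 0 := by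
  field_simp
  ring

theorem gram_ee (h0 : d0 ≠ 0) (h1 : d1 ≠ 0) (h2 : d2 ≠ 0) :
    1 * 1 * 1 + d0 * d0⁻¹ * d0 + d1 * d1⁻¹ * d1 + d2 * d2⁻¹ * d2 = 1 + d0 + d1 + d2 := by
  field_simp

/-- The vector of the first linear form. -/
theorem dot_u0 (h0 : d0 ≠ 0) (h1 : d1 ≠ 0) (h2 : d2 ≠ 0) (D : 1 + d0 + d1 + d2 ≠ 0) (x0 x1 x2 : K) :
    (1 - (1 + x0 + x1 + x2) / (1 + d0 + d1 + d2)) * 1 * (d1 + d2) +
      (x0 - (1 + x0 + x1 + x2) / (1 + d0 + d1 + d2) * d0) * d0⁻¹ * ((d1 + d2) * d0) +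
      (x1 - (1 + x0 + x1 + x2) / (1 + d0 + d1 + d2) * d1) * d1⁻¹ * (-(1 + d0) * d1) +
      (x2 - (1 + x0 + x1 + x2) / (1 + d0 + d1 + d2) * d2) * d2⁻¹ * (-(1 + d0) * d2) =
    Lf d0 d1 d2 x0 x1 x2 := by
  unfold Lf
  field_simp
  ring

theorem dot_u1 (h0 : d0 ≠ 0) (h1 : d1 ≠ 0) (h2 : d2 ≠ 0) (D : 1 + d0 + d1 + d2 ≠ 0) (x0 x1 x2 : K) :
    (1 - (1 + x0 + x1 + x2) / (1 + d0 + d1 + d2)) * 1 * (d0 + d2) +
      (x0 - (1 + x0 + x1 + x2) / (1 + d0 + d1 + d2) * d0) * d0⁻¹ * (-(1 + d1) * d0) +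
      (x1 - (1 + x0 + x1 + x2) / (1 + d0 + d1 + d2) * d1) * d1⁻¹ * ((d0 + d2) * d1) +
      (x2 - (1 + x0 + x1 + x2) / (1 + d0 + d1 + d2) * d2) * d2⁻¹ * (-(1 + d1) * d2) =
    Lf d1 d0 d2 x1 x0 x2 := by
  unfold Lf
  field_simp
  ring

theorem dot_u2 (h0 : d0 ≠ 0) (h1 : d1 ≠ 0) (h2 : d2 ≠ 0) (D : 1 + d0 + d1 + d2 ≠ 0) (x0 x1 x2 : K) :
    (1 - (1 + x0 + x1 + x2) / (1 + d0 + d1 + d2)) * 1 * (d0 + d1) +
      (x0 - (1 + x0 + x1 + x2) / (1 + d0 + d1 + d2) * d0) * d0⁻¹ * (-(1 + d2) * d0) +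
      (x1 - (1 + x0 + x1 + x2) / (1 + d0 + d1 + d2) * d1) * d1⁻¹ * (-(1 + d2) * d1) +
      (x2 - (1 + x0 + x1 + x2) / (1 + d0 + d1 + d2) * d2) * d2⁻¹ * ((d0 + d1) * d2) =
    Lf d2 d0 d1 x2 x0 x1 := by
  unfold Lf
  field_simp
  ring

theorem dot_e0 (h0 : d0 ≠ 0) (h1 : d1 ≠ 0) (h2 : d2 ≠ 0) :
    1 * 1 * (d1 + d2) + d0 * d0⁻¹ * ((d1 + d2) * d0) + d1 * d1⁻¹ * (-(1 + d0) * d1) +
      d2 * d2⁻¹ * (-(1 + d0) * d2) = 0 := by
  field_simp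
  ring

theorem dot_e1 (h0 : d0 ≠ 0) (h1 : d1 ≠ 0) (h2 : d2 ≠ 0) :
    1 * 1 * (d0 + d2) + d0 * d0⁻¹ * (-(1 + d1) * d0) + d1 * d1⁻¹ * ((d0 + d2) * d1) +
      d2 * d2⁻¹ * (-(1 + d1) * d2) = 0 := by
  field_simp
  ring

theorem dot_e2 (h0 : d0 ≠ 0) (h1 : d1 ≠ 0) (h2 : d2 ≠ 0) :
    1 * 1 * (d0 + d1) + d0 * d0⁻¹ * (-(1 + d2) * d0) + d1 * d1⁻¹ * (-(1 + d2) * d1) +
      d2 * d2⁻¹ * ((d0 + d1) * d2) = 0 := by
  field_simp
  ring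

theorem sq_div_zero [CharZero K] {L den : K} (hden : den ≠ 0) (h : 3 * (L * L / den) = 0) : L = 0 := by
  have h3 : (3 : K) ≠ 0 := by norm_num
  rcases mul_eq_zero.mp h with h | h
  · exact absurd h h3
  · rcases div_eq_zero_iff.mp h with h | h
    · simpa using h
    · exact absurd h hden

/-- The main algebraic step. -/
theorem alg_main [CharZero K] {a0 a1 a2 b0 b1 b2 c0 c1 c2 : K}
    (h0 : d0 ≠ 0) (h1 : d1 ≠ 0) (h2 : d2 ≠ 0) (A0 : 1 + d0 ≠ 0) (A1 : 1 + d1 ≠ 0) (A2 : 1 + d2 ≠ 0)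
    (B0 : d1 + d2 ≠ 0) (B1 : d0 + d2 ≠ 0) (B2 : d0 + d1 ≠ 0) (D : 1 + d0 + d1 + d2 ≠ 0)
    (Taa : Bf (-1) (-1) (-1) 2 d0 d1 d2 a0 a1 a2 a0 a1 a2 = 0)
    (Tab : Bf (-1) (-1) (-1) 2 d0 d1 d2 a0 a1 a2 b0 b1 b2 = 0)
    (Tac : Bf (-1) (-1) (-1) 2 d0 d1 d2 a0 a1 a2 c0 c1 c2 = 0)
    (Tbb : Bf (-1) (-1) (-1) 2 d0 d1 d2 b0 b1 b2 b0 b1 b2 = 0)
    (Tbc : Bf (-1) (-1) (-1) 2 d0 d1 d2 b0 b1 b2 c0 c1 c2 = 0)
    (Tcc : Bf (-1) (-1) (-1) 2 d0 d1 d2 c0 c1 c2 c0 c1 c2 = 0)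
    (P0a : Bf 2 (-1) (-1) (-1) d0 d1 d2 a0 a1 a2 a0 a1 a2 ≠ 0)
    (P0b : Bf 2 (-1) (-1) (-1) d0 d1 d2 b0 b1 b2 b0 b1 b2 = 0)
    (P0c : Bf 2 (-1) (-1) (-1) d0 d1 d2 c0 c1 c2 c0 c1 c2 = 0)
    (P1a : Bf (-1) 2 (-1) (-1) d0 d1 d2 a0 a1 a2 a0 a1 a2 = 0)
    (P1b : Bf (-1) 2 (-1) (-1) d0 d1 d2 b0 b1 b2 b0 b1 b2 ≠ 0)
    (P1c : Bf (-1) 2 (-1) (-1) d0 d1 d2 c0 c1 c2 c0 c1 c2 = 0)
    (P2a : Bf (-1) (-1) 2 (-1) d0 d1 d2 a0 a1 a2 a0 a1 a2 = 0)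
    (P2b : Bf (-1) (-1) 2 (-1) d0 d1 d2 b0 b1 b2 b0 b1 b2 = 0)
    (P2c : Bf (-1) (-1) 2 (-1) d0 d1 d2 c0 c1 c2 c0 c1 c2 ≠ 0) :
    d0 = 1 ∧ d1 = 1 ∧ d2 = 1 := by
  have den0 : (1 + d0) * (d1 + d2) * (1 + d0 + d1 + d2) ≠ 0 := mul_ne_zero (mul_ne_zero A0 B0) D
  have den1 : (1 + d1) * (d0 + d2) * (1 + d0 + d1 + d2) ≠ 0 := mul_ne_zero (mul_ne_zero A1 B1) D
  have den2 : (1 + d2) * (d0 + d1) * (1 + d0 + d1 + d2) ≠ 0 := mul_ne_zero (mul_ne_zero A2 B2) D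
  -- the values of the linear forms
  have L0b : Lf d0 d1 d2 b0 b1 b2 = 0 := by
    have := diff0 A0 B0 D b0 b1 b2 b0 b1 b2
    rw [P0b, Tbb, sub_zero] at this
    exact sq_div_zero den0 this.symm
  have L0c : Lf d0 d1 d2 c0 c1 c2 = 0 := by
    have := diff0 A0 B0 D c0 c1 c2 c0 c1 c2
    rw [P0c, Tcc, sub_zero] at this
    exact sq_div_zero den0 this.symm
  have L1a : Lf d1 d0 d2 a1 a0 a2 = 0 := by
    have := diff1 A1 B1 D a0 a1 a2 a0 a1 a2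
    rw [P1a, Taa, sub_zero] at this
    exact sq_div_zero den1 this.symm
  have L1c : Lf d1 d0 d2 c1 c0 c2 = 0 := by
    have := diff1 A1 B1 D c0 c1 c2 c0 c1 c2
    rw [P1c, Tcc, sub_zero] at this
    exact sq_div_zero den1 this.symm
  have L2a : Lf d2 d0 d1 a2 a0 a1 = 0 := by
    have := diff2 A2 B2 D a0 a1 a2 a0 a1 a2
    rw [P2a, Taa, sub_zero] at this
    exact sq_div_zero den2 this.symm
  have L2b : Lf d2 d0 d1 b2 b0 b1 = 0 := by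
    have := diff2 A2 B2 D b0 b1 b2 b0 b1 b2
    rw [P2b, Tbb, sub_zero] at this
    exact sq_div_zero den2 this.symm
  have na : Lf d0 d1 d2 a0 a1 a2 * Lf d0 d1 d2 a0 a1 a2 / ((1 + d0) * (d1 + d2) * (1 + d0 + d1 + d2)) ≠ 0 := by
    intro h
    have := diff0 A0 B0 D a0 a1 a2 a0 a1 a2
    rw [Taa, h] at this
    simp at this
    exact P0a this
  have nb : Lf d1 d0 d2 b1 b0 b2 * Lf d1 d0 d2 b1 b0 b2 / ((1 + d1) * (d0 + d2) * (1 + d0 + d1 + d2)) ≠ 0 := by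
    intro h
    have := diff1 A1 B1 D b0 b1 b2 b0 b1 b2
    rw [Tbb, h] at this
    simp at this
    exact P1b this
  have nc : Lf d2 d0 d1 c2 c0 c1 * Lf d2 d0 d1 c2 c0 c1 / ((1 + d2) * (d0 + d1) * (1 + d0 + d1 + d2)) ≠ 0 := by
    intro h
    have := diff2 A2 B2 D c0 c1 c2 c0 c1 c2
    rw [Tcc, h] at this
    simp at this
    exact P2c this
  -- the Gram matrix
  have Qaa := rel_q A0 A1 A2 B0 B1 B2 D a0 a1 a2 a0 a1 a2
  rw [Taa, L1a, L2a] at Qaa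
  have Qab := rel_q A0 A1 A2 B0 B1 B2 D a0 a1 a2 b0 b1 b2
  rw [Tab, L1a, L2a, L0b] at Qab
  have Qac := rel_q A0 A1 A2 B0 B1 B2 D a0 a1 a2 c0 c1 c2
  rw [Tac, L1a, L2a, L0c] at Qac
  have Qbb := rel_q A0 A1 A2 B0 B1 B2 D b0 b1 b2 b0 b1 b2
  rw [Tbb, L0b, L2b] at Qbb
  have Qbc := rel_q A0 A1 A2 B0 B1 B2 D b0 b1 b2 c0 c1 c2
  rw [Tbc, L0b, L2b, L1c] at Qbc
  have Qcc := rel_q A0 A1 A2 B0 B1 B2 D c0 c1 c2 c0 c1 c2
  rw [Tcc, L0c, L1c] at Qcc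
  have aa := gram_uu h0 h1 h2 D a0 a1 a2 a0 a1 a2
  have ab := gram_uu h0 h1 h2 D a0 a1 a2 b0 b1 b2
  have ac := gram_uu h0 h1 h2 D a0 a1 a2 c0 c1 c2
  have bb := gram_uu h0 h1 h2 D b0 b1 b2 b0 b1 b2
  have bc := gram_uu h0 h1 h2 D b0 b1 b2 c0 c1 c2
  have cc := gram_uu h0 h1 h2 D c0 c1 c2 c0 c1 c2
  have ae := gram_ue h0 h1 h2 D a0 a1 a2
  have be := gram_ue h0 h1 h2 D b0 b1 b2
  have ce := gram_ue h0 h1 h2 D c0 c1 c2
  have ee := gram_ee h0 h1 h2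
  have aa' := aa.trans (show _ = Lf d0 d1 d2 a0 a1 a2 * Lf d0 d1 d2 a0 a1 a2 / ((1 + d0) * (d1 + d2) * (1 + d0 + d1 + d2)) by linear_combination -Qaa)
  have ab' := ab.trans (show _ = (0 : K) by linear_combination -Qab)
  have ac' := ac.trans (show _ = (0 : K) by linear_combination -Qac)
  have bb' := bb.trans (show _ = Lf d1 d0 d2 b1 b0 b2 * Lf d1 d0 d2 b1 b0 b2 / ((1 + d1) * (d0 + d2) * (1 + d0 + d1 + d2)) by linear_combination -Qbb)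
  have bc' := bc.trans (show _ = (0 : K) by linear_combination -Qbc)
  have cc' := cc.trans (show _ = Lf d2 d0 d1 c2 c0 c1 * Lf d2 d0 d1 c2 c0 c1 / ((1 + d2) * (d0 + d1) * (1 + d0 + d1 + d2)) by linear_combination -Qcc)
  have key01 : d2 = d0 * d1 := by
    have h := parseval_explicit (w0 := d1 + d2) (w1 := (d1 + d2) * d0) (w2 := -(1 + d0) * d1)
      (w3 := -(1 + d0) * d2) (v0 := d0 + d2) (v1 := -(1 + d1) * d0) (v2 := (d0 + d2) * d1)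
      (v3 := -(1 + d1) * d2) na nb nc D aa' ab' ac' ae bb' bc' be cc' ce ee
      (by
        rw [dot_u1 h0 h1 h2 D a0 a1 a2, L1a, mul_zero])
      (by
        rw [dot_u0 h0 h1 h2 D b0 b1 b2, L0b, zero_mul])
      (by
        rw [dot_u0 h0 h1 h2 D c0 c1 c2, L0c, zero_mul])
      (by
        rw [dot_e0 h0 h1 h2, zero_mul])
    have h3 : (1 + d0 + d1 + d2) * (d2 - d0 * d1) = 0 := by
      field_simp at h
      linear_combination h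
    have h4 := (mul_eq_zero.mp h3).resolve_left D
    linear_combination h4
  have key02 : d1 = d0 * d2 := by
    have h := parseval_explicit (w0 := d1 + d2) (w1 := (d1 + d2) * d0) (w2 := -(1 + d0) * d1)
      (w3 := -(1 + d0) * d2) (v0 := d0 + d1) (v1 := -(1 + d2) * d0) (v2 := -(1 + d2) * d1)
      (v3 := (d0 + d1) * d2) na nb nc D aa' ab' ac' ae bb' bc' be cc' ce ee
      (by
        rw [dot_u2 h0 h1 h2 D a0 a1 a2, L2a, mul_zero])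
      (by
        rw [dot_u0 h0 h1 h2 D b0 b1 b2, L0b, zero_mul])
      (by
        rw [dot_u0 h0 h1 h2 D c0 c1 c2, L0c, zero_mul])
      (by
        rw [dot_e0 h0 h1 h2, zero_mul])
    have h3 : (1 + d0 + d1 + d2) * (d1 - d0 * d2) = 0 := by
      field_simp at h
      linear_combination h
    have h4 := (mul_eq_zero.mp h3).resolve_left D
    linear_combination h4
  have key12 : d0 = d1 * d2 := by
    have h := parseval_explicit (w0 := d0 + d2) (w1 := -(1 + d1) * d0) (w2 := (d0 + d2) * d1)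
      (w3 := -(1 + d1) * d2) (v0 := d0 + d1) (v1 := -(1 + d2) * d0) (v2 := -(1 + d2) * d1)
      (v3 := (d0 + d1) * d2) na nb nc D aa' ab' ac' ae bb' bc' be cc' ce ee
      (by
        rw [dot_u1 h0 h1 h2 D a0 a1 a2, L1a, zero_mul])
      (by
        rw [dot_u2 h0 h1 h2 D b0 b1 b2, L2b, mul_zero])
      (by
        rw [dot_u1 h0 h1 h2 D c0 c1 c2, L1c, zero_mul])
      (by
        rw [dot_e1 h0 h1 h2, zero_mul])
    have h3 : (1 + d0 + d1 + d2) * (d0 - d1 * d2) = 0 := by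
      field_simp at h
      linear_combination h
    have h4 := (mul_eq_zero.mp h3).resolve_left D
    linear_combination h4
  -- conclusion
  have sq2 : d2 * d2 = 1 := by
    have : d0 * (d2 * d2 - 1) = 0 := by
      linear_combination (-1 : K) * key02 * d2 + (-1 : K) * key12
    have := (mul_eq_zero.mp this).resolve_left h0
    linear_combination this
  have sq1 : d1 * d1 = 1 := by
    have : d0 * (d1 * d1 - 1) = 0 := by
      linear_combination (-1 : K) * key01 * d1 + (-1 : K) * key12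
    have := (mul_eq_zero.mp this).resolve_left h0
    linear_combination this
  have sq0 : d0 * d0 = 1 := by
    have : d1 * (d0 * d0 - 1) = 0 := by
      linear_combination (-1 : K) * key01 * d0 + (-1 : K) * key02
    have := (mul_eq_zero.mp this).resolve_left h1
    linear_combination this
  have one_of : ∀ x : K, x * x = 1 → 1 + x ≠ 0 → x = 1 := by
    intro x hx hne
    have : (x - 1) * (1 + x) = 0 := by linear_combination hx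
    have := (mul_eq_zero.mp this).resolve_right hne
    linear_combination this
  exact ⟨one_of _ sq0 A0, one_of _ sq1 A1, one_of _ sq2 A2⟩

end Core

end Cfsg.Agent.Lib.Recog13
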