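import Mathlib
import Cfsg.Agent.Lib.Recog13.Signed

/-!
# A coherence lemma for a specific lattice of generalized characters

Three pairs of characters `1 + x i + y i` of norm 3, five characters of norm 5 and three of norm 3 with prescribed
inner products decompose compatibly into 15 orthogonal signed irreducible characters.
-/

set_option autoImplicit false

namespace Cfsg.Agent.Lib.Recog13

open Cfsg Cfsg.Agent.Lib.Char.Virtual Cfsg.Agent.Lib.Char.Induced
open scoped ComplexConjugate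

universe u

variable {G : Type u} [Group G] [Fintype G]

theorem sym_zero {a b : G → ℂ} (h : classInner a b = 0) : classInner b a = 0 := by
  rw [← classInner_conj_symm, h, map_zero]

theorem sym_one {a b : G → ℂ} (h : classInner a b = 1) : classInner b a = 1 := by
  rw [← classInner_conj_symm, h, map_one]

theorem sym_nat {a b : G → ℂ} {n : ℕ} (h : classInner a b = n) : classInner b a = n := by
  rw [← classInner_conj_symm, h, Complex.conj_natCast]

/-- Bessel with integer coefficients. -/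
theorem bessel_int {J : Type*} [Fintype J] [DecidableEq J] (u : J → G → ℂ)
    (horth : ∀ i j, classInner (u i) (u j) = if i = j then 1 else 0) (θ : G → ℂ) (N : ℤ)
    (hN : classInner θ θ = N) (c : J → ℤ) (hc : ∀ j, classInner θ (u j) = c j) :
    ∑ j, (c j) ^ 2 ≤ N := by
  have h := Cfsg.Agent.Lib.Char.Coherence.bessel (Finset.univ : Finset J) θ u
    (fun i _ j _ hij => by rw [horth, if_neg hij]) (fun _ => (1 : ℝ))
    (fun i _ => by rw [horth, if_pos rfl]; simp) (fun _ _ => by norm_num)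
  rw [hN] at h
  have h2 : ∀ j, ‖classInner θ (u j)‖ ^ 2 / (1 : ℝ) = ((c j) ^ 2 : ℤ) := by
    intro j
    rw [hc j, div_one, Complex.norm_intCast]
    push_cast
    rw [sq_abs]
  simp only [h2] at h
  have h3 : ((N : ℂ)).re = (N : ℝ) := by simp
  rw [h3] at h
  exact_mod_cast h

/-- Splitting a character of norm 3. -/
theorem split_three {θ : G → ℂ} (hθ : IsGeneralizedCharacter G θ) (h3 : classInner θ θ = 3)
    (h1 : classInner θ 1 = 1) (hv : θ 1 = 0) :
    ∃ p q : G → ℂ, IsSignedIrr G p ∧ IsSignedIrr G q ∧ classInner p q = 0 ∧ classInner p 1 = 0 ∧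
      classInner q 1 = 0 ∧ θ = 1 + p + q ∧ p 1 + q 1 = -1 := by
  have g1 : IsGeneralizedCharacter G (1 : G → ℂ) := isGeneralized_of_isIrr isIrr_one
  have h11 : classInner (1 : G → ℂ) 1 = 1 := classInner_irr_self isIrr_one
  have h1' : classInner (1 : G → ℂ) θ = 1 := sym_one h1
  obtain ⟨p, q, hp, hq, hpq, hs⟩ := exists_of_norm_two (isGeneralized_sub hθ g1)
    (by
      rw [classInner_sub_left, classInner_sub_right, classInner_sub_right, h3, h1, h1', h11]
      norm_num)
  have hsum : classInner p 1 + classInner q 1 = 0 := by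
    rw [← classInner_add_left, ← hs, classInner_sub_left, h1, h11]
    norm_num
  have s1 : IsSignedIrr G (1 : G → ℂ) := Or.inl isIrr_one
  have hp0 : classInner p 1 = 0 := by
    rcases IsSignedIrr.classInner_cases hp s1 with h | ⟨h, h'⟩ | ⟨h, h'⟩
    · exact h
    · exfalso
      rw [h] at hsum
      have h4 : classInner q 1 = -1 := by linear_combination hsum
      rcases IsSignedIrr.classInner_cases hq s1 with h5 | ⟨h5, _⟩ | ⟨_, h6⟩
      · rw [h5] at h4
        norm_num at h4
      · rw [h5] at h4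
        norm_num at h4
      · rw [h', h6, classInner_neg_right, h11] at hpq
        norm_num at hpq
    · exfalso
      rw [h] at hsum
      have h4 : classInner q 1 = 1 := by linear_combination hsum
      rcases IsSignedIrr.classInner_cases hq s1 with h5 | ⟨_, h6⟩ | ⟨h5, _⟩
      · rw [h5] at h4
        norm_num at h4
      · rw [h', h6, classInner_neg_left, h11] at hpq
        norm_num at hpq
      · rw [h5] at h4
        norm_num at h4
  have hq0 : classInner q 1 = 0 := by
    rw [hp0, zero_add] at hsum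
    exact hsum
  have hθ' : θ = 1 + p + q := by
    have : θ = (θ - 1) + 1 := by abel
    rw [this, hs]
    abel
  refine ⟨p, q, hp, hq, hpq, hp0, hq0, hθ', ?_⟩
  have h5 := congrFun hθ' (1 : G)
  simp only [Pi.add_apply, Pi.one_apply, hv] at h5
  linear_combination -h5

/-- One half of `pair_orth`. -/
theorem pair_orth_aux {p q p' q' : G → ℂ} (hp : IsSignedIrr G p) (hq : IsSignedIrr G q)
    (hp' : IsSignedIrr G p') (hq' : IsSignedIrr G q') (h1 : classInner p q = 0)
    (h2 : classInner p' q' = 0) (h3 : classInner (p + q) (p' + q') = 0) (v : p 1 + q 1 = -1)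
    (v' : p' 1 + q' 1 = -1) : classInner p p' = 0 := by
  have h4 : classInner p p' + classInner p q' + classInner q p' + classInner q q' = 0 := by
    rw [classInner_add_left, classInner_add_right, classInner_add_right] at h3
    linear_combination h3
  rcases IsSignedIrr.classInner_cases hp hp' with h | ⟨h, h'⟩ | ⟨h, h'⟩
  · exact h
  · exfalso
    have h5 : classInner p q' = 0 := by rw [h']; exact h2
    have h6 : classInner q p' = 0 := by rw [← h']; exact sym_zero h1
    rw [h, h5, h6] at h4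
    rcases IsSignedIrr.classInner_cases hq hq' with h7 | ⟨h7, _⟩ | ⟨_, h8⟩
    · rw [h7] at h4
      norm_num at h4
    · rw [h7] at h4
      norm_num at h4
    · rw [h', h8] at v
      simp only [Pi.neg_apply] at v
      have h9 : q' 1 = 0 := by linear_combination (1/2) * v' - (1/2) * v
      exact signed_one_ne_zero hq' h9
  · exfalso
    have h5 : classInner p q' = 0 := by
      rw [h', classInner_neg_left, h2]
      simp
    have h6 : classInner q p' = 0 := by
      have h7 : p' = -p := by rw [h']; simp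
      rw [h7, classInner_neg_right, sym_zero h1]
      simp
    rw [h, h5, h6] at h4
    rcases IsSignedIrr.classInner_cases hq hq' with h7 | ⟨_, h8⟩ | ⟨h7, _⟩
    · rw [h7] at h4
      norm_num at h4
    · rw [h', h8] at v
      simp only [Pi.neg_apply] at v
      have h9 : p' 1 = 0 := by linear_combination (1/2) * v' - (1/2) * v
      exact signed_one_ne_zero hp' h9
    · rw [h7] at h4
      norm_num at h4

/-- Orthogonality of two pairs. -/
theorem pair_orth {p q p' q' : G → ℂ} (hp : IsSignedIrr G p) (hq : IsSignedIrr G q)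
    (hp' : IsSignedIrr G p') (hq' : IsSignedIrr G q') (h1 : classInner p q = 0)
    (h2 : classInner p' q' = 0) (h3 : classInner (p + q) (p' + q') = 0) (v : p 1 + q 1 = -1)
    (v' : p' 1 + q' 1 = -1) :
    classInner p p' = 0 ∧ classInner p q' = 0 ∧ classInner q p' = 0 ∧ classInner q q' = 0 := by
  have a1 := pair_orth_aux hp hq hp' hq' h1 h2 h3 v v'
  have a2 := pair_orth_aux hp hq hq' hp' h1 (sym_zero h2) (by rw [add_comm q' p']; exact h3) v
    (by rw [add_comm]; exact v')
  have a3 := pair_orth_aux hq hp hp' hq' (sym_zero h1) h2 (by rw [add_comm q p]; exact h3)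
    (by rw [add_comm]; exact v) v'
  have a4 := pair_orth_aux hq hp hq' hp' (sym_zero h1) (sym_zero h2)
    (by rw [add_comm q p, add_comm q' p']; exact h3) (by rw [add_comm]; exact v) (by rw [add_comm]; exact v')
  exact ⟨a1, a2, a3, a4⟩

/-- An integer lemma. -/
theorem int_pair (a : ℤ) : a ^ 2 + (1 - a) ^ 2 ≥ 1 ∧ (a ≠ 0 → a ≠ 1 → a ^ 2 + (1 - a) ^ 2 ≥ 5) := by
  constructor
  · rcases le_or_gt a 0 with h | h
    · nlinarith
    · nlinarith
  · intro h0 h1
    rcases lt_or_gt_of_ne h0 with h | h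
    · nlinarith
    · have : a ≥ 2 := by omega
      nlinarith

/-- The pattern for `Γ`. -/
theorem int_gamma {a₀ b₀ a₁ b₁ a₂ b₂ : ℤ} (h₀ : a₀ + b₀ = 1) (h₁ : a₁ + b₁ = 1) (h₂ : a₂ + b₂ = 1)
    (hs : a₀ ^ 2 + b₀ ^ 2 + (a₁ ^ 2 + b₁ ^ 2) + (a₂ ^ 2 + b₂ ^ 2) ≤ 4) :
    (a₀ = 0 ∨ a₀ = 1) ∧ (a₁ = 0 ∨ a₁ = 1) ∧ (a₂ = 0 ∨ a₂ = 1) := by
  obtain rfl : b₀ = 1 - a₀ := by omega
  obtain rfl : b₁ = 1 - a₁ := by omega
  obtain rfl : b₂ = 1 - a₂ := by omega
  have p₀ := int_pair a₀
  have p₁ := int_pair a₁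
  have p₂ := int_pair a₂
  refine ⟨?_, ?_, ?_⟩
  · by_contra h
    push Not at h
    have := p₀.2 h.1 h.2
    linarith [p₁.1, p₂.1]
  · by_contra h
    push Not at h
    have := p₁.2 h.1 h.2
    linarith [p₀.1, p₂.1]
  · by_contra h
    push Not at h
    have := p₂.2 h.1 h.2
    linarith [p₀.1, p₁.1]

/-- The pattern for `F'`. -/
theorem int_prime {a₀ b₀ a₁ b₁ a₂ b₂ z : ℤ} (h₀ : a₀ + b₀ = 0) (h₁ : a₁ + b₁ = 1) (h₂ : a₂ + b₂ = 1)
    (hz : z = a₀ + a₁ + a₂ - 2)
    (hs : a₀ ^ 2 + b₀ ^ 2 + (a₁ ^ 2 + b₁ ^ 2) + (a₂ ^ 2 + b₂ ^ 2) + 5 * z ^ 2 ≤ 3) :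
    a₀ = 0 ∧ b₀ = 0 ∧ a₁ = 1 ∧ b₁ = 0 ∧ a₂ = 1 ∧ b₂ = 0 ∧ z = 0 := by
  obtain rfl : b₀ = - a₀ := by omega
  obtain rfl : b₁ = 1 - a₁ := by omega
  obtain rfl : b₂ = 1 - a₂ := by omega
  subst hz
  have p₁ := int_pair a₁
  have p₂ := int_pair a₂
  have hz0 : (a₀ + a₁ + a₂ - 2) ^ 2 = 0 := by
    have h1 : (a₀ + a₁ + a₂ - 2) ^ 2 ≥ 0 := sq_nonneg _
    by_contra h
    have h2 : (a₀ + a₁ + a₂ - 2) ^ 2 ≥ 1 := by omega
    nlinarith [sq_nonneg a₀, p₁.1, p₂.1]
  have hz1 : a₀ + a₁ + a₂ - 2 = 0 := by simpa using hz0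
  have ha0 : a₀ = 0 := by
    by_contra h
    have : a₀ ^ 2 ≥ 1 := by
      have : a₀ ^ 2 > 0 := by positivity
      omega
    nlinarith [p₁.1, p₂.1]
  subst ha0
  have h1 : (a₁ = 0 ∨ a₁ = 1) := by
    by_contra h
    push Not at h
    have := p₁.2 h.1 h.2
    nlinarith [p₂.1]
  have h2 : (a₂ = 0 ∨ a₂ = 1) := by
    by_contra h
    push Not at h
    have := p₂.2 h.1 h.2
    nlinarith [p₁.1]
  rcases h1 with rfl | rfl <;> rcases h2 with rfl | rfl <;> simp_all

end Cfsg.Agent.Lib.Recog13
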