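import Mathlib
import Cfsg.Agent.Lib.Recog13.Coh

/-!
# The coherence lemma, extraction steps
-/

set_option autoImplicit false

namespace Cfsg.Agent.Lib.Recog13

open Cfsg Cfsg.Agent.Lib.Char.Virtual Cfsg.Agent.Lib.Char.Induced
open scoped ComplexConjugate

universe u

variable {G : Type u} [Group G] [Fintype G]

/-- The family `1, g i b`. -/
def optFam (g : Fin 3 → Bool → G → ℂ) : Option (Fin 3 × Bool) → G → ℂ
  | none => 1
  | some x => g x.1 x.2

theorem optFam_orth {g : Fin 3 → Bool → G → ℂ} (hsg : ∀ i b, IsSignedIrr G (g i b))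
    (h1 : ∀ i b, classInner (g i b) 1 = 0)
    (hgg : ∀ i b j c, (i, b) ≠ (j, c) → classInner (g i b) (g j c) = 0) :
    ∀ a b, classInner (optFam g a) (optFam g b) = if a = b then 1 else 0 := by
  rintro (_ | ⟨i, b⟩) (_ | ⟨j, c⟩)
  · simp [optFam, classInner_irr_self (isIrr_one (G := G))]
  · simp [optFam, sym_zero (h1 j c)]
  · simp [optFam, h1 i b]
  · by_cases h : (i, b) = (j, c)
    · obtain ⟨rfl, rfl⟩ := Prod.mk.inj h
      simp [optFam, (hsg i b).classInner_self]
    · rw [if_neg (by simpa using h)]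
      exact hgg i b j c h

/-- Extraction of the signed irreducible in a character of norm 5. -/
theorem extract_gamma {g : Fin 3 → Bool → G → ℂ} (hsg : ∀ i b, IsSignedIrr G (g i b))
    (h1 : ∀ i b, classInner (g i b) 1 = 0)
    (hgg : ∀ i b j c, (i, b) ≠ (j, c) → classInner (g i b) (g j c) = 0)
    {Γ : G → ℂ} (hΓ : IsGeneralizedCharacter G Γ) (hN : classInner Γ Γ = 5)
    (hΓ1 : classInner Γ 1 = 1)
    (hΓF : ∀ i, classInner Γ (g i true) + classInner Γ (g i false) = 1) :
    ∃ (S : Fin 3 → Bool) (Z : G → ℂ), IsSignedIrr G Z ∧ classInner Z 1 = 0 ∧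
      (∀ i b, classInner Z (g i b) = 0) ∧ Γ = 1 + (g 0 (S 0) + g 1 (S 1) + g 2 (S 2)) - Z := by
  classical
  choose a ha using fun (i : Fin 3) (b : Bool) => exists_int_classInner hΓ (hsg i b).isGeneralized
  have hsum : ∀ i, a i true + a i false = 1 := by
    intro i
    have h2 := hΓF i
    rw [ha, ha] at h2
    exact_mod_cast h2
  have hb := bessel_int (optFam g) (optFam_orth hsg h1 hgg) Γ 5 (by rw [hN]; norm_num)
    (fun o => match o with
      | none => 1
      | some x => a x.1 x.2)
    (by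
      rintro (_ | ⟨i, b⟩)
      · simpa [optFam] using hΓ1
      · simpa [optFam] using ha i b)
  simp only [Fintype.sum_option, Fintype.sum_prod_type, Fin.sum_univ_three, Fintype.sum_bool] at hb
  have hb' : a 0 true ^ 2 + a 0 false ^ 2 + (a 1 true ^ 2 + a 1 false ^ 2) +
      (a 2 true ^ 2 + a 2 false ^ 2) ≤ 4 := by
    have : (1 : ℤ) ^ 2 = 1 := by norm_num
    linarith
  obtain ⟨h0', h1', h2'⟩ := int_gamma (hsum 0) (hsum 1) (hsum 2) hb'
  have hS : ∀ i, (a i true = 0 ∨ a i true = 1) → ∃ s : Bool, ∀ b, a i b = if b = s then 1 else 0 := by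
    intro i hi
    rcases hi with hi | hi
    · refine ⟨false, ?_⟩
      have h3 := hsum i
      rw [hi] at h3
      rintro (_ | _)
      · simpa using by omega
      · simpa using hi
    · refine ⟨true, ?_⟩
      have h3 := hsum i
      rw [hi] at h3
      rintro (_ | _)
      · simpa using by omega
      · simpa using hi
  have hS' : ∀ i, ∃ s : Bool, ∀ b, a i b = if b = s then 1 else 0 := by
    intro i
    fin_cases i
    · exact hS 0 h0'
    · exact hS 1 h1'
    · exact hS 2 h2'
  choose S hSa using hS'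
  have hg : ∀ i b, classInner Γ (g i b) = if b = S i then 1 else 0 := by
    intro i b
    rw [ha, hSa]
    split_ifs <;> simp
  have hg' : ∀ i b, classInner (g i b) Γ = if b = S i then 1 else 0 := by
    intro i b
    rw [← classInner_conj_symm, hg]
    split_ifs <;> simp
  have hΓ1' : classInner (1 : G → ℂ) Γ = 1 := sym_one hΓ1
  have h11 : classInner (1 : G → ℂ) 1 = 1 := classInner_irr_self isIrr_one
  have hg1 : ∀ i b, classInner (1 : G → ℂ) (g i b) = 0 := fun i b => sym_zero (h1 i b)
  have hgg' : ∀ i b c, classInner (g i b) (g i c) = if b = c then 1 else 0 := by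
    intro i b c
    by_cases h : b = c
    · subst h
      simp [(hsg i b).classInner_self]
    · rw [if_neg h]
      exact hgg i b i c (by simpa using h)
  have hij : ∀ i j b c, i ≠ j → classInner (g i b) (g j c) = 0 :=
    fun i j b c h => hgg i b j c (by simp [h])
  have h01 : (0 : Fin 3) ≠ 1 := by decide
  have h02 : (0 : Fin 3) ≠ 2 := by decide
  have h12 : (1 : Fin 3) ≠ 2 := by decide
  refine ⟨S, 1 + (g 0 (S 0) + g 1 (S 1) + g 2 (S 2)) - Γ, ?_, ?_, ?_, by abel⟩
  · apply isSignedIrr_of_norm_one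
    · exact isGeneralized_sub (isGeneralized_add (isGeneralized_of_isIrr isIrr_one)
        (isGeneralized_add (isGeneralized_add (hsg _ _).isGeneralized (hsg _ _).isGeneralized)
          (hsg _ _).isGeneralized)) hΓ
    · simp only [classInner_add_left, classInner_add_right, classInner_sub_left, classInner_sub_right,
        hN, hΓ1, hΓ1', h11, hg, hg', hg1, h1, hgg', hij _ _ _ _ h01, hij _ _ _ _ h02, hij _ _ _ _ h12,
        hij _ _ _ _ h01.symm, hij _ _ _ _ h02.symm, hij _ _ _ _ h12.symm]
      simp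
      norm_num
  · simp only [classInner_add_left, classInner_sub_left, hΓ1, h11, h1]
    simp
  · intro i b
    simp only [classInner_add_left, classInner_sub_left, hg, hg1]
    fin_cases i
    · simp only [Fin.zero_eta, hgg', hij _ _ _ _ h01.symm, hij _ _ _ _ h02.symm]
      rcases eq_or_ne b (S 0) with h | h
      · simp [h]
      · simp [h, h.symm]
    · simp only [Fin.mk_one, hgg', hij _ _ _ _ h01, hij _ _ _ _ h12.symm]
      rcases eq_or_ne b (S 1) with h | h
      · simp [h]
      · simp [h, h.symm]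
    · simp only [Fin.reduceFinMk, hgg', hij _ _ _ _ h02, hij _ _ _ _ h12]
      rcases eq_or_ne b (S 2) with h | h
      · simp [h]
      · simp [h, h.symm]

/-- Two characters of norm 5 with inner product 4 use the same choice. -/
theorem compare_gamma {g : Fin 3 → Bool → G → ℂ} (hsg : ∀ i b, IsSignedIrr G (g i b))
    (h1 : ∀ i b, classInner (g i b) 1 = 0)
    (hgg : ∀ i b j c, (i, b) ≠ (j, c) → classInner (g i b) (g j c) = 0)
    (hodd : ∀ i, g i true 1 ≠ g i false 1)
    {S S' : Fin 3 → Bool} {Z Z' : G → ℂ} (hZ : IsSignedIrr G Z) (hZ' : IsSignedIrr G Z')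
    (hZ1 : classInner Z 1 = 0) (hZ1' : classInner Z' 1 = 0)
    (hZg : ∀ i b, classInner Z (g i b) = 0) (hZg' : ∀ i b, classInner Z' (g i b) = 0)
    (h0 : (1 + (g 0 (S 0) + g 1 (S 1) + g 2 (S 2)) - Z) 1 = 0)
    (h0' : (1 + (g 0 (S' 0) + g 1 (S' 1) + g 2 (S' 2)) - Z') 1 = 0)
    (hin : classInner (1 + (g 0 (S 0) + g 1 (S 1) + g 2 (S 2)) - Z)
      (1 + (g 0 (S' 0) + g 1 (S' 1) + g 2 (S' 2)) - Z') = 4) :
    S = S' ∧ classInner Z Z' = 0 := by
  have h11 : classInner (1 : G → ℂ) 1 = 1 := classInner_irr_self isIrr_one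
  have hg1 : ∀ i b, classInner (1 : G → ℂ) (g i b) = 0 := fun i b => sym_zero (h1 i b)
  have hgZ : ∀ i b, classInner (g i b) Z' = 0 := fun i b => sym_zero (hZg' i b)
  have hij : ∀ i j b c, i ≠ j → classInner (g i b) (g j c) = 0 :=
    fun i j b c h => hgg i b j c (by simp [h])
  have h01 : (0 : Fin 3) ≠ 1 := by decide
  have h02 : (0 : Fin 3) ≠ 2 := by decide
  have h12 : (1 : Fin 3) ≠ 2 := by decide
  have h1Z : classInner (1 : G → ℂ) Z' = 0 := sym_zero hZ1'
  simp only [classInner_add_left, classInner_add_right, classInner_sub_left, classInner_sub_right,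
    h11, hg1, h1, hgZ, hZ1, hZg, h1Z, hij _ _ _ _ h01, hij _ _ _ _ h02, hij _ _ _ _ h12,
    hij _ _ _ _ h01.symm, hij _ _ _ _ h02.symm, hij _ _ _ _ h12.symm] at hin
  have hd : ∀ i, (S i = S' i ∧ classInner (g i (S i)) (g i (S' i)) = 1) ∨
      (S i ≠ S' i ∧ classInner (g i (S i)) (g i (S' i)) = 0) := by
    intro i
    by_cases h : S i = S' i
    · left
      refine ⟨h, ?_⟩
      rw [← h]
      exact (hsg i _).classInner_self
    · right
      exact ⟨h, hgg _ _ _ _ (by simp [h])⟩
  have hval : ∀ i, S i ≠ S' i → g i (S i) 1 ≠ g i (S' i) 1 := by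
    intro i h h2
    have h3 := hodd i
    cases hs : S i <;> cases hs' : S' i <;> simp [hs, hs'] at h h2
    · exact h3 h2.symm
    · exact h3 h2
  simp only [Pi.add_apply, Pi.sub_apply, Pi.one_apply] at h0 h0'
  rcases hd 0 with ⟨a0, b0⟩ | ⟨a0, b0⟩ <;> rcases hd 1 with ⟨a1, b1⟩ | ⟨a1, b1⟩ <;>
    rcases hd 2 with ⟨a2, b2⟩ | ⟨a2, b2⟩ <;> rw [b0, b1, b2] at hin <;>
    rcases IsSignedIrr.classInner_cases hZ hZ' with h | ⟨h, h'⟩ | ⟨h, h'⟩ <;> rw [h] at hin <;>
    norm_num at hin
  · refine ⟨?_, h⟩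
    funext i
    fin_cases i
    · exact a0
    · exact a1
    · exact a2
  · exfalso
    rw [h'] at h0
    rw [← a0, ← a1] at h0'
    exact hval 2 a2 (by linear_combination h0 - h0')
  · exfalso
    rw [h'] at h0
    rw [← a0, ← a2] at h0'
    exact hval 1 a1 (by linear_combination h0 - h0')
  · exfalso
    rw [h'] at h0
    rw [← a1, ← a2] at h0'
    exact hval 0 a0 (by linear_combination h0 - h0')

/-- The family for the extraction of `F'`. -/
def optFam2 (g : Fin 3 → Bool → G → ℂ) (Z : Fin 5 → G → ℂ) : Option ((Fin 3 × Bool) ⊕ Fin 5) → G → ℂ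
  | none => 1
  | some (Sum.inl x) => g x.1 x.2
  | some (Sum.inr m) => Z m

theorem optFam2_orth {g : Fin 3 → Bool → G → ℂ} (hsg : ∀ i b, IsSignedIrr G (g i b))
    (h1 : ∀ i b, classInner (g i b) 1 = 0)
    (hgg : ∀ i b j c, (i, b) ≠ (j, c) → classInner (g i b) (g j c) = 0)
    {Z : Fin 5 → G → ℂ} (hZ : ∀ m, IsSignedIrr G (Z m)) (hZ1 : ∀ m, classInner (Z m) 1 = 0)
    (hZg : ∀ m i b, classInner (Z m) (g i b) = 0) (hZZ : ∀ m n, m ≠ n → classInner (Z m) (Z n) = 0) :
    ∀ a b, classInner (optFam2 g Z a) (optFam2 g Z b) = if a = b then 1 else 0 := by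
  rintro (_ | ⟨i, b⟩ | m) (_ | ⟨j, c⟩ | n)
  · simp [optFam2, classInner_irr_self (isIrr_one (G := G))]
  · simp [optFam2, sym_zero (h1 j c)]
  · simp [optFam2, sym_zero (hZ1 n)]
  · simp [optFam2, h1 i b]
  · by_cases h : (i, b) = (j, c)
    · obtain ⟨rfl, rfl⟩ := Prod.mk.inj h
      simp [optFam2, (hsg i b).classInner_self]
    · rw [if_neg (by simpa using h)]
      exact hgg i b j c h
  · simp [optFam2, sym_zero (hZg n i b)]
  · simp [optFam2, hZ1 m]
  · simp [optFam2, hZg m j c]
  · by_cases h : m = n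
    · subst h
      simp [optFam2, (hZ m).classInner_self]
    · rw [if_neg (by simpa using h)]
      exact hZZ m n h

/-- Extraction of the signed irreducible in a character of norm 3 of the second kind. -/
theorem extract_prime {g : Fin 3 → Bool → G → ℂ} (hsg : ∀ i b, IsSignedIrr G (g i b))
    (h1 : ∀ i b, classInner (g i b) 1 = 0)
    (hgg : ∀ i b j c, (i, b) ≠ (j, c) → classInner (g i b) (g j c) = 0)
    {Z : Fin 5 → G → ℂ} (hZ : ∀ m, IsSignedIrr G (Z m)) (hZ1 : ∀ m, classInner (Z m) 1 = 0)
    (hZg : ∀ m i b, classInner (Z m) (g i b) = 0) (hZZ : ∀ m n, m ≠ n → classInner (Z m) (Z n) = 0)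
    {θ : G → ℂ} (hθ : IsGeneralizedCharacter G θ) (hN : classInner θ θ = 3)
    (hθ1 : classInner θ 1 = 0) (j k l : Fin 3) (hjk : j ≠ k) (hjl : j ≠ l) (hkl : k ≠ l)
    (hsum : ∀ f : Fin 3 → ℤ, ∑ i, f i = f j + f k + f l)
    (hj : classInner θ (g j true) + classInner θ (g j false) = 0)
    (hk : classInner θ (g k true) + classInner θ (g k false) = 1)
    (hl : classInner θ (g l true) + classInner θ (g l false) = 1)
    (hΓ : ∀ m, classInner θ (g j true) + classInner θ (g k true) + classInner θ (g l true) -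
      classInner θ (Z m) = 2) :
    ∃ Y : G → ℂ, IsSignedIrr G Y ∧ classInner Y 1 = 0 ∧ (∀ i b, classInner Y (g i b) = 0) ∧
      (∀ m, classInner Y (Z m) = 0) ∧ θ = g k true + g l true - Y := by
  classical
  choose a ha using fun (i : Fin 3) (b : Bool) => exists_int_classInner hθ (hsg i b).isGeneralized
  choose z hz using fun (m : Fin 5) => exists_int_classInner hθ (hZ m).isGeneralized
  have hb := bessel_int (optFam2 g Z) (optFam2_orth hsg h1 hgg hZ hZ1 hZg hZZ) θ 3 (by rw [hN]; norm_num)
    (fun o => match o with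
      | none => 0
      | some (Sum.inl x) => a x.1 x.2
      | some (Sum.inr m) => z m)
    (by
      rintro (_ | ⟨i, b⟩ | m)
      · simpa [optFam2] using hθ1
      · simpa [optFam2] using ha i b
      · simpa [optFam2] using hz m)
  simp only [Fintype.sum_option, Fintype.sum_sum_type, Fintype.sum_prod_type, hsum,
    Fin.sum_univ_five, Fintype.sum_bool] at hb
  simp only [ha, hz] at hj hk hl hΓ
  have hj' : a j true + a j false = 0 := by exact_mod_cast hj
  have hk' : a k true + a k false = 1 := by exact_mod_cast hk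
  have hl' : a l true + a l false = 1 := by exact_mod_cast hl
  have hzm : ∀ m, z m = a j true + a k true + a l true - 2 := by
    intro m
    have h2 := hΓ m
    have h3 : (a j true + a k true + a l true - z m : ℤ) = 2 := by exact_mod_cast h2
    omega
  have hb' : a j true ^ 2 + a j false ^ 2 + (a k true ^ 2 + a k false ^ 2) +
      (a l true ^ 2 + a l false ^ 2) + 5 * z 0 ^ 2 ≤ 3 := by
    have e1 := hzm 0
    have e2 := hzm 1
    have e3 := hzm 2
    have e4 := hzm 3
    have e5 := hzm 4
    rw [← e1] at e2 e3 e4 e5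
    rw [e2, e3, e4, e5] at hb
    have : (0 : ℤ) ^ 2 = 0 := by norm_num
    linarith
  obtain ⟨v1, v2, v3, v4, v5, v6, v7⟩ := int_prime hj' hk' hl' (hzm 0) hb'
  have hzz : ∀ m, classInner θ (Z m) = 0 := by
    intro m
    rw [hz, hzm m, ← hzm 0, v7]
    simp
  have ev : ∀ i b, classInner θ (g i b) = if (b = true ∧ (i = k ∨ i = l)) then 1 else 0 := by
    intro i b
    have hi : i = j ∨ i = k ∨ i = l := by
      have := hsum (fun x => if x = i then 1 else 0)
      simp only [Finset.sum_ite_eq', Finset.mem_univ, if_true] at this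
      by_contra hne
      push Not at hne
      rw [if_neg hne.1.symm, if_neg hne.2.1.symm, if_neg hne.2.2.symm] at this
      norm_num at this
    rw [ha]
    rcases hi with rfl | rfl | rfl <;> cases b <;> simp [v1, v2, v3, v4, v5, v6, hjk, hjl, hkl]
  have ev' : ∀ i b, classInner (g i b) θ = if (b = true ∧ (i = k ∨ i = l)) then 1 else 0 := by
    intro i b
    rw [← classInner_conj_symm, ev]
    split_ifs <;> simp
  have hgg' : ∀ i b c, classInner (g i b) (g i c) = if b = c then 1 else 0 := by
    intro i b c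
    by_cases h : b = c
    · subst h
      simp [(hsg i b).classInner_self]
    · rw [if_neg h]
      exact hgg i b i c (by simpa using h)
  have hij : ∀ i j b c, i ≠ j → classInner (g i b) (g j c) = 0 :=
    fun i j b c h => hgg i b j c (by simp [h])
  have h1θ : classInner (1 : G → ℂ) θ = 0 := sym_zero hθ1
  refine ⟨g k true + g l true - θ, ?_, ?_, ?_, ?_, by abel⟩
  · apply isSignedIrr_of_norm_one
    · exact isGeneralized_sub (isGeneralized_add (hsg _ _).isGeneralized (hsg _ _).isGeneralized) hθ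
    · simp only [classInner_add_left, classInner_add_right, classInner_sub_left, classInner_sub_right,
        hN, ev, ev', hgg', hij _ _ _ _ hkl, hij _ _ _ _ hkl.symm]
      simp [hkl, hkl.symm]
      norm_num
  · simp only [classInner_add_left, classInner_sub_left, hθ1, h1]
    simp
  · intro i b
    simp only [classInner_add_left, classInner_sub_left, ev]
    by_cases hik : i = k
    · subst hik
      rw [hgg', hij _ _ _ _ hkl.symm]
      cases b <;> simp
    · by_cases hil : i = l
      · subst hil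
        rw [hgg', hij _ _ _ _ hkl]
        cases b <;> simp
      · rw [hij _ _ _ _ (Ne.symm hik), hij _ _ _ _ (Ne.symm hil)]
        simp [hik, hil]
  · intro m
    simp only [classInner_add_left, classInner_sub_left, hzz, sym_zero (hZg m _ _)]
    simp

end Cfsg.Agent.Lib.Recog13
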