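import Mathlib
import Cfsg.Agent.Lib.Recog13.Coh2

/-!
# The coherence lemma
-/

set_option autoImplicit false

namespace Cfsg.Agent.Lib.Recog13

open Cfsg Cfsg.Agent.Lib.Char.Virtual Cfsg.Agent.Lib.Char.Induced
open scoped ComplexConjugate

universe u

variable {G : Type u} [Group G] [Fintype G]

/-- The family of 15 signed irreducible characters. -/
def fam (X Y Y' : Fin 3 → G → ℂ) (Z : Fin 5 → G → ℂ) : Option (Fin 3 ⊕ Fin 3 ⊕ Fin 3 ⊕ Fin 5) → G → ℂ
  | none => 1
  | some (Sum.inl i) => X i
  | some (Sum.inr (Sum.inl i)) => Y i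
  | some (Sum.inr (Sum.inr (Sum.inl i))) => Y' i
  | some (Sum.inr (Sum.inr (Sum.inr m))) => Z m

theorem fam_orth {X Y Y' : Fin 3 → G → ℂ} {Z : Fin 5 → G → ℂ}
    (hX1 : ∀ i, classInner (X i) 1 = 0) (hY1 : ∀ i, classInner (Y i) 1 = 0)
    (hY'1 : ∀ i, classInner (Y' i) 1 = 0) (hZ1 : ∀ i, classInner (Z i) 1 = 0)
    (hXX : ∀ i j, i ≠ j → classInner (X i) (X j) = 0)
    (hXY : ∀ i j, classInner (X i) (Y j) = 0)
    (hXY' : ∀ i j, classInner (X i) (Y' j) = 0)
    (hXZ : ∀ i j, classInner (X i) (Z j) = 0)
    (hYY : ∀ i j, i ≠ j → classInner (Y i) (Y j) = 0)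
    (hYY' : ∀ i j, classInner (Y i) (Y' j) = 0)
    (hYZ : ∀ i j, classInner (Y i) (Z j) = 0)
    (hY'Y' : ∀ i j, i ≠ j → classInner (Y' i) (Y' j) = 0)
    (hY'Z : ∀ i j, classInner (Y' i) (Z j) = 0)
    (hZZ : ∀ i j, i ≠ j → classInner (Z i) (Z j) = 0) :
    ∀ a b, a ≠ b → classInner (fam X Y Y' Z a) (fam X Y Y' Z b) = 0 := by
  rintro (_ | i | i | i | i) (_ | j | j | j | j) hab
  · exact absurd rfl hab
  · exact sym_zero (hX1 j)
  · exact sym_zero (hY1 j)
  · exact sym_zero (hY'1 j)
  · exact sym_zero (hZ1 j)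
  · exact hX1 i
  · exact hXX i j (fun h => hab (by rw [h]))
  · exact hXY i j
  · exact hXY' i j
  · exact hXZ i j
  · exact hY1 i
  · exact sym_zero (hXY j i)
  · exact hYY i j (fun h => hab (by rw [h]))
  · exact hYY' i j
  · exact hYZ i j
  · exact hY'1 i
  · exact sym_zero (hXY' j i)
  · exact sym_zero (hYY' j i)
  · exact hY'Y' i j (fun h => hab (by rw [h]))
  · exact hY'Z i j
  · exact hZ1 i
  · exact sym_zero (hXZ j i)
  · exact sym_zero (hYZ j i)
  · exact sym_zero (hY'Z j i)
  · exact hZZ i j (fun h => hab (by rw [h]))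

theorem IsSignedIrr.neg' {θ : G → ℂ} (h : IsSignedIrr G θ) : IsSignedIrr G (-θ) := by
  rcases h with h | h
  · exact Or.inr (by rwa [neg_neg])
  · exact Or.inl h

/-- The coherence lemma. -/
theorem coherence
    {F F' : Fin 3 → G → ℂ} {Γ : Fin 5 → G → ℂ}
    (gF : ∀ i, IsGeneralizedCharacter G (F i)) (gF' : ∀ i, IsGeneralizedCharacter G (F' i))
    (gΓ : ∀ m, IsGeneralizedCharacter G (Γ m))
    (hFF : ∀ i j, classInner (F i) (F j) = if i = j then 3 else 1)
    (hF1 : ∀ i, classInner (F i) 1 = 1) (hF0 : ∀ i, F i 1 = 0)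
    (hΓΓ : ∀ m n, classInner (Γ m) (Γ n) = if m = n then 5 else 4)
    (hΓF : ∀ m i, classInner (Γ m) (F i) = 2) (hΓ1 : ∀ m, classInner (Γ m) 1 = 1)
    (hΓ0 : ∀ m, Γ m 1 = 0)
    (hPP : ∀ i j, classInner (F' i) (F' j) = if i = j then 3 else 1)
    (hPF : ∀ i j, classInner (F' i) (F j) = if i = j then 0 else 1)
    (hPΓ : ∀ i m, classInner (F' i) (Γ m) = 2)
    (hP1 : ∀ i, classInner (F' i) 1 = 0) :
    ∃ (X Y Y' : Fin 3 → G → ℂ) (Z : Fin 5 → G → ℂ),
      (∀ a, IsSignedIrr G (fam X Y Y' Z a)) ∧
      (∀ a b, a ≠ b → classInner (fam X Y Y' Z a) (fam X Y Y' Z b) = 0) ∧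
      (∀ i, F i = 1 + X i - Y i) ∧
      F' 0 = X 1 + X 2 - Y' 0 ∧ F' 1 = X 0 + X 2 - Y' 1 ∧ F' 2 = X 0 + X 1 - Y' 2 ∧
      (∀ m, Γ m = 1 + (X 0 + X 1 + X 2) - Z m) := by
  classical
  choose p q hp hq hpq hp1 hq1 hFe hv using fun i =>
    split_three (gF i) (by rw [hFF, if_pos rfl]) (hF1 i) (hF0 i)
  have h11 : classInner (1 : G → ℂ) 1 = 1 := classInner_irr_self isIrr_one
  have hPO : ∀ i j, i ≠ j → classInner (p i) (p j) = 0 ∧ classInner (p i) (q j) = 0 ∧
      classInner (q i) (p j) = 0 ∧ classInner (q i) (q j) = 0 := by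
    intro i j hij
    refine pair_orth (hp i) (hq i) (hp j) (hq j) (hpq i) (hpq j) ?_ (hv i) (hv j)
    have h := hFF i j
    rw [if_neg hij, hFe i, hFe j] at h
    simp only [classInner_add_left, classInner_add_right, h11, hp1, hq1, sym_zero (hp1 j),
      sym_zero (hq1 j)] at h ⊢
    linear_combination h
  -- the family `g`
  set g : Fin 3 → Bool → G → ℂ := fun i b => if b then p i else q i with hgdef
  have hgt : ∀ i, g i true = p i := fun i => by simp [hgdef]
  have hgf : ∀ i, g i false = q i := fun i => by simp [hgdef]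
  have hsg : ∀ i b, IsSignedIrr G (g i b) := by
    intro i b
    cases b
    · rw [hgf]; exact hq i
    · rw [hgt]; exact hp i
  have hg1 : ∀ i b, classInner (g i b) 1 = 0 := by
    intro i b
    cases b
    · rw [hgf]; exact hq1 i
    · rw [hgt]; exact hp1 i
  have hgg : ∀ i b j c, (i, b) ≠ (j, c) → classInner (g i b) (g j c) = 0 := by
    intro i b j c h
    by_cases hij : i = j
    · subst hij
      have hbc : b ≠ c := fun h2 => h (by rw [h2])
      cases b <;> cases c
      · exact absurd rfl hbc
      · rw [hgf, hgt]; exact sym_zero (hpq i)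
      · rw [hgf, hgt]; exact hpq i
      · exact absurd rfl hbc
    · obtain ⟨a1, a2, a3, a4⟩ := hPO i j hij
      cases b <;> cases c
      · rw [hgf, hgf]; exact a4
      · rw [hgf, hgt]; exact a3
      · rw [hgf, hgt]; exact a2
      · rw [hgt, hgt]; exact a1
  have hodd : ∀ i, g i true 1 ≠ g i false 1 := by
    intro i h
    rw [hgt, hgf] at h
    obtain ⟨a, _, ha⟩ := signed_exists_int_one (hp i)
    obtain ⟨b, _, hb⟩ := signed_exists_int_one (hq i)
    have h2 := hv i
    rw [h, hb] at h2
    have h3 : b + b = -1 := by exact_mod_cast h2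
    omega
  have hFg : ∀ i, F i = 1 + g i true + g i false := by
    intro i
    rw [hgt, hgf]
    exact hFe i
  -- the characters of norm 5
  choose S Z hZ hZ1 hZg hΓe using fun m => extract_gamma hsg hg1 hgg (gΓ m)
    (by rw [hΓΓ, if_pos rfl]) (hΓ1 m) (by
      intro i
      have h := hΓF m i
      rw [hFg i, classInner_add_right, classInner_add_right, hΓ1 m] at h
      linear_combination h)
  have hcmp : ∀ m n, m ≠ n → S m = S n ∧ classInner (Z m) (Z n) = 0 := by
    intro m n hmn
    exact compare_gamma hsg hg1 hgg hodd (hZ m) (hZ n) (hZ1 m) (hZ1 n) (hZg m) (hZg n)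
      (by rw [← hΓe m]; exact hΓ0 m) (by rw [← hΓe n]; exact hΓ0 n)
      (by rw [← hΓe m, ← hΓe n, hΓΓ, if_neg hmn])
  have hS : ∀ m, S m = S 0 := by
    intro m
    by_cases h : m = 0
    · rw [h]
    · exact (hcmp m 0 h).1
  have hZZ : ∀ m n, m ≠ n → classInner (Z m) (Z n) = 0 := fun m n h => (hcmp m n h).2
  set s := S 0 with hs
  -- the family after the choice
  set g' : Fin 3 → Bool → G → ℂ := fun i b => g i (b == s i) with hg'def
  have hsg' : ∀ i b, IsSignedIrr G (g' i b) := fun i b => hsg i _
  have hg1' : ∀ i b, classInner (g' i b) 1 = 0 := fun i b => hg1 i _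
  have hgg' : ∀ i b j c, (i, b) ≠ (j, c) → classInner (g' i b) (g' j c) = 0 := by
    intro i b j c h
    apply hgg
    intro h2
    obtain ⟨rfl, h3⟩ := Prod.mk.inj h2
    apply h
    have hbc : b = c := (by decide : ∀ b c x : Bool, (b == x) = (c == x) → b = c) b c (s i) h3
    rw [hbc]
  have hZg' : ∀ m i b, classInner (Z m) (g' i b) = 0 := fun m i b => hZg m i _
  have hgZ' : ∀ m i b, classInner (g' i b) (Z m) = 0 := fun m i b => sym_zero (hZg' m i b)
  have hFg' : ∀ i, F i = 1 + g' i true + g' i false := by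
    intro i
    rw [hFg]
    simp only [hg'def]
    cases s i
    · have e1 : (true == false) = false := rfl
      have e2 : (false == false) = true := rfl
      rw [e1, e2]
      abel
    · have e1 : (true == true) = true := rfl
      have e2 : (false == true) = false := rfl
      rw [e1, e2]
  have hΓg' : ∀ m, Γ m = 1 + (g' 0 true + g' 1 true + g' 2 true) - Z m := by
    intro m
    rw [hΓe m, hS m]
    simp [hg'def]
  -- the characters of the second kind
  have key : ∀ j k l : Fin 3, j ≠ k → j ≠ l → k ≠ l →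
      (∀ f : Fin 3 → ℤ, ∑ i, f i = f j + f k + f l) →
      (∀ f : Fin 3 → (G → ℂ), f 0 + f 1 + f 2 = f j + f k + f l) →
      ∃ Y : G → ℂ, IsSignedIrr G Y ∧ classInner Y 1 = 0 ∧ (∀ i b, classInner Y (g' i b) = 0) ∧
      (∀ m, classInner Y (Z m) = 0) ∧ F' j = g' k true + g' l true - Y := by
    intro j k l hjk hjl hkl hsum hsum2
    refine extract_prime hsg' hg1' hgg' hZ hZ1 hZg' hZZ (gF' j) (by rw [hPP, if_pos rfl]) (hP1 j)
      j k l hjk hjl hkl hsum ?_ ?_ ?_ ?_
    · have h := hPF j j
      rw [if_pos rfl, hFg' j, classInner_add_right, classInner_add_right, hP1] at h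
      linear_combination h
    · have h := hPF j k
      rw [if_neg hjk, hFg' k, classInner_add_right, classInner_add_right, hP1] at h
      linear_combination h
    · have h := hPF j l
      rw [if_neg hjl, hFg' l, classInner_add_right, classInner_add_right, hP1] at h
      linear_combination h
    · intro m
      have h := hPΓ j m
      rw [hΓg' m, hsum2 (fun i => g' i true)] at h
      simp only [classInner_add_right, classInner_sub_right, hP1] at h
      linear_combination h
  obtain ⟨Y₀, a01, a02, a03, a04, a05⟩ := key 0 1 2 (by decide) (by decide) (by decide)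
    (fun f => by simp [Fin.sum_univ_three]) (fun f => rfl)
  obtain ⟨Y₁, a11, a12, a13, a14, a15⟩ := key 1 0 2 (by decide) (by decide) (by decide)
    (fun f => by simp [Fin.sum_univ_three]; ring) (fun f => by abel)
  obtain ⟨Y₂, a21, a22, a23, a24, a25⟩ := key 2 0 1 (by decide) (by decide) (by decide)
    (fun f => by simp [Fin.sum_univ_three]; ring) (fun f => by abel)
  have hXY₀₁ : classInner Y₀ Y₁ = 0 := by
    have h := hPP 0 1
    rw [if_neg (by decide), a05, a15] at h
    simp only [classInner_add_left, classInner_add_right, classInner_sub_left, classInner_sub_right,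
      a03, a13, sym_zero (a03 _ _), sym_zero (a13 _ _)] at h
    have e1 := hgg' 1 true 0 true (by decide)
    have e2 := hgg' 1 true 2 true (by decide)
    have e3 := hgg' 2 true 0 true (by decide)
    have e4 := (hsg' 2 true).classInner_self
    rw [e1, e2, e3, e4] at h
    linear_combination h
  have hXY₀₂ : classInner Y₀ Y₂ = 0 := by
    have h := hPP 0 2
    rw [if_neg (by decide), a05, a25] at h
    simp only [classInner_add_left, classInner_add_right, classInner_sub_left, classInner_sub_right,
      a03, a23, sym_zero (a03 _ _), sym_zero (a23 _ _)] at h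
    have e1 := hgg' 1 true 0 true (by decide)
    have e2 := hgg' 2 true 0 true (by decide)
    have e3 := hgg' 2 true 1 true (by decide)
    have e4 := (hsg' 1 true).classInner_self
    rw [e1, e2, e3, e4] at h
    linear_combination h
  have hXY₁₂ : classInner Y₁ Y₂ = 0 := by
    have h := hPP 1 2
    rw [if_neg (by decide), a15, a25] at h
    simp only [classInner_add_left, classInner_add_right, classInner_sub_left, classInner_sub_right,
      a13, a23, sym_zero (a13 _ _), sym_zero (a23 _ _)] at h
    have e1 := hgg' 0 true 1 true (by decide)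
    have e2 := hgg' 2 true 0 true (by decide)
    have e3 := hgg' 2 true 1 true (by decide)
    have e4 := (hsg' 0 true).classInner_self
    rw [e1, e2, e3, e4] at h
    linear_combination h
  -- assembly
  set Y' : Fin 3 → G → ℂ := ![Y₀, Y₁, Y₂] with hY'def
  have hY'0 : Y' 0 = Y₀ := rfl
  have hY'1 : Y' 1 = Y₁ := rfl
  have hY'2 : Y' 2 = Y₂ := rfl
  have hY's : ∀ i, IsSignedIrr G (Y' i) := by
    intro i
    fin_cases i
    · exact a01
    · exact a11
    · exact a21
  have hY'e1 : ∀ i, classInner (Y' i) 1 = 0 := by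
    intro i
    fin_cases i
    · exact a02
    · exact a12
    · exact a22
  have hY'g : ∀ i j b, classInner (Y' i) (g' j b) = 0 := by
    intro i j b
    fin_cases i
    · exact a03 j b
    · exact a13 j b
    · exact a23 j b
  have hY'Z : ∀ i m, classInner (Y' i) (Z m) = 0 := by
    intro i m
    fin_cases i
    · exact a04 m
    · exact a14 m
    · exact a24 m
  have hY'Y' : ∀ i j, i ≠ j → classInner (Y' i) (Y' j) = 0 := by
    intro i j hij
    fin_cases i <;> fin_cases j
    · exact absurd rfl hij
    · exact hXY₀₁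
    · exact hXY₀₂
    · exact sym_zero hXY₀₁
    · exact absurd rfl hij
    · exact hXY₁₂
    · exact sym_zero hXY₀₂
    · exact sym_zero hXY₁₂
    · exact absurd rfl hij
  refine ⟨fun i => g' i true, fun i => - g' i false, Y', Z, ?_, ?_, ?_, a05, a15, a25, hΓg'⟩
  · rintro (_ | i | i | i | i)
    · exact Or.inl isIrr_one
    · exact hsg' i true
    · exact IsSignedIrr.neg' (hsg' i false)
    · exact hY's i
    · exact hZ i
  · apply fam_orth
    · exact fun i => hg1' i true
    · intro i
      simp only [classInner_neg_left, hg1', neg_zero]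
    · exact hY'e1
    · exact hZ1
    · exact fun i j h => hgg' i true j true (by simp [h])
    · intro i j
      simp only [classInner_neg_right]
      rw [hgg' i true j false (by simp), neg_zero]
    · exact fun i j => sym_zero (hY'g j i true)
    · exact fun i j => hgZ' j i true
    · intro i j h
      simp only [classInner_neg_right, classInner_neg_left]
      rw [hgg' i false j false (by simp [h])]
      simp
    · intro i j
      simp only [classInner_neg_left]
      rw [sym_zero (hY'g j i false), neg_zero]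
    · intro i j
      simp only [classInner_neg_left]
      rw [hgZ', neg_zero]
    · exact hY'Y'
    · exact hY'Z
    · exact hZZ
  · intro i
    rw [hFg' i]
    simp only [sub_neg_eq_add]

end Cfsg.Agent.Lib.Recog13
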