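import Mathlib

/-!
# A norm computation for the columns of the family
-/

set_option autoImplicit false

namespace Cfsg.Agent.Lib.Recog13

/-- The column lemma. -/
theorem column_lemma {a0 a1 a2 b0 b1 b2 p0 p1 p2 c0 c1 c2 : ℂ} {m : Fin 5 → ℂ} {C : ℝ}
    (hC : 1 + (Complex.normSq a0 + Complex.normSq a1 + Complex.normSq a2) +
      (Complex.normSq b0 + Complex.normSq b1 + Complex.normSq b2) +
      (Complex.normSq p0 + Complex.normSq p1 + Complex.normSq p2) +
      (Complex.normSq (m 0) + Complex.normSq (m 1) + Complex.normSq (m 2) + Complex.normSq (m 3) +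
        Complex.normSq (m 4)) = C)
    (r0 : a0.re + b0.re + p1.re + p2.re +
      ((m 0).re + (m 1).re + (m 2).re + (m 3).re + (m 4).re) = 0)
    (r1 : a1.re + b1.re + p0.re + p2.re +
      ((m 0).re + (m 1).re + (m 2).re + (m 3).re + (m 4).re) = 0)
    (r2 : a2.re + b2.re + p0.re + p1.re +
      ((m 0).re + (m 1).re + (m 2).re + (m 3).re + (m 4).re) = 0)
    (i0 : a0.im + b0.im + p1.im + p2.im +
      ((m 0).im + (m 1).im + (m 2).im + (m 3).im + (m 4).im) = 0)
    (i1 : a1.im + b1.im + p0.im + p2.im +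
      ((m 0).im + (m 1).im + (m 2).im + (m 3).im + (m 4).im) = 0)
    (i2 : a2.im + b2.im + p0.im + p1.im +
      ((m 0).im + (m 1).im + (m 2).im + (m 3).im + (m 4).im) = 0)
    (hB : 1 + (Complex.normSq (a0 + c0) + Complex.normSq (a1 + c1) + Complex.normSq (a2 + c2)) +
      (Complex.normSq (b0 + c0) + Complex.normSq (b1 + c1) + Complex.normSq (b2 + c2)) +
      (Complex.normSq (p0 + (c1 + c2)) + Complex.normSq (p1 + (c0 + c2)) + Complex.normSq (p2 + (c0 + c1))) +
      (Complex.normSq (m 0 + (c0 + c1 + c2)) + Complex.normSq (m 1 + (c0 + c1 + c2)) +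
        Complex.normSq (m 2 + (c0 + c1 + c2)) + Complex.normSq (m 3 + (c0 + c1 + c2)) +
        Complex.normSq (m 4 + (c0 + c1 + c2))) ≤ C) :
    c0 = 0 ∧ c1 = 0 ∧ c2 = 0 := by
  simp only [Complex.normSq_apply, Complex.add_re, Complex.add_im] at hC hB
  have e0 : c0.re * (a0.re + b0.re + p1.re + p2.re +
      ((m 0).re + (m 1).re + (m 2).re + (m 3).re + (m 4).re)) = 0 := by rw [r0, mul_zero]
  have e1 : c1.re * (a1.re + b1.re + p0.re + p2.re +
      ((m 0).re + (m 1).re + (m 2).re + (m 3).re + (m 4).re)) = 0 := by rw [r1, mul_zero]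
  have e2 : c2.re * (a2.re + b2.re + p0.re + p1.re +
      ((m 0).re + (m 1).re + (m 2).re + (m 3).re + (m 4).re)) = 0 := by rw [r2, mul_zero]
  have f0 : c0.im * (a0.im + b0.im + p1.im + p2.im +
      ((m 0).im + (m 1).im + (m 2).im + (m 3).im + (m 4).im)) = 0 := by rw [i0, mul_zero]
  have f1 : c1.im * (a1.im + b1.im + p0.im + p2.im +
      ((m 0).im + (m 1).im + (m 2).im + (m 3).im + (m 4).im)) = 0 := by rw [i1, mul_zero]
  have f2 : c2.im * (a2.im + b2.im + p0.im + p1.im +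
      ((m 0).im + (m 1).im + (m 2).im + (m 3).im + (m 4).im)) = 0 := by rw [i2, mul_zero]
  have hQ : 2 * (c0.re ^ 2 + c0.im ^ 2 + c1.re ^ 2 + c1.im ^ 2 + c2.re ^ 2 + c2.im ^ 2) +
      ((c1.re + c2.re) ^ 2 + (c1.im + c2.im) ^ 2 + (c0.re + c2.re) ^ 2 + (c0.im + c2.im) ^ 2 +
        (c0.re + c1.re) ^ 2 + (c0.im + c1.im) ^ 2) +
      5 * ((c0.re + c1.re + c2.re) ^ 2 + (c0.im + c1.im + c2.im) ^ 2) ≤ 0 := by
    linarith only [hC, hB, e0, e1, e2, f0, f1, f2]
  have pos : ∀ x : ℝ, 0 ≤ x ^ 2 := fun x => sq_nonneg x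
  have h1 : c0.re ^ 2 + c0.im ^ 2 + c1.re ^ 2 + c1.im ^ 2 + c2.re ^ 2 + c2.im ^ 2 ≤ 0 := by
    linarith only [hQ, pos (c1.re + c2.re), pos (c1.im + c2.im), pos (c0.re + c2.re), pos (c0.im + c2.im),
      pos (c0.re + c1.re), pos (c0.im + c1.im), pos (c0.re + c1.re + c2.re), pos (c0.im + c1.im + c2.im)]
  have z : ∀ x : ℝ, x ^ 2 ≤ 0 → x = 0 := fun x hx => by nlinarith only [hx, pos x]
  have p1' := pos c0.re
  have p2' := pos c0.im
  have p3' := pos c1.re
  have p4' := pos c1.im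
  have p5' := pos c2.re
  have p6' := pos c2.im
  refine ⟨Complex.ext (z _ (by linarith)) (z _ (by linarith)), Complex.ext (z _ (by linarith))
    (z _ (by linarith)), Complex.ext (z _ (by linarith)) (z _ (by linarith))⟩

end Cfsg.Agent.Lib.Recog13
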