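import Mathlib

/-!
# The model `3^3:2^2` inside `D3 × D3 × D3`: integer functions and Gram tables
-/

set_option autoImplicit false

namespace Cfsg.Agent.Lib.Recog13

open DihedralGroup

/-- The dihedral group of order 6. -/
abbrev D3 := DihedralGroup 3
/-- The triple product. -/
abbrev Q3 := D3 × D3 × D3

/-- The sign. -/
def sg : D3 → ℤ
  | r _ => 1
  | sr _ => -1

/-- The two-dimensional character. -/
def rho : D3 → ℤ
  | r i => if i = 0 then 2 else -1
  | sr _ => 0

/-- The difference of the two non-trivial linear characters of the rotations, up to `√-3`. -/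
def kap : D3 → ℤ
  | r i => if i = 0 then 0 else if i = 1 then 1 else -1
  | sr _ => 0

/-- Coordinates. -/
def cd (i : Fin 3) (q : Q3) : D3 :=
  match i with
  | 0 => q.1
  | 1 => q.2.1
  | 2 => q.2.2

/-- Signs on the product. -/
def eZ (i : Fin 3) (q : Q3) : ℤ := sg (cd i q)
/-- `rho` on the product. -/
def rZ (i : Fin 3) (q : Q3) : ℤ := rho (cd i q)
/-- The product of `kap`. -/
def kZ (q : Q3) : ℤ := kap q.1 * kap q.2.1 * kap q.2.2
/-- The product of `rho`. -/
def RZ (q : Q3) : ℤ := rho q.1 * rho q.2.1 * rho q.2.2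
/-- The sum of signs. -/
def sZ (q : Q3) : ℤ := eZ 0 q + eZ 1 q + eZ 2 q

/-- Twice the first family. -/
def aF (i : Fin 3) (q : Q3) : ℤ := 2 * (1 + eZ i q - rZ i q)

/-- The second factors of the second family. -/
def rP (i : Fin 3) (q : Q3) : ℤ :=
  match i with
  | 0 => rZ 0 q * eZ 1 q
  | 1 => rZ 1 q * eZ 0 q
  | 2 => rZ 2 q * eZ 0 q

/-- Twice the second family. -/
def aP (i : Fin 3) (q : Q3) : ℤ :=
  match i with
  | 0 => 2 * (eZ 1 q + eZ 2 q - rP 0 q)
  | 1 => 2 * (eZ 0 q + eZ 2 q - rP 1 q)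
  | 2 => 2 * (eZ 0 q + eZ 1 q - rP 2 q)

/-- Twice the real part of the characters of the third family. -/
def mA (m : Fin 5) (q : Q3) : ℤ :=
  match m with
  | 0 => 2 * (rZ 1 q * rZ 2 q)
  | 1 => 2 * (rZ 0 q * rZ 2 q)
  | 2 => 2 * (rZ 0 q * rZ 1 q)
  | 3 => RZ q
  | 4 => RZ q

/-- Twice the coefficient of `√-3` of the characters of the third family. -/
def mB (m : Fin 5) (q : Q3) : ℤ :=
  match m with
  | 0 => 0
  | 1 => 0
  | 2 => 0
  | 3 => -3 * kZ q
  | 4 => 3 * kZ q

/-- Twice the third family. -/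
def aG (m : Fin 5) (q : Q3) : ℤ := 2 * (1 + sZ q) - mA m q

/-- The part in `√-3` of the third family, doubled. -/
def bG (m : Fin 5) (q : Q3) : ℤ := - mB m q

/-- Membership in the subgroup. -/
def evn (q : Q3) : Bool := decide (sg q.1 * sg q.2.1 * sg q.2.2 = 1)

/-- Sum over the subgroup. -/
def sumK (f : Q3 → ℤ) : ℤ := ∑ x : D3, ∑ y : D3, ∑ z : D3, if evn (x, y, z) then f (x, y, z) else 0

theorem tFF : ∀ i j : Fin 3, sumK (fun q => aF i q * aF j q) = 432 * (if i = j then 3 else 1) := by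
  decide +kernel

theorem tF1 : ∀ i : Fin 3, sumK (fun q => aF i q * 2) = 432 := by
  decide +kernel

theorem tGG : ∀ m n : Fin 5, sumK (fun q => aG m q * aG n q + 3 * (bG m q * bG n q)) =
    432 * (if m = n then 5 else 4) ∧ sumK (fun q => bG m q * aG n q - aG m q * bG n q) = 0 := by
  decide +kernel

theorem tGF : ∀ (m : Fin 5) (i : Fin 3), sumK (fun q => aG m q * aF i q) = 432 * 2 ∧
    sumK (fun q => bG m q * aF i q) = 0 := by
  decide +kernel

theorem tG1 : ∀ m : Fin 5, sumK (fun q => aG m q * 2) = 432 ∧ sumK (fun q => bG m q * 2) = 0 := by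
  decide +kernel

theorem tPP : ∀ i j : Fin 3, sumK (fun q => aP i q * aP j q) = 432 * (if i = j then 3 else 1) := by
  decide +kernel

theorem tPF : ∀ i j : Fin 3, sumK (fun q => aP i q * aF j q) = 432 * (if i = j then 0 else 1) := by
  decide +kernel

theorem tPG : ∀ (i : Fin 3) (m : Fin 5), sumK (fun q => aP i q * aG m q) = 432 * 2 ∧
    sumK (fun q => aP i q * bG m q) = 0 := by
  decide +kernel

theorem tP1 : ∀ i : Fin 3, sumK (fun q => aP i q * 2) = 0 := by
  decide +kernel

end Cfsg.Agent.Lib.Recog13
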