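import Mathlib
import Cfsg.Agent.Lib.Recog13.Model1
import Cfsg.Agent.Lib.Char.Virtual

/-!
# The model `3^3:2^2`: the group and the Gram tables for complex functions
-/

set_option autoImplicit false

namespace Cfsg.Agent.Lib.Recog13

open DihedralGroup Cfsg Cfsg.Agent.Lib.Char.Virtual
open scoped ComplexConjugate

theorem sg_mul : ∀ a b : D3, sg (a * b) = sg a * sg b := by decide

theorem sg_inv : ∀ a : D3, sg a⁻¹ = sg a := by decide

theorem evn_iff (q : Q3) : evn q = true ↔ sg q.1 * sg q.2.1 * sg q.2.2 = 1 := by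
  simp [evn]

/-- The subgroup of triples with trivial product of signs. -/
def KK : Subgroup Q3 where
  carrier := {q | evn q = true}
  mul_mem' := by
    intro a b ha hb
    simp only [Set.mem_setOf_eq, evn_iff] at ha hb ⊢
    simp only [Prod.fst_mul, Prod.snd_mul, sg_mul]
    calc _ = (sg a.1 * sg a.2.1 * sg a.2.2) * (sg b.1 * sg b.2.1 * sg b.2.2) := by ring
      _ = 1 := by rw [ha, hb]; norm_num
  one_mem' := by decide
  inv_mem' := by
    intro a ha
    simp only [Set.mem_setOf_eq, evn_iff] at ha ⊢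
    simp only [Prod.fst_inv, Prod.snd_inv, sg_inv]
    exact ha

theorem mem_KK_iff (q : Q3) : q ∈ KK ↔ evn q = true := Iff.rfl

instance : DecidablePred (· ∈ KK) := fun q => decidable_of_iff (evn q = true) (mem_KK_iff q).symm

/-- The model group. -/
abbrev E13 := ↥KK

theorem card_E13 : Fintype.card E13 = 108 := by decide +kernel

theorem natCard_E13 : Nat.card E13 = 108 := by
  rw [Nat.card_eq_fintype_card, card_E13]

/-- The square root of `-3`. -/
noncomputable def s3 : ℂ := ⟨0, Real.sqrt 3⟩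

theorem s3_sq : s3 * s3 = -3 := by
  apply Complex.ext
  · simp [s3, Complex.mul_re]
  · simp [s3, Complex.mul_im]

theorem s3_conj : conj s3 = -s3 := by
  apply Complex.ext <;> simp [s3]

/-- Functions `(A + √-3 B)/2`. -/
noncomputable def mk (A B : Q3 → ℤ) (k : E13) : ℂ := ((A k.1 : ℂ) + s3 * (B k.1 : ℂ)) / 2

theorem sum_E13 (f : Q3 → ℤ) : (∑ k : E13, f k.1) = sumK f := by
  classical
  rw [sumK]
  have h1 : ∑ k : E13, f k.1 = ∑ q ∈ Finset.univ.filter (· ∈ KK), f q := by
    rw [Finset.sum_subtype (Finset.univ.filter (· ∈ KK)) (p := (· ∈ KK)) (by simp) f]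
  rw [h1, Finset.sum_filter, Fintype.sum_prod_type]
  refine Finset.sum_congr rfl fun x _ => ?_
  rw [Fintype.sum_prod_type]
  refine Finset.sum_congr rfl fun y _ => Finset.sum_congr rfl fun z _ => ?_
  simp only [mem_KK_iff]

theorem sum_E13_cast (f : Q3 → ℤ) : (∑ k : E13, (f k.1 : ℂ)) = (sumK f : ℂ) := by
  rw [← sum_E13]
  push_cast
  rfl

theorem inner_mk (A B A' B' : Q3 → ℤ) :
    classInner (mk A B) (mk A' B') =
      ((sumK fun q => A q * A' q + 3 * (B q * B' q) : ℤ) : ℂ) / 432 +
        s3 * ((sumK fun q => B q * A' q - A q * B' q : ℤ) : ℂ) / 432 := by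
  rw [classInner, natCard_E13, ← sum_E13_cast, ← sum_E13_cast]
  have h : ∀ k : E13, mk A B k * conj (mk A' B' k) =
      (((A k.1 * A' k.1 + 3 * (B k.1 * B' k.1) : ℤ) : ℂ) +
        s3 * ((B k.1 * A' k.1 - A k.1 * B' k.1 : ℤ) : ℂ)) / 4 := by
    intro k
    simp only [mk, map_div₀, map_add, map_mul, s3_conj, map_intCast, map_ofNat]
    push_cast
    linear_combination (-(B k.1 : ℂ) * (B' k.1 : ℂ) / 4) * s3_sq
  simp only [h]
  rw [← Finset.sum_div, Finset.sum_add_distrib, ← Finset.mul_sum]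
  push_cast
  ring

end Cfsg.Agent.Lib.Recog13
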