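import Mathlib
import Cfsg.Agent.Lib.Recog13.Model2
import Cfsg.Agent.Lib.Char.LinearChars
import Cfsg.Agent.Lib.Char.PermChar
import Cfsg.Agent.Lib.Char.IndRep
import Cfsg.Agent.Lib.Char.Induced

/-!
# The model `3^3:2^2`: the functions are generalized characters
-/

set_option autoImplicit false

namespace Cfsg.Agent.Lib.Recog13

open DihedralGroup Cfsg Cfsg.Agent.Lib.Char.Virtual Cfsg.Agent.Lib.Char.Basic
open scoped ComplexConjugate

universe u

theorem isGeneralized_comp_hom {G H : Type*} [Group G] [Group H] {θ : G → ℂ}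
    (hθ : IsGeneralizedCharacter G θ) (f : H →* G) : IsGeneralizedCharacter H (fun h => θ (f h)) := by
  obtain ⟨χ, ψ, hχ, hψ, rfl⟩ := hθ
  exact ⟨_, _, isCharacter_comp_hom hχ f, isCharacter_comp_hom hψ f, rfl⟩

theorem isGeneralized_mul {G : Type*} [Group G] {θ φ : G → ℂ} (hθ : IsGeneralizedCharacter G θ)
    (hφ : IsGeneralizedCharacter G φ) : IsGeneralizedCharacter G (θ * φ) := by
  obtain ⟨χ, ψ, hχ, hψ, rfl⟩ := hθ
  obtain ⟨α, β, hα, hβ, rfl⟩ := hφ
  refine ⟨χ * α + ψ * β, χ * β + ψ * α, isCharacter_add (isCharacter_mul hχ hα) (isCharacter_mul hψ hβ),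
    isCharacter_add (isCharacter_mul hχ hβ) (isCharacter_mul hψ hα), ?_⟩
  ring

theorem isGeneralized_char {G : Type*} [Group G] {θ : G → ℂ} (hθ : IsCharacter G θ) :
    IsGeneralizedCharacter G θ :=
  ⟨θ, 0, hθ, isCharacter_zero, by simp⟩

/-- The coordinate homomorphisms. -/
def cdHom (i : Fin 3) : E13 →* D3 :=
  match i with
  | 0 => (MonoidHom.fst _ _).comp KK.subtype
  | 1 => (MonoidHom.fst _ _).comp ((MonoidHom.snd _ _).comp KK.subtype)
  | 2 => (MonoidHom.snd _ _).comp ((MonoidHom.snd _ _).comp KK.subtype)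

theorem cdHom_apply (i : Fin 3) (k : E13) : cdHom i k = cd i k.1 := by
  fin_cases i <;> rfl

/-- The sign as a homomorphism. -/
def sgU : D3 →* ℤˣ where
  toFun x := match x with
    | r _ => 1
    | sr _ => -1
  map_one' := rfl
  map_mul' := by decide

/-- The sign, complex. -/
noncomputable def sgC : D3 →* ℂˣ := (Units.map (Int.castRingHom ℂ).toMonoidHom).comp sgU

theorem sgC_apply (x : D3) : ((sgC x : ℂˣ) : ℂ) = (sg x : ℂ) := by
  have h1 : ∀ i, sgU (r i) = 1 := fun _ => rfl
  have h2 : ∀ i, sgU (sr i) = -1 := fun _ => rfl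
  cases x <;> simp [sgC, h1, h2, sg]

/-- Signs as functions. -/
noncomputable def eC (i : Fin 3) (k : E13) : ℂ := (eZ i k.1 : ℂ)

theorem isIrr_eC (i : Fin 3) : IsIrrCharacter E13 (eC i) := by
  have h := Cfsg.Agent.Lib.Char.LinearChars.isIrr_of_hom (sgC.comp (cdHom i))
  have h2 : (fun g : E13 => (((sgC.comp (cdHom i)) g : ℂˣ) : ℂ)) = eC i := by
    funext k
    simp only [MonoidHom.comp_apply, sgC_apply, cdHom_apply, eC, eZ]
  rwa [h2] at h

/-- The natural action of `D3` on `ZMod 3`. -/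
@[reducible] def actD3 : MulAction D3 (ZMod 3) where
  smul x y := match x with
    | r i => y + i
    | sr j => -y - j
  one_smul := by decide
  mul_smul := by decide

theorem isGen_rho : IsGeneralizedCharacter D3 (fun x => (rho x : ℂ)) := by
  letI := actD3
  have h := Cfsg.Agent.Lib.Char.PermChar.isCharacter_perm (G := D3) (Ω := ZMod 3)
  refine ⟨_, 1, h, isCharacter_one, ?_⟩
  funext x
  have key : ∀ x : D3, (((Finset.univ.filter (fun y : ZMod 3 => (actD3.toSMul.smul x y) = y)).card : ℕ) : ℤ) = rho x + 1 := by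
    decide +kernel
  have h2 : Nat.card (MulAction.fixedBy (ZMod 3) x) =
      (Finset.univ.filter (fun y : ZMod 3 => (actD3.toSMul.smul x y) = y)).card := by
    rw [← Fintype.card_subtype, ← Nat.card_eq_fintype_card]
    rfl
  have h3 := key x
  rw [← h2] at h3
  show (rho x : ℂ) = (Nat.card (MulAction.fixedBy (ZMod 3) x) : ℂ) - 1
  have h4 : ((Nat.card (MulAction.fixedBy (ZMod 3) x) : ℤ) : ℂ) = ((rho x + 1 : ℤ) : ℂ) := by rw [h3]
  push_cast at h4
  rw [h4]
  ring

/-- `rho` on the group. -/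
noncomputable def rC (i : Fin 3) (k : E13) : ℂ := (rZ i k.1 : ℂ)

theorem isGen_rC (i : Fin 3) : IsGeneralizedCharacter E13 (rC i) := by
  have h := isGeneralized_comp_hom isGen_rho (cdHom i)
  have h2 : (fun h : E13 => ((rho (cdHom i h) : ℤ) : ℂ)) = rC i := by
    funext k
    simp only [cdHom_apply, rC, rZ]
  rwa [h2] at h

end Cfsg.Agent.Lib.Recog13
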