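import Mathlib
import Cfsg.Agent.Lib.Recog13.Model3

/-!
# The model `3^3:2^2`: the induced characters of degree 8, the three families of generalized characters
-/

set_option autoImplicit false

namespace Cfsg.Agent.Lib.Recog13

open DihedralGroup Cfsg Cfsg.Agent.Lib.Char.Virtual Cfsg.Agent.Lib.Char.Basic
open scoped ComplexConjugate

/-- Triples of rotations. -/
def rotAll (q : Q3) : Bool := decide (sg q.1 = 1 ∧ sg q.2.1 = 1 ∧ sg q.2.2 = 1)

theorem rotAll_iff (q : Q3) : rotAll q = true ↔ (sg q.1 = 1 ∧ sg q.2.1 = 1 ∧ sg q.2.2 = 1) := by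
  simp [rotAll]

/-- The normal subgroup of order 27. -/
def TT : Subgroup E13 where
  carrier := {k | rotAll k.1 = true}
  mul_mem' := by
    intro a b ha hb
    simp only [Set.mem_setOf_eq, rotAll_iff] at ha hb ⊢
    simp only [Subgroup.coe_mul, Prod.fst_mul, Prod.snd_mul, sg_mul, ha, hb, and_self]
    norm_num
  one_mem' := by decide
  inv_mem' := by
    intro a ha
    simp only [Set.mem_setOf_eq, rotAll_iff] at ha ⊢
    simp only [InvMemClass.coe_inv, Prod.fst_inv, Prod.snd_inv, sg_inv]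
    exact ha

theorem mem_TT_iff (k : E13) : k ∈ TT ↔ rotAll k.1 = true := Iff.rfl

instance : DecidablePred (· ∈ TT) := fun k => decidable_of_iff (rotAll k.1 = true) (mem_TT_iff k).symm

theorem card_TT : Fintype.card TT = 27 := by decide +kernel

theorem natCard_TT : Nat.card TT = 27 := by
  rw [Nat.card_eq_fintype_card, card_TT]

/-- The index of a rotation. -/
def rotIdx : D3 → ZMod 3
  | r i => i
  | sr _ => 0

/-- The sum of the indices. -/
def idx (q : Q3) : ZMod 3 := rotIdx q.1 + rotIdx q.2.1 + rotIdx q.2.2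

theorem rotIdx_mul : ∀ a b : D3, sg a = 1 → sg b = 1 → rotIdx (a * b) = rotIdx a + rotIdx b := by
  decide

/-- Twice the real part. -/
def wA (a : ZMod 3) : ℤ := if a = 0 then 2 else -1
/-- Twice the other part. -/
def wB (a : ZMod 3) : ℤ := if a = 0 then 0 else if a = 1 then 1 else -1

/-- Cube roots of unity. -/
noncomputable def wZ (a : ZMod 3) : ℂ := ((wA a : ℂ) + s3 * (wB a : ℂ)) / 2

theorem w_table : ∀ a b : ZMod 3, 2 * wA (a + b) = wA a * wA b - 3 * (wB a * wB b) ∧
    2 * wB (a + b) = wA a * wB b + wB a * wA b := by decide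

theorem wZ_add (a b : ZMod 3) : wZ (a + b) = wZ a * wZ b := by
  obtain ⟨h1, h2⟩ := w_table a b
  have h3 : (2 * (wA (a + b) : ℂ)) = (wA a : ℂ) * (wA b : ℂ) - 3 * ((wB a : ℂ) * (wB b : ℂ)) := by
    exact_mod_cast h1
  have h4 : (2 * (wB (a + b) : ℂ)) = (wA a : ℂ) * (wB b : ℂ) + (wB a : ℂ) * (wA b : ℂ) := by
    exact_mod_cast h2
  simp only [wZ]
  linear_combination (1 / 4 : ℂ) * h3 + (s3 / 4) * h4 - ((wB a : ℂ) * (wB b : ℂ) / 4) * s3_sq

theorem wZ_zero : wZ 0 = 1 := by
  have h1 : wA 0 = 2 := by decide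
  have h2 : wB 0 = 0 := by decide
  simp [wZ, h1, h2]

/-- The linear character of the subgroup of order 27. -/
noncomputable def thetaHom : TT →* ℂ where
  toFun x := wZ (idx x.1.1)
  map_one' := wZ_zero
  map_mul' := by
    intro x y
    rw [← wZ_add]
    congr 1
    obtain ⟨a1, a2, a3⟩ := (rotAll_iff _).mp x.2
    obtain ⟨b1, b2, b3⟩ := (rotAll_iff _).mp y.2
    simp only [idx, Subgroup.coe_mul, Prod.fst_mul, Prod.snd_mul]
    rw [rotIdx_mul _ _ a1 b1, rotIdx_mul _ _ a2 b2, rotIdx_mul _ _ a3 b3]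
    ring

theorem isChar_theta : IsCharacter TT (fun x => wZ (idx x.1.1)) := by
  have h := Cfsg.Agent.Lib.Char.LinearChars.isIrr_of_hom (MonoidHom.toHomUnits thetaHom)
  have h2 : (fun g : TT => ((MonoidHom.toHomUnits thetaHom g : ℂˣ) : ℂ)) =
      (fun x => wZ (idx x.1.1)) := by
    funext x
    simp only [MonoidHom.coe_toHomUnits]
    rfl
  rw [h2] at h
  exact isCharacter_of_isIrrCharacter h

/-- The extension by zero, real part. -/
def tA (q : Q3) : ℤ := if rotAll q then wA (idx q) else 0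
/-- The extension by zero, other part. -/
def tB (q : Q3) : ℤ := if rotAll q then wB (idx q) else 0

theorem conj_table : ∀ k : E13, (∑ x : E13, tA (x⁻¹ * k * x).1) = 27 * RZ k.1 ∧
    (∑ x : E13, tB (x⁻¹ * k * x).1) = 27 * (-3 * kZ k.1) := by
  decide +kernel

theorem ext_theta (y : E13) : extendByZero TT (fun x => wZ (idx x.1.1)) y =
    ((tA y.1 : ℂ) + s3 * (tB y.1 : ℂ)) / 2 := by
  by_cases hy : y ∈ TT
  · rw [Cfsg.Agent.Lib.Char.Induced.extendByZero_of_mem TT _ hy]
    have h : rotAll y.1 = true := hy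
    simp only [tA, tB, h, if_true, wZ]
  · rw [Cfsg.Agent.Lib.Char.Induced.extendByZero_of_notMem TT _ hy]
    have h : rotAll y.1 = false := by
      cases h2 : rotAll y.1
      · rfl
      · exact absurd h2 hy
    simp [tA, tB, h]

/-- The functions of degree 1, 2 and 8 appearing in the third family. -/
noncomputable def Mu (m : Fin 5) : E13 → ℂ := mk (mA m) (mB m)

theorem Mu_three : Mu 3 = indFun TT (fun x => wZ (idx x.1.1)) := by
  funext k
  rw [Cfsg.Agent.Lib.Char.Induced.indFun_apply, natCard_TT]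
  simp only [ext_theta]
  rw [← Finset.sum_div, Finset.sum_add_distrib, ← Finset.mul_sum]
  obtain ⟨h1, h2⟩ := conj_table k
  have h3 : (∑ x : E13, (tA (x⁻¹ * k * x).1 : ℂ)) = 27 * (RZ k.1 : ℂ) := by
    exact_mod_cast congrArg (Int.cast : ℤ → ℂ) h1
  have h4 : (∑ x : E13, (tB (x⁻¹ * k * x).1 : ℂ)) = 27 * (-3 * (kZ k.1 : ℂ)) := by
    exact_mod_cast congrArg (Int.cast : ℤ → ℂ) h2
  rw [h3, h4]
  simp only [Mu, mk, mA, mB]
  push_cast
  ring

theorem isGen_Mu (m : Fin 5) : IsGeneralizedCharacter E13 (Mu m) := by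
  have h3 : IsGeneralizedCharacter E13 (Mu 3) := by
    rw [Mu_three]
    exact isGeneralized_char (Cfsg.Agent.Lib.Char.IndRep.isCharacter_indFun TT isChar_theta)
  have hR : IsGeneralizedCharacter E13 (rC 0 * rC 1 * rC 2) :=
    isGeneralized_mul (isGeneralized_mul (isGen_rC 0) (isGen_rC 1)) (isGen_rC 2)
  fin_cases m
  · have h : Mu 0 = rC 1 * rC 2 := by
      funext k
      simp [Mu, mk, mA, mB, rC]
    show IsGeneralizedCharacter E13 (Mu 0)
    rw [h]
    exact isGeneralized_mul (isGen_rC 1) (isGen_rC 2)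
  · have h : Mu 1 = rC 0 * rC 2 := by
      funext k
      simp [Mu, mk, mA, mB, rC]
    show IsGeneralizedCharacter E13 (Mu 1)
    rw [h]
    exact isGeneralized_mul (isGen_rC 0) (isGen_rC 2)
  · have h : Mu 2 = rC 0 * rC 1 := by
      funext k
      simp [Mu, mk, mA, mB, rC]
    show IsGeneralizedCharacter E13 (Mu 2)
    rw [h]
    exact isGeneralized_mul (isGen_rC 0) (isGen_rC 1)
  · exact h3
  · have h : Mu 4 = rC 0 * rC 1 * rC 2 - Mu 3 := by
      funext k
      simp only [Mu, mk, mA, mB, rC, Pi.sub_apply, Pi.mul_apply, RZ, rZ, cd]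
      push_cast
      ring
    show IsGeneralizedCharacter E13 (Mu 4)
    rw [h]
    exact isGeneralized_sub hR h3

/-- The first family. -/
noncomputable def Ff (i : Fin 3) : E13 → ℂ := mk (aF i) (fun _ => 0)
/-- The second family. -/
noncomputable def Pf (i : Fin 3) : E13 → ℂ := mk (aP i) (fun _ => 0)
/-- The third family. -/
noncomputable def Gf (m : Fin 5) : E13 → ℂ := mk (aG m) (bG m)
/-- The products in the second family. -/
noncomputable def rPC (i : Fin 3) (k : E13) : ℂ := (rP i k.1 : ℂ)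

theorem Ff_eq (i : Fin 3) : Ff i = 1 + eC i - rC i := by
  funext k
  simp only [Ff, mk, aF, eC, rC, Pi.add_apply, Pi.sub_apply, Pi.one_apply]
  push_cast
  ring

theorem rPC_eq (i : Fin 3) : rPC i = match i with
    | 0 => rC 0 * eC 1
    | 1 => rC 1 * eC 0
    | 2 => rC 2 * eC 0 := by
  funext k
  fin_cases i <;> simp [rPC, rP, rC, eC]

theorem Pf_eq0 : Pf 0 = eC 1 + eC 2 - rPC 0 := by
  funext k
  simp only [Pf, mk, aP, eC, rPC, Pi.add_apply, Pi.sub_apply]
  push_cast
  ring

theorem Pf_eq1 : Pf 1 = eC 0 + eC 2 - rPC 1 := by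
  funext k
  simp only [Pf, mk, aP, eC, rPC, Pi.add_apply, Pi.sub_apply]
  push_cast
  ring

theorem Pf_eq2 : Pf 2 = eC 0 + eC 1 - rPC 2 := by
  funext k
  simp only [Pf, mk, aP, eC, rPC, Pi.add_apply, Pi.sub_apply]
  push_cast
  ring

theorem Gf_eq (m : Fin 5) : Gf m = 1 + (eC 0 + eC 1 + eC 2) - Mu m := by
  funext k
  simp only [Gf, Mu, mk, aG, bG, eC, sZ, Pi.add_apply, Pi.sub_apply, Pi.one_apply]
  push_cast
  ring

theorem isGen_eC (i : Fin 3) : IsGeneralizedCharacter E13 (eC i) :=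
  isGeneralized_of_isIrr (isIrr_eC i)

theorem isGen_one : IsGeneralizedCharacter E13 (1 : E13 → ℂ) :=
  isGeneralized_char isCharacter_one

theorem isGen_Ff (i : Fin 3) : IsGeneralizedCharacter E13 (Ff i) := by
  rw [Ff_eq]
  exact isGeneralized_sub (isGeneralized_add isGen_one (isGen_eC i)) (isGen_rC i)

theorem isGen_rPC (i : Fin 3) : IsGeneralizedCharacter E13 (rPC i) := by
  rw [rPC_eq]
  fin_cases i
  · exact isGeneralized_mul (isGen_rC _) (isGen_eC _)
  · exact isGeneralized_mul (isGen_rC _) (isGen_eC _)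
  · exact isGeneralized_mul (isGen_rC _) (isGen_eC _)

theorem isGen_Pf (i : Fin 3) : IsGeneralizedCharacter E13 (Pf i) := by
  fin_cases i
  · show IsGeneralizedCharacter E13 (Pf 0)
    rw [Pf_eq0]
    exact isGeneralized_sub (isGeneralized_add (isGen_eC _) (isGen_eC _)) (isGen_rPC _)
  · show IsGeneralizedCharacter E13 (Pf 1)
    rw [Pf_eq1]
    exact isGeneralized_sub (isGeneralized_add (isGen_eC _) (isGen_eC _)) (isGen_rPC _)
  · show IsGeneralizedCharacter E13 (Pf 2)
    rw [Pf_eq2]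
    exact isGeneralized_sub (isGeneralized_add (isGen_eC _) (isGen_eC _)) (isGen_rPC _)

theorem isGen_Gf (m : Fin 5) : IsGeneralizedCharacter E13 (Gf m) := by
  rw [Gf_eq]
  exact isGeneralized_sub (isGeneralized_add isGen_one
    (isGeneralized_add (isGeneralized_add (isGen_eC _) (isGen_eC _)) (isGen_eC _))) (isGen_Mu m)

theorem one_eq_mk : (1 : E13 → ℂ) = mk (fun _ => 2) (fun _ => 0) := by
  funext k
  simp [mk]

theorem inner_real (A A' : Q3 → ℤ) :
    classInner (mk A (fun _ => 0)) (mk A' (fun _ => 0)) = ((sumK fun q => A q * A' q : ℤ) : ℂ) / 432 := by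
  rw [inner_mk]
  have h1 : (fun q => A q * A' q + 3 * ((0 : ℤ) * 0)) = fun q => A q * A' q := by
    funext q
    ring
  have h2 : (fun q => (0 : ℤ) * A' q - A q * 0) = fun _ => (0 : ℤ) := by
    funext q
    ring
  have h3 : sumK (fun _ => (0 : ℤ)) = 0 := by
    rw [← sum_E13]
    simp
  rw [h1, h2, h3]
  simp

theorem gFF (i j : Fin 3) : classInner (Ff i) (Ff j) = if i = j then 3 else 1 := by
  rw [Ff, Ff, inner_real, tFF]
  split_ifs <;> norm_num

theorem gF1 (i : Fin 3) : classInner (Ff i) 1 = 1 := by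
  rw [Ff, one_eq_mk, inner_real, tF1]
  norm_num

theorem gGG (m n : Fin 5) : classInner (Gf m) (Gf n) = if m = n then 5 else 4 := by
  rw [Gf, Gf, inner_mk, (tGG m n).1, (tGG m n).2]
  split_ifs <;> norm_num

theorem gGF (m : Fin 5) (i : Fin 3) : classInner (Gf m) (Ff i) = 2 := by
  rw [Gf, Ff, inner_mk]
  have h1 : (fun q => aG m q * aF i q + 3 * (bG m q * 0)) = fun q => aG m q * aF i q := by
    funext q
    ring
  have h2 : (fun q => bG m q * aF i q - aG m q * 0) = fun q => bG m q * aF i q := by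
    funext q
    ring
  rw [h1, h2, (tGF m i).1, (tGF m i).2]
  norm_num

theorem gG1 (m : Fin 5) : classInner (Gf m) 1 = 1 := by
  rw [Gf, one_eq_mk, inner_mk]
  have h1 : (fun q => aG m q * 2 + 3 * (bG m q * 0)) = fun q => aG m q * 2 := by
    funext q
    ring
  have h2 : (fun q => bG m q * 2 - aG m q * 0) = fun q => bG m q * 2 := by
    funext q
    ring
  rw [h1, h2, (tG1 m).1, (tG1 m).2]
  norm_num

theorem gPP (i j : Fin 3) : classInner (Pf i) (Pf j) = if i = j then 3 else 1 := by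
  rw [Pf, Pf, inner_real, tPP]
  split_ifs <;> norm_num

theorem gPF (i j : Fin 3) : classInner (Pf i) (Ff j) = if i = j then 0 else 1 := by
  rw [Pf, Ff, inner_real, tPF]
  split_ifs <;> norm_num

theorem gPG (i : Fin 3) (m : Fin 5) : classInner (Pf i) (Gf m) = 2 := by
  rw [Pf, Gf, inner_mk]
  have h1 : (fun q => aP i q * aG m q + 3 * (0 * bG m q)) = fun q => aP i q * aG m q := by
    funext q
    ring
  have h2 : (fun q => (0 : ℤ) * aG m q - aP i q * bG m q) = fun q => - (aP i q * bG m q) := by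
    funext q
    ring
  rw [h1, h2, (tPG i m).1]
  have h3 : sumK (fun q => -(aP i q * bG m q)) = - sumK (fun q => aP i q * bG m q) := by
    rw [← sum_E13, ← sum_E13, Finset.sum_neg_distrib]
  rw [h3, (tPG i m).2]
  norm_num

theorem gP1 (i : Fin 3) : classInner (Pf i) 1 = 0 := by
  rw [Pf, one_eq_mk, inner_real, tP1]
  norm_num

end Cfsg.Agent.Lib.Recog13
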