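import Mathlib
import Cfsg.Agent.Lib.Recog13.Model4

/-!
# The model `3^3:2^2` is the listed subgroup of `Sym(9)`
-/

set_option autoImplicit false

namespace Cfsg.Agent.Lib.Recog13

open DihedralGroup Cfsg

/-- The action of `D3` on three points. -/
def pm : D3 → ZMod 3 → ZMod 3
  | r i, y => y + i
  | sr j, y => -y - j

theorem pm_mul : ∀ (a b : D3) (y : ZMod 3), pm (a * b) y = pm a (pm b y) := by decide +kernel

theorem pm_one : ∀ y : ZMod 3, pm 1 y = y := by decide +kernel

/-- The block of a point. -/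
def blk (n : Fin 9) : Fin 3 := ⟨n.val / 3, by omega⟩
/-- The position in a block. -/
def pos (n : Fin 9) : ZMod 3 := ((n.val % 3 : ℕ) : ZMod 3)
/-- The point with given block and position. -/
def emb (a : Fin 3) (b : ZMod 3) : Fin 9 := ⟨3 * a.val + b.val, by
  have := ZMod.val_lt b
  omega⟩

theorem blk_emb : ∀ (a : Fin 3) (b : ZMod 3), blk (emb a b) = a := by decide +kernel
theorem pos_emb : ∀ (a : Fin 3) (b : ZMod 3), pos (emb a b) = b := by decide +kernel
theorem emb_blk : ∀ n : Fin 9, emb (blk n) (pos n) = n := by decide +kernel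

theorem cd_mul (i : Fin 3) (a b : Q3) : cd i (a * b) = cd i a * cd i b := by
  fin_cases i <;> rfl

theorem cd_one (i : Fin 3) : cd i (1 : Q3) = 1 := by
  fin_cases i <;> rfl

/-- The action of the triple product on nine points. -/
@[reducible] def act9 : MulAction Q3 (Fin 9) where
  smul q n := emb (blk n) (pm (cd (blk n) q) (pos n))
  one_smul n := by
    show emb (blk n) (pm (cd (blk n) 1) (pos n)) = n
    rw [cd_one, pm_one, emb_blk]
  mul_smul a b n := by
    show emb (blk n) (pm (cd (blk n) (a * b)) (pos n)) =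
      emb (blk (emb (blk n) (pm (cd (blk n) b) (pos n)))) (pm (cd (blk (emb (blk n) (pm (cd (blk n) b) (pos n)))) a)
        (pos (emb (blk n) (pm (cd (blk n) b) (pos n)))))
    rw [blk_emb, pos_emb, cd_mul, pm_mul]

/-- The permutation representation. -/
def iot9 : Q3 →* Equiv.Perm (Fin 9) := @MulAction.toPermHom Q3 (Fin 9) _ act9

theorem iot9_apply (q : Q3) (n : Fin 9) : iot9 q n = emb (blk n) (pm (cd (blk n) q) (pos n)) := rfl

theorem iot9_eq_iff (q : Q3) (s : Equiv.Perm (Fin 9)) :
    iot9 q = s ↔ ∀ n : Fin 9, emb (blk n) (pm (cd (blk n) q) (pos n)) = s n := by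
  rw [Equiv.ext_iff]
  rfl

theorem iot9_inj : Function.Injective iot9 := by
  have h : ∀ q : Q3, (∀ n : Fin 9, emb (blk n) (pm (cd (blk n) q) (pos n)) = n) → q = 1 := by
    decide +kernel
  rw [injective_iff_map_eq_one]
  intro q hq
  apply h
  intro n
  have := congrArg (fun s : Equiv.Perm (Fin 9) => s n) hq
  exact this

/-- The first rotation. -/
def qa : Q3 := (r 1, 1, 1)
/-- The second rotation. -/
def qb : Q3 := (1, r 1, 1)
/-- The third rotation. -/
def qc : Q3 := (1, 1, r 1)
/-- The first reflection. -/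
def qu : Q3 := (sr 2, sr 2, 1)
/-- The second reflection. -/
def qv : Q3 := (sr 2, 1, sr 2)

theorem iot_qa : iot9 qa = Equiv.swap (0 : Fin 9) 1 * Equiv.swap 1 2 := by
  rw [iot9_eq_iff]
  decide +kernel

theorem iot_qb : iot9 qb = Equiv.swap (3 : Fin 9) 4 * Equiv.swap 4 5 := by
  rw [iot9_eq_iff]
  decide +kernel

theorem iot_qc : iot9 qc = Equiv.swap (6 : Fin 9) 7 * Equiv.swap 7 8 := by
  rw [iot9_eq_iff]
  decide +kernel

theorem iot_qu : iot9 qu = Equiv.swap (0 : Fin 9) 1 * Equiv.swap 3 4 := by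
  rw [iot9_eq_iff]
  decide +kernel

theorem iot_qv : iot9 qv = Equiv.swap (0 : Fin 9) 1 * Equiv.swap 6 7 := by
  rw [iot9_eq_iff]
  decide +kernel

/-- Normal form in the group. -/
theorem normal_form : ∀ k : E13, ∃ p q l : Fin 3, ∃ m : Fin 4,
    k.1 = qa ^ p.val * qb ^ q.val * qc ^ l.val * (if m = 0 then 1 else if m = 1 then qu else if m = 2 then qv else qu * qv) := by
  decide +kernel

/-- The listed subgroup of `Sym(9)`. -/
abbrev H13 : Subgroup (Equiv.Perm (Fin 9)) :=
  Subgroup.closure ({Equiv.swap (0 : Fin 9) 1 * Equiv.swap 1 2, Equiv.swap (3 : Fin 9) 4 * Equiv.swap 4 5,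
    Equiv.swap (6 : Fin 9) 7 * Equiv.swap 7 8, Equiv.swap (0 : Fin 9) 1 * Equiv.swap 3 4,
    Equiv.swap (0 : Fin 9) 1 * Equiv.swap 6 7} : Set (Equiv.Perm (Fin 9)))

theorem H13_eq : H13 = (iot9.comp KK.subtype).range := by
  apply le_antisymm
  · rw [Subgroup.closure_le]
    have ma : qa ∈ KK := by decide
    have mb : qb ∈ KK := by decide
    have mc : qc ∈ KK := by decide
    have mu : qu ∈ KK := by decide
    have mv : qv ∈ KK := by decide
    rintro x (rfl | rfl | rfl | rfl | rfl)
    · exact ⟨⟨qa, ma⟩, iot_qa⟩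
    · exact ⟨⟨qb, mb⟩, iot_qb⟩
    · exact ⟨⟨qc, mc⟩, iot_qc⟩
    · exact ⟨⟨qu, mu⟩, iot_qu⟩
    · exact ⟨⟨qv, mv⟩, iot_qv⟩
  · rintro x ⟨k, rfl⟩
    obtain ⟨p, q, l, m, hk⟩ := normal_form k
    have ma : iot9 qa ∈ H13 := by
      rw [iot_qa]
      exact Subgroup.subset_closure (by simp)
    have mb : iot9 qb ∈ H13 := by
      rw [iot_qb]
      exact Subgroup.subset_closure (by simp)
    have mc : iot9 qc ∈ H13 := by
      rw [iot_qc]
      exact Subgroup.subset_closure (by simp)
    have mu : iot9 qu ∈ H13 := by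
      rw [iot_qu]
      exact Subgroup.subset_closure (by simp)
    have mv : iot9 qv ∈ H13 := by
      rw [iot_qv]
      exact Subgroup.subset_closure (by simp)
    show iot9 k.1 ∈ H13
    rw [hk, map_mul, map_mul, map_mul, map_pow, map_pow, map_pow]
    refine H13.mul_mem (H13.mul_mem (H13.mul_mem (H13.pow_mem ma _) (H13.pow_mem mb _)) (H13.pow_mem mc _)) ?_
    split_ifs
    · rw [map_one]
      exact H13.one_mem
    · exact mu
    · exact mv
    · rw [map_mul]
      exact H13.mul_mem mu mv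

/-- The isomorphism with the model. -/
theorem H13_equiv : Nonempty (H13 ≃* E13) := by
  have hinj : Function.Injective (iot9.comp KK.subtype) := by
    intro a b hab
    exact Subtype.ext (iot9_inj hab)
  exact ⟨(MulEquiv.subgroupCongr H13_eq).trans (MonoidHom.ofInjective hinj).symm⟩

end Cfsg.Agent.Lib.Recog13
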