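import Mathlib
import Cfsg.Agent.Lib.Recog13.Model5

/-!
# The model `3^3:2^2`: tables on elements
-/

set_option autoImplicit false

namespace Cfsg.Agent.Lib.Recog13

open DihedralGroup Cfsg

/-- Non-trivial rotations. -/
def rn : D3 → Bool
  | r i => decide (i ≠ 0)
  | sr _ => false

/-- The elements with a non-trivial rotation as a coordinate. -/
def inA (q : Q3) : Bool := rn q.1 || rn q.2.1 || rn q.2.2

theorem van_all : ∀ q : Q3, evn q = true → inA q = false →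
    (∀ i, aF i q = 0) ∧ (∀ i, aP i q = 0) ∧ (∀ m, aG m q = 0) ∧ (∀ m, bG m q = 0) := by
  decide +kernel

theorem pow27 : ∀ k : E13, k ^ 27 = 1 → k ∈ TT := by
  decide +kernel

theorem TT_pow : ∀ k : E13, k ∈ TT → k ^ 3 = 1 := by
  decide +kernel

theorem TT_comm : ∀ a b : E13, a ∈ TT → b ∈ TT → a * b = b * a := by
  decide +kernel

theorem inA_sq : ∀ k : E13, inA k.1 = true → k * k ∈ TT ∧ k * k ≠ 1 := by
  decide +kernel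

/-- The number of elements commuting with `k`. -/
def cen (k : E13) : ℕ := (Finset.univ.filter (fun c : E13 => c * k = k * c)).card

/-- The main table. -/
theorem good : ∀ k : E13, inA k.1 = true →
    (4 + 4 * (eZ 0 k.1 ^ 2 + eZ 1 k.1 ^ 2 + eZ 2 k.1 ^ 2) + 4 * (rZ 0 k.1 ^ 2 + rZ 1 k.1 ^ 2 + rZ 2 k.1 ^ 2) +
      4 * (rP 0 k.1 ^ 2 + rP 1 k.1 ^ 2 + rP 2 k.1 ^ 2) +
      (mA 0 k.1 ^ 2 + 3 * mB 0 k.1 ^ 2 + (mA 1 k.1 ^ 2 + 3 * mB 1 k.1 ^ 2) + (mA 2 k.1 ^ 2 + 3 * mB 2 k.1 ^ 2) +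
        (mA 3 k.1 ^ 2 + 3 * mB 3 k.1 ^ 2) + (mA 4 k.1 ^ 2 + 3 * mB 4 k.1 ^ 2)) = 4 * (cen k : ℤ)) ∧
    (2 * (eZ 0 k.1 + rZ 0 k.1 + rP 1 k.1 + rP 2 k.1) +
      (mA 0 k.1 + mA 1 k.1 + mA 2 k.1 + mA 3 k.1 + mA 4 k.1) = 0) ∧
    (2 * (eZ 1 k.1 + rZ 1 k.1 + rP 0 k.1 + rP 2 k.1) +
      (mA 0 k.1 + mA 1 k.1 + mA 2 k.1 + mA 3 k.1 + mA 4 k.1) = 0) ∧
    (2 * (eZ 2 k.1 + rZ 2 k.1 + rP 0 k.1 + rP 1 k.1) +
      (mA 0 k.1 + mA 1 k.1 + mA 2 k.1 + mA 3 k.1 + mA 4 k.1) = 0) ∧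
    (mB 0 k.1 + mB 1 k.1 + mB 2 k.1 + mB 3 k.1 + mB 4 k.1 = 0) := by
  decide +kernel

end Cfsg.Agent.Lib.Recog13
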