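import Mathlib
import Cfsg.Agent.Lib.Recog13.Model6

/-!
# The model `3^3:2^2`: named elements
-/

set_option autoImplicit false

namespace Cfsg.Agent.Lib.Recog13

open DihedralGroup Cfsg

/-- The involutions. -/
def ee (i : Fin 3) : E13 :=
  match i with
  | 0 => ⟨(1, sr 2, sr 2), by decide⟩
  | 1 => ⟨(sr 2, 1, sr 2), by decide⟩
  | 2 => ⟨(sr 2, sr 2, 1), by decide⟩

/-- The rotations. -/
def gg (i : Fin 3) : E13 :=
  match i with
  | 0 => ⟨(r 1, 1, 1), by decide⟩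
  | 1 => ⟨(1, r 1, 1), by decide⟩
  | 2 => ⟨(1, 1, r 1), by decide⟩

/-- The elements with one trivial coordinate. -/
def tt (i : Fin 3) : E13 :=
  match i with
  | 0 => ⟨(1, r 1, r 1), by decide⟩
  | 1 => ⟨(r 1, 1, r 1), by decide⟩
  | 2 => ⟨(r 1, r 1, 1), by decide⟩

/-- The element with no trivial coordinate. -/
def t0 : E13 := ⟨(r 1, r 1, r 1), by decide⟩

theorem ee_sq : ∀ i, ee i * ee i = 1 := by decide +kernel
theorem ee_notA : ∀ i, ¬ inA (ee i).1 = true := by decide +kernel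
theorem ee_eZ_self : ∀ i, eZ i (ee i).1 = 1 := by decide +kernel
theorem ee_eZ_ne : ∀ i j, i ≠ j → eZ i (ee j).1 = -1 := by decide +kernel
theorem gg_ord : ∀ i, gg i ^ 3 = 1 ∧ gg i ≠ 1 := by decide +kernel
theorem ue_ord : ∀ i, (gg i * ee i) ^ 6 = 1 ∧ ∀ m : Fin 6, 0 < m.val → (gg i * ee i) ^ m.val ≠ 1 := by
  decide +kernel
theorem ue_pow : ∀ i, (gg i * ee i) ^ 2 = gg i ^ 2 ∧ (gg i * ee i) ^ 3 = ee i ∧ (gg i * ee i) ^ 4 = gg i ∧
    (gg i * ee i) ^ 5 = gg i ^ 2 * ee i := by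
  decide +kernel
theorem ue_inA : ∀ i, inA (gg i * ee i).1 = true ∧ inA (gg i ^ 2 * ee i).1 = true := by decide +kernel
theorem ue_eZ : ∀ i j, eZ j (gg i * ee i).1 = eZ j (ee i).1 ∧ eZ j (gg i ^ 2 * ee i).1 = eZ j (ee i).1 := by
  decide +kernel

theorem t0_inA : inA t0.1 = true := by decide +kernel
theorem t0_TT : t0 ∈ TT := by decide +kernel
theorem t0_ne : t0 ≠ 1 := by decide +kernel
theorem tt_inA : ∀ i, inA (tt i).1 = true := by decide +kernel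
theorem tt_TT : ∀ i, tt i ∈ TT := by decide +kernel
theorem tt_ne : ∀ i, tt i ≠ 1 := by decide +kernel

/-- No involution inverts `t0`. -/
theorem no_inv_t0 : ∀ s : E13, s * s = 1 → (s * t0) * (s * t0) = 1 → False := by decide +kernel

/-- The involutions inverting `tt i` are conjugate to `ee i`. -/
theorem inv_tt : ∀ (i : Fin 3) (s : E13), s * s = 1 → (s * tt i) * (s * tt i) = 1 → ∃ c : E13, c * s * c⁻¹ = ee i := by
  decide +kernel

/-- The product of `ee i` and `tt i` is conjugate to `ee i`. -/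
theorem ee_tt_conj : ∀ i : Fin 3, ∃ c : E13, c * (ee i * tt i) * c⁻¹ = ee i := by
  decide +kernel

theorem eZ_TT : ∀ k : E13, k ∈ TT → ∀ i, eZ i k.1 = 1 := by decide +kernel

theorem TT_of_eZ : ∀ k : E13, (∀ i, eZ i k.1 = 1) → k ∈ TT := by decide +kernel

theorem rP_TT : ∀ k : E13, k ∈ TT → ∀ i, rP i k.1 = rZ i k.1 := by decide +kernel

/-- Values at the element of `T` with no trivial coordinate. -/
theorem t0_vals : rZ 0 t0.1 = -1 ∧ rZ 1 t0.1 = -1 ∧ rZ 2 t0.1 = -1 ∧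
    mA 0 t0.1 + mA 1 t0.1 + mA 2 t0.1 + mA 3 t0.1 + mA 4 t0.1 = 4 := by decide +kernel

theorem tt0_vals : rZ 0 (tt 0).1 = 2 ∧ rZ 1 (tt 0).1 = -1 ∧ rZ 2 (tt 0).1 = -1 ∧
    mA 0 (tt 0).1 + mA 1 (tt 0).1 + mA 2 (tt 0).1 + mA 3 (tt 0).1 + mA 4 (tt 0).1 = -2 := by decide +kernel

theorem tt1_vals : rZ 0 (tt 1).1 = -1 ∧ rZ 1 (tt 1).1 = 2 ∧ rZ 2 (tt 1).1 = -1 ∧
    mA 0 (tt 1).1 + mA 1 (tt 1).1 + mA 2 (tt 1).1 + mA 3 (tt 1).1 + mA 4 (tt 1).1 = -2 := by decide +kernel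

theorem tt2_vals : rZ 0 (tt 2).1 = -1 ∧ rZ 1 (tt 2).1 = -1 ∧ rZ 2 (tt 2).1 = 2 ∧
    mA 0 (tt 2).1 + mA 1 (tt 2).1 + mA 2 (tt 2).1 + mA 3 (tt 2).1 + mA 4 (tt 2).1 = -2 := by decide +kernel

/-- Any element is a product of two elements with a rotation coordinate. -/
theorem prod_inA : ∀ k : E13, inA k.1 = true ∨ (inA (k * t0).1 = true) := by decide +kernel

end Cfsg.Agent.Lib.Recog13
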