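import Mathlib
import Cfsg.Agent.Lib.Char.Induced
import Cfsg.Agent.Lib.Char.Virtual

/-!
# Induction from a subgroup on functions vanishing off a suitable set is an isometry
-/

set_option autoImplicit false

namespace Cfsg.Agent.Lib.Recog13

open Cfsg Cfsg.Agent.Lib.Char.Induced
open scoped ComplexConjugate

universe u v

variable {G : Type u} [Group G] [Fintype G] {H : Subgroup G} {E : Type v} [Group E] [Fintype E]

/-- Values of the induced function on the subgroup. -/
theorem ind_val (e : H ≃* E) (A : E → Prop)
    (hA : ∀ k, A k → ∀ x : G, x * (e.symm k : G) * x⁻¹ ∈ H → x ∈ H)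
    {f : E → ℂ} (hf : IsClassFunction E f) (hvan : ∀ k, ¬ A k → f k = 0) (k : E) :
    indFun H (fun h => f (e h)) (e.symm k : G) = f k := by
  classical
  rw [indFun_apply]
  have claim : ∀ x : G, extendByZero H (fun h => f (e h)) (x⁻¹ * (e.symm k : G) * x) =
      if x ∈ H then f k else 0 := by
    intro x
    by_cases hx : x ∈ H
    · rw [if_pos hx]
      have hm : x⁻¹ * (e.symm k : G) * x ∈ H := H.mul_mem (H.mul_mem (H.inv_mem hx) (e.symm k).2) hx
      rw [extendByZero_of_mem H _ hm]
      have h1 : (⟨x⁻¹ * (e.symm k : G) * x, hm⟩ : H) = (⟨x, hx⟩ : H)⁻¹ * e.symm k * ⟨x, hx⟩ := by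
        apply Subtype.ext
        rfl
      rw [h1, map_mul, map_mul, e.apply_symm_apply, map_inv]
      have h2 := hf k (e ⟨x, hx⟩)⁻¹
      rw [inv_inv] at h2
      exact h2
    · rw [if_neg hx]
      by_cases hm : x⁻¹ * (e.symm k : G) * x ∈ H
      · rw [extendByZero_of_mem H _ hm]
        apply hvan
        intro hk'
        apply hx
        apply hA _ hk'
        rw [e.symm_apply_apply]
        have h3 : x * (x⁻¹ * (e.symm k : G) * x) * x⁻¹ = (e.symm k : G) := by group
        show x * (x⁻¹ * (e.symm k : G) * x) * x⁻¹ ∈ H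
        rw [h3]
        exact (e.symm k).2
      · exact extendByZero_of_notMem H _ hm
  simp only [claim]
  rw [Finset.sum_ite, Finset.sum_const_zero, add_zero, Finset.sum_const, nsmul_eq_mul]
  have h4 : ((Finset.univ.filter (fun x : G => x ∈ H)).card : ℂ) = (Nat.card H : ℂ) := by
    congr 1
    rw [Nat.card_eq_fintype_card, Fintype.card_subtype]
  rw [h4, ← mul_assoc, inv_mul_cancel₀ (by exact_mod_cast Nat.card_pos.ne'), one_mul]

theorem classInner_transfer [Fintype H] (e : H ≃* E) (f f' : E → ℂ) :
    classInner (fun h => f (e h)) (fun h => f' (e h)) = classInner f f' := by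
  rw [classInner_def, classInner_def, Nat.card_congr e.toEquiv]
  congr 1
  exact Equiv.sum_comp e.toEquiv (fun k => f k * conj (f' k))

/-- The inner products of induced functions. -/
theorem ind_inner (e : H ≃* E) (A : E → Prop)
    (hA : ∀ k, A k → ∀ x : G, x * (e.symm k : G) * x⁻¹ ∈ H → x ∈ H)
    (f : E → ℂ) {f' : E → ℂ} (hf' : IsClassFunction E f') (hvan' : ∀ k, ¬ A k → f' k = 0) :
    classInner (indFun H (fun h => f (e h))) (indFun H (fun h => f' (e h))) = classInner f f' := by
  classical
  haveI : Fintype H := Fintype.ofFinite _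
  rw [frobenius_reciprocity H _ _ (indFun_isClassFunction H _)]
  have h1 : (fun h : H => indFun H (fun h => f' (e h)) (h : G)) = fun h => f' (e h) := by
    funext h
    have h2 := ind_val e A hA hf' hvan' (e h)
    rwa [e.symm_apply_apply] at h2
  rw [h1, classInner_transfer]

/-- The inner product with the constant function. -/
theorem ind_inner_one (e : H ≃* E) (f : E → ℂ) :
    classInner (indFun H (fun h => f (e h))) 1 = classInner f 1 := by
  classical
  haveI : Fintype H := Fintype.ofFinite _
  have h0 : IsClassFunction G (1 : G → ℂ) := fun _ _ => rfl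
  rw [frobenius_reciprocity H _ _ h0]
  exact classInner_transfer e f 1

end Cfsg.Agent.Lib.Recog13
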