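import Mathlib
import Cfsg.Agent.Lib.Recog13.Model6

/-!
# The situation: a subgroup isomorphic to the model, trivial intersection properties
-/

set_option autoImplicit false

namespace Cfsg.Agent.Lib.Recog13

open Cfsg

universe u

variable {G : Type u} [Group G] {H : Subgroup G} {T : Subgroup G}

/-- The hypotheses of the theorem. -/
structure Sit (H : Subgroup G) (T : Subgroup G) : Prop where
  hTH : T ≤ H
  hT : Nat.card T = 27
  hN : Subgroup.normalizer (T : Set G) = H
  hC : ∀ t ∈ T, t ≠ 1 → Subgroup.centralizer ({t} : Set G) ≤ H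

/-- The embedding of the model. -/
def iot (e : H ≃* E13) : E13 →* G := H.subtype.comp e.symm.toMonoidHom

theorem iot_apply (e : H ≃* E13) (k : E13) : iot e k = ((e.symm k : H) : G) := rfl

theorem iot_inj (e : H ≃* E13) : Function.Injective (iot e) := by
  intro a b hab
  exact e.symm.injective (Subtype.ext hab)

theorem iot_mem (e : H ≃* E13) (k : E13) : iot e k ∈ H := (e.symm k).2

theorem exists_iot (e : H ≃* E13) {h : G} (hh : h ∈ H) : ∃ k, iot e k = h :=
  ⟨e ⟨h, hh⟩, by simp [iot_apply]⟩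

section

variable {e : H ≃* E13}

theorem Sit.pow_T (S : Sit H T) [Finite G] {y : G} (hy : y ∈ T) : y ^ 27 = 1 := by
  have h := pow_card_eq_one' (x := (⟨y, hy⟩ : T))
  rw [S.hT] at h
  exact congrArg Subtype.val h

theorem Sit.mem_of_mem (S : Sit H T) [Finite G] {k : E13} (e : H ≃* E13) (h : iot e k ∈ T) : k ∈ TT := by
  apply pow27
  apply iot_inj e
  rw [map_pow, map_one]
  exact S.pow_T h

theorem Sit.mem_iff (S : Sit H T) [Finite G] (e : H ≃* E13) (k : E13) : iot e k ∈ T ↔ k ∈ TT := by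
  classical
  constructor
  · exact S.mem_of_mem e
  · intro hk
    haveI : Fintype T := Fintype.ofFinite _
    let φ : T → TT := fun t => ⟨e ⟨t.1, S.hTH t.2⟩, by
      apply S.mem_of_mem e
      have : iot e (e ⟨t.1, S.hTH t.2⟩) = t.1 := by simp [iot_apply]
      rw [this]
      exact t.2⟩
    have hφ : Function.Injective φ := by
      intro a b hab
      have h1 : e ⟨a.1, S.hTH a.2⟩ = e ⟨b.1, S.hTH b.2⟩ := congrArg Subtype.val hab
      have h2 := e.injective h1
      have h3 : a.1 = b.1 := Subtype.mk.inj h2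
      exact Subtype.ext h3
    have hcard : Fintype.card T = Fintype.card TT := by
      rw [card_TT, ← Nat.card_eq_fintype_card, S.hT]
    have hb := (Fintype.bijective_iff_injective_and_card φ).2 ⟨hφ, hcard⟩
    obtain ⟨t, ht⟩ := hb.2 ⟨k, hk⟩
    have h1 : e ⟨t.1, S.hTH t.2⟩ = k := congrArg Subtype.val ht
    have h2 : iot e k = t.1 := by
      rw [← h1]
      simp [iot_apply]
    rw [h2]
    exact t.2

theorem Sit.comm (S : Sit H T) [Finite G] (e : H ≃* E13) {a b : G} (ha : a ∈ T) (hb : b ∈ T) : a * b = b * a := by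
  obtain ⟨x, rfl⟩ := exists_iot e (S.hTH ha)
  obtain ⟨y, rfl⟩ := exists_iot e (S.hTH hb)
  rw [← map_mul, ← map_mul, TT_comm x y ((S.mem_iff e x).mp ha) ((S.mem_iff e y).mp hb)]

/-- Trivial intersections of the conjugates of the normal subgroup of order 27. -/
theorem Sit.ti (S : Sit H T) [Finite G] (e : H ≃* E13) {t g : G} (ht : t ∈ T) (ht1 : t ≠ 1)
    (hg : g * t * g⁻¹ ∈ T) : g ∈ H := by
  have h1 : ∀ y ∈ T, g⁻¹ * y * g ∈ T := by
    intro y hy
    have hcomm : y * (g * t * g⁻¹) = (g * t * g⁻¹) * y := S.comm e hy hg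
    have hc : g⁻¹ * y * g ∈ Subgroup.centralizer ({t} : Set G) := by
      rw [Subgroup.mem_centralizer_singleton_iff]
      calc g⁻¹ * y * g * t = g⁻¹ * (y * (g * t * g⁻¹)) * g := by group
        _ = g⁻¹ * ((g * t * g⁻¹) * y) * g := by rw [hcomm]
        _ = t * (g⁻¹ * y * g) := by group
    have hH := S.hC t ht ht1 hc
    obtain ⟨k, hk⟩ := exists_iot e hH
    have h27 : (g⁻¹ * y * g) ^ 27 = 1 := by
      have h2 : g⁻¹ * y * g = g⁻¹ * y * g⁻¹⁻¹ := by simp
      rw [h2, conj_pow, S.pow_T hy]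
      simp
    have hk27 : k ^ 27 = 1 := by
      apply iot_inj e
      rw [map_pow, hk, h27, map_one]
    rw [← hk]
    exact (S.mem_iff e k).mpr (pow27 k hk27)
  rw [← S.hN, Subgroup.mem_normalizer_iff]
  intro y
  constructor
  · intro hy
    haveI : Finite T := inferInstance
    let φ : T → T := fun z => ⟨g⁻¹ * z.1 * g, h1 z.1 z.2⟩
    have hφ : Function.Injective φ := by
      intro a b hab
      have h2 : g⁻¹ * a.1 * g = g⁻¹ * b.1 * g := congrArg Subtype.val hab
      apply Subtype.ext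
      have h3 : g⁻¹ * a.1 = g⁻¹ * b.1 := mul_right_cancel h2
      exact mul_left_cancel h3
    obtain ⟨z, hz⟩ := (Finite.injective_iff_surjective.mp hφ) ⟨y, hy⟩
    have h2 : g⁻¹ * z.1 * g = y := congrArg Subtype.val hz
    have h3 : g * y * g⁻¹ = z.1 := by
      rw [← h2]
      group
    show g * y * g⁻¹ ∈ T
    rw [h3]
    exact z.2
  · intro hy
    have h2 := h1 _ hy
    have h3 : g⁻¹ * (g * y * g⁻¹) * g = y := by group
    rw [h3] at h2
    exact h2

theorem iot_sq_mem (S : Sit H T) [Finite G] (e : H ≃* E13) {k : E13} (hk : inA k.1 = true) :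
    iot e k * iot e k ∈ T ∧ iot e k * iot e k ≠ 1 := by
  obtain ⟨h1, h2⟩ := inA_sq k hk
  rw [← map_mul]
  refine ⟨(S.mem_iff e _).mpr h1, ?_⟩
  intro h3
  apply h2
  apply iot_inj e
  rw [h3, map_one]

/-- The step to the set of elements with non-trivial part in `T`. -/
theorem Sit.conj_mem (S : Sit H T) [Finite G] (e : H ≃* E13) {k : E13} (hk : inA k.1 = true) {x : G}
    (hx : x * iot e k * x⁻¹ ∈ H) : x ∈ H := by
  obtain ⟨h1, h2⟩ := iot_sq_mem S e hk
  refine S.ti e h1 h2 ?_
  obtain ⟨c, hc⟩ := exists_iot e hx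
  have h3 : x * (iot e k * iot e k) * x⁻¹ = iot e (c * c) := by
    rw [map_mul, hc]
    group
  rw [h3, S.mem_iff e]
  apply pow27
  apply iot_inj e
  rw [map_pow, map_one, ← h3]
  have h4 : (x * (iot e k * iot e k) * x⁻¹) ^ 27 = x * (iot e k * iot e k) ^ 27 * x⁻¹ := conj_pow
  rw [h4, S.pow_T h1]
  group

theorem Sit.centralizer_le (S : Sit H T) [Finite G] (e : H ≃* E13) {k : E13} (hk : inA k.1 = true) :
    Subgroup.centralizer ({iot e k} : Set G) ≤ H := by
  obtain ⟨h1, h2⟩ := iot_sq_mem S e hk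
  intro c hc
  rw [Subgroup.mem_centralizer_singleton_iff] at hc
  apply S.hC _ h1 h2
  rw [Subgroup.mem_centralizer_singleton_iff]
  calc c * (iot e k * iot e k) = (c * iot e k) * iot e k := (mul_assoc _ _ _).symm
    _ = (iot e k * c) * iot e k := by rw [hc]
    _ = iot e k * (c * iot e k) := mul_assoc _ _ _
    _ = iot e k * (iot e k * c) := by rw [hc]
    _ = _ := (mul_assoc _ _ _).symm

theorem Sit.card_centralizer (S : Sit H T) [Finite G] (e : H ≃* E13) {k : E13} (hk : inA k.1 = true) :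
    Nat.card (Subgroup.centralizer ({iot e k} : Set G)) = cen k := by
  classical
  have hle := S.centralizer_le e hk
  have h1 : cen k = Fintype.card {c : E13 // c * k = k * c} := by
    rw [cen, Fintype.card_subtype]
  rw [h1, ← Nat.card_eq_fintype_card]
  apply Nat.card_congr
  refine ⟨fun c => ⟨e ⟨c.1, hle c.2⟩, ?_⟩, fun c => ⟨iot e c.1, ?_⟩, ?_, ?_⟩
  · apply iot_inj e
    have h2 : iot e (e ⟨c.1, hle c.2⟩) = c.1 := by simp [iot_apply]
    rw [map_mul, map_mul, h2]
    exact Subgroup.mem_centralizer_singleton_iff.mp c.2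
  · rw [Subgroup.mem_centralizer_singleton_iff, ← map_mul, ← map_mul, c.2]
  · intro c
    apply Subtype.ext
    simp [iot_apply]
  · intro c
    apply Subtype.ext
    simp [iot_apply]

end

end Cfsg.Agent.Lib.Recog13
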