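import Mathlib
import Cfsg.Agent.Lib.Recog13.Sit
import Cfsg.Agent.Lib.Recog13.IndIso
import Cfsg.Agent.Lib.Recog13.Coh3
import Cfsg.Agent.Lib.Recog13.Column
import Cfsg.Agent.Lib.Blocks.BSInd

/-!
# The coherent family of signed irreducible characters on `G`
-/

set_option autoImplicit false

namespace Cfsg.Agent.Lib.Recog13

open Cfsg Cfsg.Agent.Lib.Char.Virtual Cfsg.Agent.Lib.Blocks.BSInd

universe u

theorem mk_van {A B : Q3 → ℤ} (hA : ∀ q : Q3, evn q = true → inA q = false → A q = 0)
    (hB : ∀ q : Q3, evn q = true → inA q = false → B q = 0) (k : E13) (hk : ¬ inA k.1 = true) :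
    mk A B k = 0 := by
  have h1 : inA k.1 = false := by simpa using hk
  have h2 : evn k.1 = true := k.2
  simp [mk, hA _ h2 h1, hB _ h2 h1]

theorem Ff_van (i : Fin 3) (k : E13) (hk : ¬ inA k.1 = true) : Ff i k = 0 :=
  mk_van (fun q h1 h2 => (van_all q h1 h2).1 i) (fun _ _ _ => rfl) k hk

theorem Pf_van (i : Fin 3) (k : E13) (hk : ¬ inA k.1 = true) : Pf i k = 0 :=
  mk_van (fun q h1 h2 => (van_all q h1 h2).2.1 i) (fun _ _ _ => rfl) k hk

theorem Gf_van (m : Fin 5) (k : E13) (hk : ¬ inA k.1 = true) : Gf m k = 0 :=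
  mk_van (fun q h1 h2 => (van_all q h1 h2).2.2.1 m) (fun q h1 h2 => (van_all q h1 h2).2.2.2 m) k hk

theorem one_not_inA : ¬ inA (1 : E13).1 = true := by decide

variable {G : Type u} [Group G] [Fintype G] {H T : Subgroup G}

/-- The coherent family. -/
theorem Sit.exists_family (S : Sit H T) (e : H ≃* E13) :
    ∃ (X Y Y' : Fin 3 → G → ℂ) (Z : Fin 5 → G → ℂ),
      (∀ a, IsSignedIrr G (fam X Y Y' Z a)) ∧
      (∀ a b, a ≠ b → classInner (fam X Y Y' Z a) (fam X Y Y' Z b) = 0) ∧
      (∀ i k, Y i (iot e k) = 1 + X i (iot e k) - Ff i k) ∧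
      (∀ k, Y' 0 (iot e k) = X 1 (iot e k) + X 2 (iot e k) - Pf 0 k) ∧
      (∀ k, Y' 1 (iot e k) = X 0 (iot e k) + X 2 (iot e k) - Pf 1 k) ∧
      (∀ k, Y' 2 (iot e k) = X 0 (iot e k) + X 1 (iot e k) - Pf 2 k) ∧
      (∀ m k, Z m (iot e k) = 1 + (X 0 (iot e k) + X 1 (iot e k) + X 2 (iot e k)) - Gf m k) := by
  classical
  haveI : Fintype H := Fintype.ofFinite _
  let A : E13 → Prop := fun k => inA k.1 = true
  have hA : ∀ k, A k → ∀ x : G, x * (e.symm k : G) * x⁻¹ ∈ H → x ∈ H := by
    intro k hk x hx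
    exact S.conj_mem e hk hx
  let I : (E13 → ℂ) → G → ℂ := fun f => indFun H (fun h => f (e h))
  have genI : ∀ f, IsGeneralizedCharacter E13 f → IsGeneralizedCharacter G (I f) := fun f hf =>
    isGeneralized_indFun H (isGeneralized_comp_hom hf e.toMonoidHom)
  have clF := fun i => IsGeneralized_isClassFunction (isGen_Ff i)
  have clP := fun i => IsGeneralized_isClassFunction (isGen_Pf i)
  have clG := fun m => IsGeneralized_isClassFunction (isGen_Gf m)
  have valF : ∀ i k, I (Ff i) (iot e k) = Ff i k := fun i k => ind_val e A hA (clF i) (Ff_van i) k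
  have valP : ∀ i k, I (Pf i) (iot e k) = Pf i k := fun i k => ind_val e A hA (clP i) (Pf_van i) k
  have valG : ∀ m k, I (Gf m) (iot e k) = Gf m k := fun m k => ind_val e A hA (clG m) (Gf_van m) k
  have one1 : iot e 1 = 1 := map_one _
  obtain ⟨X, Y, Y', Z, h1, h2, h3, h4, h5, h6, h7⟩ := coherence (F := fun i => I (Ff i))
    (F' := fun i => I (Pf i)) (Γ := fun m => I (Gf m))
    (fun i => genI _ (isGen_Ff i)) (fun i => genI _ (isGen_Pf i)) (fun m => genI _ (isGen_Gf m))
    (fun i j => by rw [ind_inner e A hA _ (clF j) (Ff_van j), gFF])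
    (fun i => by rw [ind_inner_one e, gF1])
    (fun i => by
      show I (Ff i) 1 = 0
      rw [← one1, valF]
      exact Ff_van i 1 one_not_inA)
    (fun m n => by rw [ind_inner e A hA _ (clG n) (Gf_van n), gGG])
    (fun m i => by rw [ind_inner e A hA _ (clF i) (Ff_van i), gGF])
    (fun m => by rw [ind_inner_one e, gG1])
    (fun m => by
      show I (Gf m) 1 = 0
      rw [← one1, valG]
      exact Gf_van m 1 one_not_inA)
    (fun i j => by rw [ind_inner e A hA _ (clP j) (Pf_van j), gPP])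
    (fun i j => by rw [ind_inner e A hA _ (clF j) (Ff_van j), gPF])
    (fun i m => by rw [ind_inner e A hA _ (clG m) (Gf_van m), gPG])
    (fun i => by rw [ind_inner_one e, gP1])
  refine ⟨X, Y, Y', Z, h1, h2, ?_, ?_, ?_, ?_, ?_⟩
  · intro i k
    have h := congrFun (h3 i) (iot e k)
    simp only [Pi.add_apply, Pi.sub_apply, Pi.one_apply] at h
    rw [valF] at h
    rw [h]
    ring
  · intro k
    have h := congrFun h4 (iot e k)
    simp only [Pi.add_apply, Pi.sub_apply] at h
    rw [valP] at h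
    rw [h]
    ring
  · intro k
    have h := congrFun h5 (iot e k)
    simp only [Pi.add_apply, Pi.sub_apply] at h
    rw [valP] at h
    rw [h]
    ring
  · intro k
    have h := congrFun h6 (iot e k)
    simp only [Pi.add_apply, Pi.sub_apply] at h
    rw [valP] at h
    rw [h]
    ring
  · intro m k
    have h := congrFun (h7 m) (iot e k)
    simp only [Pi.add_apply, Pi.sub_apply, Pi.one_apply] at h
    rw [valG] at h
    rw [h]
    ring

end Cfsg.Agent.Lib.Recog13
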