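import Mathlib
import Cfsg.Agent.Lib.Recog13.Fam

/-!
# The values of the coherent family on the elements with non-trivial part in `T`
-/

set_option autoImplicit false

namespace Cfsg.Agent.Lib.Recog13

open Cfsg Cfsg.Agent.Lib.Char.Virtual

universe u

variable {G : Type u} [Group G] [Fintype G] {H T : Subgroup G}

/-- The family and its relations. -/
structure FamD (e : H ≃* E13) (X Y Y' : Fin 3 → G → ℂ) (Z : Fin 5 → G → ℂ) : Prop where
  sgn : ∀ a, IsSignedIrr G (fam X Y Y' Z a)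
  orth : ∀ a b, a ≠ b → classInner (fam X Y Y' Z a) (fam X Y Y' Z b) = 0
  hY : ∀ i k, Y i (iot e k) = 1 + X i (iot e k) - Ff i k
  hY0 : ∀ k, Y' 0 (iot e k) = X 1 (iot e k) + X 2 (iot e k) - Pf 0 k
  hY1 : ∀ k, Y' 1 (iot e k) = X 0 (iot e k) + X 2 (iot e k) - Pf 1 k
  hY2 : ∀ k, Y' 2 (iot e k) = X 0 (iot e k) + X 1 (iot e k) - Pf 2 k
  hZ : ∀ m k, Z m (iot e k) = 1 + (X 0 (iot e k) + X 1 (iot e k) + X 2 (iot e k)) - Gf m k

theorem Sit.exists_famD (S : Sit H T) (e : H ≃* E13) :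
    ∃ (X Y Y' : Fin 3 → G → ℂ) (Z : Fin 5 → G → ℂ), FamD e X Y Y' Z := by
  obtain ⟨X, Y, Y', Z, h1, h2, h3, h4, h5, h6, h7⟩ := S.exists_family e
  exact ⟨X, Y, Y', Z, h1, h2, h3, h4, h5, h6, h7⟩

theorem Mu_re (m : Fin 5) (k : E13) : (Mu m k).re = (mA m k.1 : ℝ) / 2 := by
  simp [Mu, mk, s3]

theorem Mu_im (m : Fin 5) (k : E13) : (Mu m k).im = Real.sqrt 3 * (mB m k.1 : ℝ) / 2 := by
  simp [Mu, mk, s3]

theorem Mu_normSq (m : Fin 5) (k : E13) :
    Complex.normSq (Mu m k) = ((mA m k.1 : ℝ) ^ 2 + 3 * (mB m k.1 : ℝ) ^ 2) / 4 := by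
  rw [Complex.normSq_apply, Mu_re, Mu_im]
  have h : Real.sqrt 3 * Real.sqrt 3 = 3 := Real.mul_self_sqrt (by norm_num)
  linear_combination ((mB m k.1 : ℝ) ^ 2 / 4) * h

theorem ns_int (n : ℤ) : Complex.normSq (n : ℂ) = (n : ℝ) ^ 2 := by
  simp [Complex.normSq_apply, sq]

/-- The sum over the family. -/
theorem sum_fam {β : Type*} [AddCommMonoid β] (X Y Y' : Fin 3 → G → ℂ) (Z : Fin 5 → G → ℂ)
    (f : (G → ℂ) → β) :
    ∑ a, f (fam X Y Y' Z a) = f 1 + ((f (X 0) + f (X 1) + f (X 2)) + ((f (Y 0) + f (Y 1) + f (Y 2)) +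
      ((f (Y' 0) + f (Y' 1) + f (Y' 2)) + (f (Z 0) + f (Z 1) + f (Z 2) + f (Z 3) + f (Z 4))))) := by
  simp only [Fintype.sum_option, Fintype.sum_sum_type, Fin.sum_univ_three, Fin.sum_univ_five, fam]

theorem Sit.column (S : Sit H T) {e : H ≃* E13} {X Y Y' : Fin 3 → G → ℂ} {Z : Fin 5 → G → ℂ}
    (D : FamD e X Y Y' Z) {k : E13} (hk : inA k.1 = true) :
    (∀ i, X i (iot e k) = eC i k) ∧ (∀ i, Y i (iot e k) = rC i k) ∧ (∀ i, Y' i (iot e k) = rPC i k) ∧
      (∀ m, Z m (iot e k) = Mu m k) ∧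
      ∑ a, Complex.normSq (fam X Y Y' Z a (iot e k)) =
        (Nat.card (Subgroup.centralizer ({iot e k} : Set G)) : ℝ) := by
  obtain ⟨g1, g2, g3, g4, g5⟩ := good k hk
  have hle := sum_normSq_le (fam X Y Y' Z) D.sgn D.orth (iot e k)
  rw [S.card_centralizer e hk] at hle ⊢
  rw [sum_fam X Y Y' Z (fun φ => Complex.normSq (φ (iot e k)))] at hle ⊢
  -- names for the differences
  set c : Fin 3 → ℂ := fun i => X i (iot e k) - eC i k with hc
  have hX : ∀ i, X i (iot e k) = eC i k + c i := fun i => by simp [hc]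
  have hY : ∀ i, Y i (iot e k) = rC i k + c i := by
    intro i
    rw [D.hY, Ff_eq]
    simp only [hc, Pi.add_apply, Pi.sub_apply, Pi.one_apply]
    ring
  have hY0 : Y' 0 (iot e k) = rPC 0 k + (c 1 + c 2) := by
    rw [D.hY0, Pf_eq0]
    simp only [hc, Pi.add_apply, Pi.sub_apply]
    ring
  have hY1 : Y' 1 (iot e k) = rPC 1 k + (c 0 + c 2) := by
    rw [D.hY1, Pf_eq1]
    simp only [hc, Pi.add_apply, Pi.sub_apply]
    ring
  have hY2 : Y' 2 (iot e k) = rPC 2 k + (c 0 + c 1) := by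
    rw [D.hY2, Pf_eq2]
    simp only [hc, Pi.add_apply, Pi.sub_apply]
    ring
  have hZ : ∀ m, Z m (iot e k) = Mu m k + (c 0 + c 1 + c 2) := by
    intro m
    rw [D.hZ, Gf_eq]
    simp only [hc, Pi.add_apply, Pi.sub_apply, Pi.one_apply]
    ring
  -- base values
  have hC : 1 + (Complex.normSq (eC 0 k) + Complex.normSq (eC 1 k) + Complex.normSq (eC 2 k)) +
      (Complex.normSq (rC 0 k) + Complex.normSq (rC 1 k) + Complex.normSq (rC 2 k)) +
      (Complex.normSq (rPC 0 k) + Complex.normSq (rPC 1 k) + Complex.normSq (rPC 2 k)) +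
      (Complex.normSq (Mu 0 k) + Complex.normSq (Mu 1 k) + Complex.normSq (Mu 2 k) + Complex.normSq (Mu 3 k) +
        Complex.normSq (Mu 4 k)) = (cen k : ℝ) := by
    simp only [eC, rC, rPC, ns_int, Mu_normSq]
    have g1R := congrArg (Int.cast : ℤ → ℝ) g1
    push_cast at g1R
    linarith
  have g2R := congrArg (Int.cast : ℤ → ℝ) g2
  have g3R := congrArg (Int.cast : ℤ → ℝ) g3
  have g4R := congrArg (Int.cast : ℤ → ℝ) g4
  have g5R := congrArg (Int.cast : ℤ → ℝ) g5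
  push_cast at g2R g3R g4R g5R
  have hre : ∀ n : ℤ, ((n : ℂ)).re = (n : ℝ) := fun n => by simp
  have him : ∀ n : ℤ, ((n : ℂ)).im = 0 := fun n => by simp
  have key := column_lemma (a0 := eC 0 k) (a1 := eC 1 k) (a2 := eC 2 k) (b0 := rC 0 k) (b1 := rC 1 k)
    (b2 := rC 2 k) (p0 := rPC 0 k) (p1 := rPC 1 k) (p2 := rPC 2 k) (c0 := c 0) (c1 := c 1) (c2 := c 2)
    (m := fun n => Mu n k) hC
    (by
      simp only [eC, rC, rPC, hre, Mu_re]
      linarith)
    (by
      simp only [eC, rC, rPC, hre, Mu_re]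
      linarith)
    (by
      simp only [eC, rC, rPC, hre, Mu_re]
      linarith)
    (by
      simp only [eC, rC, rPC, him, Mu_im]
      linear_combination (Real.sqrt 3 / 2) * g5R)
    (by
      simp only [eC, rC, rPC, him, Mu_im]
      linear_combination (Real.sqrt 3 / 2) * g5R)
    (by
      simp only [eC, rC, rPC, him, Mu_im]
      linear_combination (Real.sqrt 3 / 2) * g5R)
    (by
      simp only [hX, hY, hY0, hY1, hY2, hZ, Pi.one_apply, map_one] at hle
      linarith only [hle])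
  obtain ⟨c0, c1, c2⟩ := key
  have hcz : ∀ i, c i = 0 := by
    intro i
    fin_cases i
    · exact c0
    · exact c1
    · exact c2
  refine ⟨fun i => by rw [hX, hcz, add_zero], fun i => by rw [hY, hcz, add_zero], ?_, fun m => by
    rw [hZ, c0, c1, c2]
    simp, ?_⟩
  · intro i
    fin_cases i
    · show Y' 0 _ = rPC 0 k
      rw [hY0, c1, c2]
      simp
    · show Y' 1 _ = rPC 1 k
      rw [hY1, c0, c2]
      simp
    · show Y' 2 _ = rPC 2 k
      rw [hY2, c0, c1]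
      simp
  · simp only [hX, hY, hY0, hY1, hY2, hZ, Pi.one_apply, map_one, c0, c1, c2, add_zero]
    linarith only [hC]

end Cfsg.Agent.Lib.Recog13
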