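import Mathlib
import Cfsg.Agent.Lib.Recog13.Values
import Cfsg.Agent.Lib.Recog13.Model7
import Cfsg.Agent.Lib.Recog13.Alg

/-!
# Non-fusion of the three classes of involutions, class sums
-/

set_option autoImplicit false

namespace Cfsg.Agent.Lib.Recog13

open Cfsg Cfsg.Agent.Lib.Char.Virtual
open scoped ComplexConjugate

universe u

/-- The sum over a cyclic subgroup of the values of a generalized character is divisible. -/
theorem cyc_sum {A : Type*} [Group A] [Fintype A] {χ : A → ℂ} (hχ : IsGeneralizedCharacter A χ) (g : A) :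
    ∃ m : ℤ, ∑ k ∈ Finset.range (orderOf g), χ (g ^ k) = (orderOf g : ℂ) * m := by
  classical
  have hg : IsOfFinOrder g := isOfFinOrder_of_finite g
  haveI : Fintype (Subgroup.zpowers g) := Fintype.ofFinite _
  have h1 := isGeneralized_comp_hom hχ (Subgroup.zpowers g).subtype
  have h0 : IsGeneralizedCharacter (Subgroup.zpowers g) (1 : Subgroup.zpowers g → ℂ) :=
    isGeneralized_char Cfsg.Agent.Lib.Char.Basic.isCharacter_one
  obtain ⟨m, hm⟩ := exists_int_classInner h1 h0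
  refine ⟨m, ?_⟩
  rw [← hm, classInner, Nat.card_zpowers]
  have hne : (orderOf g : ℂ) ≠ 0 := by
    exact_mod_cast (orderOf_pos g).ne'
  rw [← mul_assoc, mul_inv_cancel₀ hne, one_mul]
  simp only [Pi.one_apply, map_one, mul_one]
  rw [← Fin.sum_univ_eq_sum_range (fun k => χ (g ^ k))]
  exact Equiv.sum_comp (finEquivZPowers hg) (fun y : Subgroup.zpowers g => χ y.1)

variable {G : Type u} [Group G] [Fintype G] {H T : Subgroup G}

/-- The congruence at the involutions. -/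
theorem cong_ee {χ : E13 → ℂ} (hχ : IsGeneralizedCharacter E13 χ) (j : Fin 3) :
    ∃ n : ℤ, χ (gg j * ee j) + χ (ee j) + χ (gg j ^ 2 * ee j) = 3 * n := by
  obtain ⟨m3, h3⟩ := cyc_sum hχ (gg j)
  obtain ⟨m6, h6⟩ := cyc_sum hχ (gg j * ee j)
  obtain ⟨a1, a2⟩ := gg_ord j
  obtain ⟨b1, b2⟩ := ue_ord j
  haveI : Fact (Nat.Prime 3) := ⟨by norm_num⟩
  have o3 : orderOf (gg j) = 3 := orderOf_eq_prime a1 a2
  have o6 : orderOf (gg j * ee j) = 6 := by
    rw [orderOf_eq_iff (by norm_num)]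
    refine ⟨b1, fun m hm hm0 => b2 ⟨m, hm⟩ hm0⟩
  rw [o3] at h3
  rw [o6] at h6
  obtain ⟨c1, c2, c3, c4⟩ := ue_pow j
  simp only [Finset.sum_range_succ, Finset.sum_range_zero, zero_add, pow_zero, pow_one] at h3 h6
  rw [c1, c2, c3, c4] at h6
  refine ⟨2 * m6 - m3, ?_⟩
  push_cast at h3 h6 ⊢
  linear_combination h6 - h3

theorem FamD.isGen_X {e : H ≃* E13} {X Y Y' : Fin 3 → G → ℂ} {Z : Fin 5 → G → ℂ}
    (D : FamD e X Y Y' Z) (i : Fin 3) : IsGeneralizedCharacter G (X i) :=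
  (D.sgn (some (Sum.inl i))).isGeneralized

/-- The values of `X` at the involutions modulo 3. -/
theorem Sit.cong_X (S : Sit H T) {e : H ≃* E13} {X Y Y' : Fin 3 → G → ℂ} {Z : Fin 5 → G → ℂ}
    (D : FamD e X Y Y' Z) (i j : Fin 3) : ∃ n : ℤ, X i (iot e (ee j)) = 3 * n - 2 * (eZ i (ee j).1 : ℂ) := by
  obtain ⟨n, hn⟩ := cong_ee (isGeneralized_comp_hom (D.isGen_X i) (iot e)) j
  obtain ⟨u1, u2⟩ := ue_inA j
  obtain ⟨v1, v2⟩ := ue_eZ j i
  have h1 := (S.column D u1).1 i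
  have h2 := (S.column D u2).1 i
  rw [h1, h2] at hn
  simp only [eC, v1, v2] at hn
  exact ⟨n, by linear_combination hn⟩

/-- The three classes of involutions are distinct in `G`. -/
theorem Sit.not_conj (S : Sit H T) {e : H ≃* E13} {X Y Y' : Fin 3 → G → ℂ} {Z : Fin 5 → G → ℂ}
    (D : FamD e X Y Y' Z) {j l : Fin 3} (hjl : j ≠ l) : ¬ IsConj (iot e (ee j)) (iot e (ee l)) := by
  intro hc
  obtain ⟨c, hc⟩ := isConj_iff.mp hc
  have h1 := Cfsg.Agent.Lib.Blocks.BSInd.IsGeneralized_isClassFunction (D.isGen_X j) (iot e (ee j)) c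
  rw [hc] at h1
  obtain ⟨n, hn⟩ := S.cong_X D j j
  obtain ⟨n', hn'⟩ := S.cong_X D j l
  rw [hn, hn', ee_eZ_self, ee_eZ_ne j l hjl] at h1
  have h2 : (3 * n' - 2 * (-1 : ℤ) : ℤ) = 3 * n - 2 * 1 := by
    have h3 : ((3 * n' - 2 * (-1 : ℤ) : ℤ) : ℂ) = ((3 * n - 2 * 1 : ℤ) : ℂ) := by
      push_cast
      push_cast at h1
      linear_combination h1
    exact_mod_cast h3
  omega

/-- An involution `s` such that `s t` is an involution lies in `H`. -/
theorem Sit.exists_inv (S : Sit H T) (e : H ≃* E13) {k : E13} (hk : k ∈ TT) (hk1 : k ≠ 1) {s : G}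
    (hs : s * s = 1) (hst : (s * iot e k) * (s * iot e k) = 1) :
    ∃ s₀ : E13, iot e s₀ = s ∧ s₀ * s₀ = 1 ∧ (s₀ * k) * (s₀ * k) = 1 := by
  have ht : iot e k ∈ T := (S.mem_iff e k).mpr hk
  have ht1 : iot e k ≠ 1 := by
    intro h
    apply hk1
    apply iot_inj e
    rw [h, map_one]
  have hinv : s⁻¹ = s := inv_eq_of_mul_eq_one_right hs
  have hH : s ∈ H := by
    apply S.ti e ht ht1
    have h1 : s * iot e k * s⁻¹ = (iot e k)⁻¹ := by
      rw [hinv]
      apply eq_inv_of_mul_eq_one_left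
      rw [← hst]
      group
    rw [h1]
    exact T.inv_mem ht
  obtain ⟨s₀, rfl⟩ := exists_iot e hH
  refine ⟨s₀, rfl, ?_, ?_⟩
  · apply iot_inj e
    rw [map_mul, hs, map_one]
  · apply iot_inj e
    rw [map_mul, map_mul, hst, map_one]

theorem conj_inv {a b : G} (hc : IsConj a b) (ha : a * a = 1) : b * b = 1 := by
  obtain ⟨c, rfl⟩ := isConj_iff.mp hc
  calc c * a * c⁻¹ * (c * a * c⁻¹) = c * (a * a) * c⁻¹ := by group
    _ = 1 := by rw [ha]; group

theorem iot_conj (e : H ≃* E13) {a b : E13} (h : ∃ c : E13, c * a * c⁻¹ = b) : IsConj (iot e a) (iot e b) := by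
  obtain ⟨c, rfl⟩ := h
  rw [isConj_iff]
  exact ⟨iot e c, by simp⟩

theorem iot_ee_sq (e : H ≃* E13) (j : Fin 3) : iot e (ee j) * iot e (ee j) = 1 := by
  rw [← map_mul, ee_sq, map_one]

/-- The count at `t0` vanishes. -/
theorem Sit.cnt_t0 (S : Sit H T) (e : H ≃* E13) (j l : Fin 3) :
    Cnt (iot e (ee j)) (iot e (ee l)) (iot e t0) = 0 := by
  rw [Cnt, Nat.card_eq_zero]
  left
  constructor
  rintro ⟨s, h1, h2⟩
  have h3 := conj_inv h1 (iot_ee_sq e j)
  have h4 := conj_inv h2.symm (iot_ee_sq e l)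
  obtain ⟨s₀, -, h5, h6⟩ := S.exists_inv e t0_TT t0_ne h3 h4
  exact no_inv_t0 s₀ h5 h6

/-- The count at `tt i` for an involution of another class vanishes. -/
theorem Sit.cnt_tt (S : Sit H T) {e : H ≃* E13} {X Y Y' : Fin 3 → G → ℂ} {Z : Fin 5 → G → ℂ}
    (D : FamD e X Y Y' Z) {i j : Fin 3} (hij : i ≠ j) :
    Cnt (iot e (ee j)) (iot e (ee j)) (iot e (tt i)) = 0 := by
  rw [Cnt, Nat.card_eq_zero]
  left
  constructor
  rintro ⟨s, h1, h2⟩
  have h3 := conj_inv h1 (iot_ee_sq e j)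
  have h4 := conj_inv h2.symm (iot_ee_sq e j)
  obtain ⟨s₀, rfl, h5, h6⟩ := S.exists_inv e (tt_TT i) (tt_ne i) h3 h4
  exact S.not_conj D hij ((iot_conj e (inv_tt i s₀ h5 h6)).symm.trans h1.symm)

/-- The count at `tt i` for the involution of its class is positive. -/
theorem cnt_tt_pos (e : H ≃* E13) (i : Fin 3) :
    Cnt (iot e (ee i)) (iot e (ee i)) (iot e (tt i)) ≠ 0 := by
  rw [Cnt]
  haveI : Nonempty {s : G // IsConj (iot e (ee i)) s ∧ IsConj (s * iot e (tt i)) (iot e (ee i))} := by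
    refine ⟨⟨iot e (ee i), IsConj.refl _, ?_⟩⟩
    rw [← map_mul]
    exact iot_conj e (ee_tt_conj i)
  exact Nat.card_pos.ne'

/-- The count vanishes exactly when the sum over the family does. -/
theorem Sit.sum_iff (S : Sit H T) {e : H ≃* E13} {X Y Y' : Fin 3 → G → ℂ} {Z : Fin 5 → G → ℂ}
    (D : FamD e X Y Y' Z) {k : E13} (hk : inA k.1 = true) (x y : G) (hy : y * y = 1) :
    (∑ a, fam X Y Y' Z a x * fam X Y Y' Z a y * fam X Y Y' Z a (iot e k) / fam X Y Y' Z a 1 = 0) ↔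
      Cnt x y (iot e k) = 0 := by
  classical
  haveI : Fintype (IrrCharacter G) := Fintype.ofFinite _
  have h1 := sum_triple_eq (fam X Y Y' Z) D.sgn D.orth (S.column D hk).2.2.2.2 x y
  have h2 := cnt_formula x y (iot e k) hy
  rw [h1] at h2
  have hc : (Nat.card (Subgroup.centralizer ({y} : Set G)) : ℂ) ≠ 0 := by
    exact_mod_cast Nat.card_pos.ne'
  have hi : ((Subgroup.centralizer ({x} : Set G)).index : ℂ) ≠ 0 := by
    exact_mod_cast Subgroup.index_ne_zero_of_finite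
  constructor
  · intro h3
    rw [h3, mul_zero] at h2
    have h4 := (mul_eq_zero.mp h2).resolve_right hc
    exact_mod_cast h4
  · intro h3
    rw [h3] at h2
    simp only [Nat.cast_zero, zero_mul] at h2
    exact (mul_eq_zero.mp h2.symm).resolve_left hi

end Cfsg.Agent.Lib.Recog13
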