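import Mathlib
import Cfsg.Agent.Lib.Recog13.Count

/-!
# The degrees of the characters `X i` are 1
-/

set_option autoImplicit false

namespace Cfsg.Agent.Lib.Recog13

open Cfsg Cfsg.Agent.Lib.Char.Virtual

universe u

variable {G : Type u} [Group G] [Fintype G] {H T : Subgroup G}

theorem Mu_sum {k : E13} (hk : inA k.1 = true) {n : ℤ}
    (h : mA 0 k.1 + mA 1 k.1 + mA 2 k.1 + mA 3 k.1 + mA 4 k.1 = 2 * n) :
    Mu 0 k + Mu 1 k + Mu 2 k + Mu 3 k + Mu 4 k = (n : ℂ) := by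
  obtain ⟨-, -, -, -, g5⟩ := good k hk
  have h1 : ((mA 0 k.1 : ℂ) + (mA 1 k.1 : ℂ) + (mA 2 k.1 : ℂ) + (mA 3 k.1 : ℂ) + (mA 4 k.1 : ℂ)) = 2 * (n : ℂ) := by
    exact_mod_cast congrArg (Int.cast : ℤ → ℂ) h
  have h2 : ((mB 0 k.1 : ℂ) + (mB 1 k.1 : ℂ) + (mB 2 k.1 : ℂ) + (mB 3 k.1 : ℂ) + (mB 4 k.1 : ℂ)) = 0 := by
    exact_mod_cast congrArg (Int.cast : ℤ → ℂ) g5
  simp only [Mu, mk]
  linear_combination (1 / 2 : ℂ) * h1 + (s3 / 2) * h2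

section

variable {e : H ≃* E13} {X Y Y' : Fin 3 → G → ℂ} {Z : Fin 5 → G → ℂ}

theorem iot_one (e : H ≃* E13) : iot e 1 = 1 := map_one _

theorem FamD.Y_notA (D : FamD e X Y Y' Z) {x : E13} (hx : ¬ inA x.1 = true) (i : Fin 3) :
    Y i (iot e x) = 1 + X i (iot e x) := by
  rw [D.hY, Ff_van i x hx, sub_zero]

theorem FamD.Y0_notA (D : FamD e X Y Y' Z) {x : E13} (hx : ¬ inA x.1 = true) :
    Y' 0 (iot e x) = X 1 (iot e x) + X 2 (iot e x) := by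
  rw [D.hY0, Pf_van 0 x hx, sub_zero]

theorem FamD.Y1_notA (D : FamD e X Y Y' Z) {x : E13} (hx : ¬ inA x.1 = true) :
    Y' 1 (iot e x) = X 0 (iot e x) + X 2 (iot e x) := by
  rw [D.hY1, Pf_van 1 x hx, sub_zero]

theorem FamD.Y2_notA (D : FamD e X Y Y' Z) {x : E13} (hx : ¬ inA x.1 = true) :
    Y' 2 (iot e x) = X 0 (iot e x) + X 1 (iot e x) := by
  rw [D.hY2, Pf_van 2 x hx, sub_zero]

theorem FamD.Z_notA (D : FamD e X Y Y' Z) {x : E13} (hx : ¬ inA x.1 = true) (m : Fin 5) :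
    Z m (iot e x) = 1 + (X 0 (iot e x) + X 1 (iot e x) + X 2 (iot e x)) := by
  rw [D.hZ, Gf_van m x hx, sub_zero]

/-- The sum over the family in terms of the degrees and the values at the involutions. -/
theorem Sit.B_eq (S : Sit H T) (D : FamD e X Y Y' Z) {k : E13} (hk : inA k.1 = true) (hT : k ∈ TT)
    {x y : E13} (hx : ¬ inA x.1 = true) (hy : ¬ inA y.1 = true) :
    ∑ a, fam X Y Y' Z a (iot e x) * fam X Y Y' Z a (iot e y) * fam X Y Y' Z a (iot e k) / fam X Y Y' Z a 1 =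
      Bf (rC 0 k) (rC 1 k) (rC 2 k) (Mu 0 k + Mu 1 k + Mu 2 k + Mu 3 k + Mu 4 k) (X 0 1) (X 1 1) (X 2 1)
        (X 0 (iot e x)) (X 1 (iot e x)) (X 2 (iot e x)) (X 0 (iot e y)) (X 1 (iot e y)) (X 2 (iot e y)) := by
  obtain ⟨c1, c2, c3, c4, -⟩ := S.column D hk
  rw [sum_fam X Y Y' Z (fun φ => φ (iot e x) * φ (iot e y) * φ (iot e k) / φ 1)]
  have hX1 : ∀ i, eC i k = 1 := by
    intro i
    simp [eC, eZ_TT k hT i]
  have hY1 : ∀ i, rPC i k = rC i k := by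
    intro i
    simp [rPC, rC, rP_TT k hT i]
  have o1 := D.Y_notA (x := 1) one_not_inA
  have o2 := D.Y0_notA (x := 1) one_not_inA
  have o3 := D.Y1_notA (x := 1) one_not_inA
  have o4 := D.Y2_notA (x := 1) one_not_inA
  have o5 := D.Z_notA (x := 1) one_not_inA
  simp only [iot_one] at o1 o2 o3 o4 o5
  simp only [c1, c2, c3, c4, hX1, hY1, D.Y_notA hx, D.Y_notA hy, D.Y0_notA hx, D.Y0_notA hy, D.Y1_notA hx,
    D.Y1_notA hy, D.Y2_notA hx, D.Y2_notA hy, D.Z_notA hx, D.Z_notA hy, o1, o2, o3, o4, o5, Pi.one_apply, Bf]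
  ring

/-- The degrees. -/
theorem Sit.degrees (S : Sit H T) (D : FamD e X Y Y' Z) : X 0 1 = 1 ∧ X 1 1 = 1 ∧ X 2 1 = 1 := by
  have h0 : X 0 1 ≠ 0 := signed_one_ne_zero (D.sgn (some (Sum.inl 0)))
  have h1 : X 1 1 ≠ 0 := signed_one_ne_zero (D.sgn (some (Sum.inl 1)))
  have h2 : X 2 1 ≠ 0 := signed_one_ne_zero (D.sgn (some (Sum.inl 2)))
  have o1 := D.Y_notA (x := 1) one_not_inA
  have o2 := D.Y0_notA (x := 1) one_not_inA
  have o3 := D.Y1_notA (x := 1) one_not_inA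
  have o4 := D.Y2_notA (x := 1) one_not_inA
  have o5 := D.Z_notA (x := 1) one_not_inA 0
  simp only [iot_one] at o1 o2 o3 o4 o5
  have A0 : 1 + X 0 1 ≠ 0 := by
    rw [← o1 0]
    exact signed_one_ne_zero (D.sgn (some (Sum.inr (Sum.inl 0))))
  have A1 : 1 + X 1 1 ≠ 0 := by
    rw [← o1 1]
    exact signed_one_ne_zero (D.sgn (some (Sum.inr (Sum.inl 1))))
  have A2 : 1 + X 2 1 ≠ 0 := by
    rw [← o1 2]
    exact signed_one_ne_zero (D.sgn (some (Sum.inr (Sum.inl 2))))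
  have B0 : X 1 1 + X 2 1 ≠ 0 := by
    rw [← o2]
    exact signed_one_ne_zero (D.sgn (some (Sum.inr (Sum.inr (Sum.inl 0)))))
  have B1 : X 0 1 + X 2 1 ≠ 0 := by
    rw [← o3]
    exact signed_one_ne_zero (D.sgn (some (Sum.inr (Sum.inr (Sum.inl 1)))))
  have B2 : X 0 1 + X 1 1 ≠ 0 := by
    rw [← o4]
    exact signed_one_ne_zero (D.sgn (some (Sum.inr (Sum.inr (Sum.inl 2)))))
  have DD : 1 + X 0 1 + X 1 1 + X 2 1 ≠ 0 := by
    have h3 : 1 + X 0 1 + X 1 1 + X 2 1 = Z 0 1 := by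
      rw [o5]
      ring
    rw [h3]
    exact signed_one_ne_zero (D.sgn (some (Sum.inr (Sum.inr (Sum.inr 0)))))
  -- the values at `t0`
  have T0 : ∀ j l : Fin 3, Bf (-1) (-1) (-1) 2 (X 0 1) (X 1 1) (X 2 1)
      (X 0 (iot e (ee j))) (X 1 (iot e (ee j))) (X 2 (iot e (ee j)))
      (X 0 (iot e (ee l))) (X 1 (iot e (ee l))) (X 2 (iot e (ee l))) = 0 := by
    intro j l
    have h3 := (S.sum_iff D t0_inA (iot e (ee j)) (iot e (ee l)) (iot_ee_sq e l)).mpr (S.cnt_t0 e j l)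
    rw [S.B_eq D t0_inA t0_TT (ee_notA j) (ee_notA l)] at h3
    obtain ⟨v1, v2, v3, v4⟩ := t0_vals
    rw [Mu_sum t0_inA (n := 2) (by rw [v4]; norm_num)] at h3
    simpa [rC, v1, v2, v3] using h3
  have P0 : ∀ j : Fin 3, (Bf 2 (-1) (-1) (-1) (X 0 1) (X 1 1) (X 2 1)
      (X 0 (iot e (ee j))) (X 1 (iot e (ee j))) (X 2 (iot e (ee j)))
      (X 0 (iot e (ee j))) (X 1 (iot e (ee j))) (X 2 (iot e (ee j))) = 0) ↔
      Cnt (iot e (ee j)) (iot e (ee j)) (iot e (tt 0)) = 0 := by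
    intro j
    rw [← S.sum_iff D (tt_inA 0) (iot e (ee j)) (iot e (ee j)) (iot_ee_sq e j),
      S.B_eq D (tt_inA 0) (tt_TT 0) (ee_notA j) (ee_notA j)]
    obtain ⟨v1, v2, v3, v4⟩ := tt0_vals
    rw [Mu_sum (tt_inA 0) (n := -1) (by rw [v4]; norm_num)]
    simp [rC, v1, v2, v3]
  have P1 : ∀ j : Fin 3, (Bf (-1) 2 (-1) (-1) (X 0 1) (X 1 1) (X 2 1)
      (X 0 (iot e (ee j))) (X 1 (iot e (ee j))) (X 2 (iot e (ee j)))
      (X 0 (iot e (ee j))) (X 1 (iot e (ee j))) (X 2 (iot e (ee j))) = 0) ↔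
      Cnt (iot e (ee j)) (iot e (ee j)) (iot e (tt 1)) = 0 := by
    intro j
    rw [← S.sum_iff D (tt_inA 1) (iot e (ee j)) (iot e (ee j)) (iot_ee_sq e j),
      S.B_eq D (tt_inA 1) (tt_TT 1) (ee_notA j) (ee_notA j)]
    obtain ⟨v1, v2, v3, v4⟩ := tt1_vals
    rw [Mu_sum (tt_inA 1) (n := -1) (by rw [v4]; norm_num)]
    simp [rC, v1, v2, v3]
  have P2 : ∀ j : Fin 3, (Bf (-1) (-1) 2 (-1) (X 0 1) (X 1 1) (X 2 1)
      (X 0 (iot e (ee j))) (X 1 (iot e (ee j))) (X 2 (iot e (ee j)))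
      (X 0 (iot e (ee j))) (X 1 (iot e (ee j))) (X 2 (iot e (ee j))) = 0) ↔
      Cnt (iot e (ee j)) (iot e (ee j)) (iot e (tt 2)) = 0 := by
    intro j
    rw [← S.sum_iff D (tt_inA 2) (iot e (ee j)) (iot e (ee j)) (iot_ee_sq e j),
      S.B_eq D (tt_inA 2) (tt_TT 2) (ee_notA j) (ee_notA j)]
    obtain ⟨v1, v2, v3, v4⟩ := tt2_vals
    rw [Mu_sum (tt_inA 2) (n := -1) (by rw [v4]; norm_num)]
    simp [rC, v1, v2, v3]
  exact alg_main h0 h1 h2 A0 A1 A2 B0 B1 B2 DD (T0 0 0) (T0 0 1) (T0 0 2) (T0 1 1) (T0 1 2) (T0 2 2)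
    (fun h => cnt_tt_pos e 0 ((P0 0).mp h)) ((P0 1).mpr (S.cnt_tt D (by decide))) ((P0 2).mpr (S.cnt_tt D (by decide)))
    ((P1 0).mpr (S.cnt_tt D (by decide))) (fun h => cnt_tt_pos e 1 ((P1 1).mp h)) ((P1 2).mpr (S.cnt_tt D (by decide)))
    ((P2 0).mpr (S.cnt_tt D (by decide))) ((P2 1).mpr (S.cnt_tt D (by decide))) (fun h => cnt_tt_pos e 2 ((P2 2).mp h))

end

end Cfsg.Agent.Lib.Recog13
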