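import Mathlib
import Cfsg.Agent.Lib.Thompson.Main

/-!
# A group with a self-normalizing abelian subgroup of order 27 acting fixed point freely

If `P` is abelian of order 27, contains a non-cyclic subgroup of order 9, is self-normalizing and contains the
centralizers of its non-trivial elements, then `P` is the whole group.
-/

set_option autoImplicit false

namespace Cfsg.Agent.Lib.Recog13

open Subgroup

theorem nine_add {W : Type*} [AddCommGroup W] {w00 w10 w20 w01 w02 w11 w22 w12 w21 : W}
    (R1 : w00 + w10 + w20 = 0) (R2 : w00 + w01 + w02 = 0) (R3 : w00 + w11 + w22 = 0)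
    (R4 : w00 + w12 + w21 = 0) (R5 : w01 + w11 + w21 = 0) (R6 : w02 + w12 + w22 = 0) :
    3 • w00 = 0 := by
  have h : 3 • w00 = (w00 + w10 + w20) + (w00 + w01 + w02) + (w00 + w11 + w22) + (w00 + w12 + w21) -
      (w00 + w10 + w20) - (w01 + w11 + w21) - (w02 + w12 + w22) := by abel
  rw [h, R1, R2, R3, R4, R5, R6]
  simp

theorem nine_mul {V : Type*} [CommGroup V] {w00 w10 w20 w01 w02 w11 w22 w12 w21 : V}
    (R1 : w00 * w10 * w20 = 1) (R2 : w00 * w01 * w02 = 1) (R3 : w00 * w11 * w22 = 1)
    (R4 : w00 * w12 * w21 = 1) (R5 : w01 * w11 * w21 = 1) (R6 : w02 * w12 * w22 = 1) :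
    w00 ^ 3 = 1 :=
  nine_add (W := Additive V) (w00 := Additive.ofMul w00) (w10 := Additive.ofMul w10)
    (w20 := Additive.ofMul w20) (w01 := Additive.ofMul w01) (w02 := Additive.ofMul w02)
    (w11 := Additive.ofMul w11) (w22 := Additive.ofMul w22) (w12 := Additive.ofMul w12)
    (w21 := Additive.ofMul w21) R1 R2 R3 R4 R5 R6

section

variable {A : Type*} [Group A]

/-- The abelian case. -/
theorem abelian_case (V : Subgroup A) [hn : V.Normal] (hV : ∀ x ∈ V, ∀ y ∈ V, x * y = y * x)
    {a b : A} (hab : a * b = b * a) (ha3 : a ^ 3 = 1) (hb3 : b ^ 3 = 1)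
    (hfix : ∀ y : A, (y = a ∨ y = b ∨ y = a * b ∨ y = a * b * b) → ∀ v ∈ V, y * v * y⁻¹ = v → v = 1)
    {v : A} (hv : v ∈ V) : v ^ 3 = 1 := by
  letI : CommGroup V := { (inferInstance : Group V) with
    mul_comm := fun x y => Subtype.ext (hV x x.2 y y.2) }
  let c : A → V → V := fun g x => ⟨g * x.1 * g⁻¹, hn.conj_mem x.1 x.2 g⟩
  have c_mul : ∀ g (x y : V), c g (x * y) = c g x * c g y := by
    intro g x y
    apply Subtype.ext
    show g * (x.1 * y.1) * g⁻¹ = g * x.1 * g⁻¹ * (g * y.1 * g⁻¹)
    group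
  have c_c : ∀ g h (x : V), c g (c h x) = c (g * h) x := by
    intro g h x
    apply Subtype.ext
    show g * (h * x.1 * h⁻¹) * g⁻¹ = g * h * x.1 * (g * h)⁻¹
    group
  have c_one : ∀ x : V, c 1 x = x := by
    intro x
    apply Subtype.ext
    show 1 * x.1 * 1⁻¹ = x.1
    group
  have N : ∀ y : A, (y = a ∨ y = b ∨ y = a * b ∨ y = a * b * b) → y * y * y = 1 →
      ∀ x : V, x * c y x * c y (c y x) = 1 := by
    intro y hy hy3 x
    have h1 : c y (x * c y x * c y (c y x)) = x * c y x * c y (c y x) := by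
      rw [c_mul, c_mul, c_c y y (c y x), c_c (y * y) y x, hy3, c_one]
      rw [c_c y y x]
      rw [mul_comm (c y x * c (y * y) x) x, mul_assoc]
    have h2 := hfix y hy (x * c y x * c y (c y x)).1 (x * c y x * c y (c y x)).2 (congrArg Subtype.val h1)
    exact Subtype.ext h2
  have hba : b * a = a * b := hab.symm
  have ha3' : a * a * a = 1 := by rw [← ha3, pow_three, mul_assoc]
  have hb3' : b * b * b = 1 := by rw [← hb3, pow_three, mul_assoc]
  have hab3 : (a * b) * (a * b) * (a * b) = 1 := by
    calc (a * b) * (a * b) * (a * b) = a * (b * a) * b * (a * b) := by group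
      _ = a * (a * b) * b * (a * b) := by rw [hba]
      _ = a * a * b * (b * a) * b := by group
      _ = a * a * b * (a * b) * b := by rw [hba]
      _ = a * a * (b * a) * b * b := by group
      _ = a * a * (a * b) * b * b := by rw [hba]
      _ = (a * a * a) * (b * b * b) := by group
      _ = 1 := by rw [ha3', hb3', one_mul]
  have e1 : (a * b * b) * (a * b * b) = a * a * b := by
    calc (a * b * b) * (a * b * b) = a * b * (b * a) * b * b := by group
      _ = a * b * (a * b) * b * b := by rw [hba]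
      _ = a * (b * a) * b * b * b := by group
      _ = a * (a * b) * b * b * b := by rw [hba]
      _ = a * a * (b * b * b) * b := by group
      _ = a * a * b := by rw [hb3', mul_one]
  have e3 : (a * a * b) * (a * b * b) = 1 := by
    calc (a * a * b) * (a * b * b) = a * a * (b * a) * b * b := by group
      _ = a * a * (a * b) * b * b := by rw [hba]
      _ = (a * a * a) * (b * b * b) := by group
      _ = 1 := by rw [ha3', hb3', one_mul]
  have habb3 : (a * b * b) * (a * b * b) * (a * b * b) = 1 := by rw [e1, e3]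
  let x : V := ⟨v, hv⟩
  have R1 := N a (Or.inl rfl) ha3' x
  have R2 := N b (Or.inr (Or.inl rfl)) hb3' x
  have R3 := N (a * b) (Or.inr (Or.inr (Or.inl rfl))) hab3 x
  have R4 := N (a * b * b) (Or.inr (Or.inr (Or.inr rfl))) habb3 x
  have R5 := N a (Or.inl rfl) ha3' (c b x)
  have R6 := N a (Or.inl rfl) ha3' (c b (c b x))
  -- normal forms
  have w11 : c a (c b x) = c (a * b) x := c_c a b x
  have w12 : c a (c b (c b x)) = c (a * b * b) x := by
    rw [c_c b b x, c_c a (b * b) x, mul_assoc]
  have w21 : c a (c a (c b x)) = c (a * b * b) (c (a * b * b) x) := by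
    rw [c_c a b x, c_c a (a * b) x, c_c (a * b * b) (a * b * b) x, e1, mul_assoc]
  have w22 : c a (c a (c b (c b x))) = c (a * b) (c (a * b) x) := by
    rw [w12, c_c a (a * b * b) x, c_c (a * b) (a * b) x]
    congr 1
    calc a * (a * b * b) = a * a * b * b := by group
      _ = a * (a * b) * b := by group
      _ = a * (b * a) * b := by rw [hba]
      _ = a * b * (a * b) := by group
  rw [w21, w11] at R5
  rw [w22, w12] at R6
  have h := nine_mul R1 R2 R3 R4 R5 R6
  exact congrArg Subtype.val h

end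

/-- The final step. -/
theorem final_abs {A : Type*} [Group A] [Finite A] (P : Subgroup A) (hcard : Nat.card P = 27)
    (hcomm : ∀ x ∈ P, ∀ y ∈ P, x * y = y * x)
    (hN : Subgroup.normalizer (P : Set A) ≤ P)
    (hC : ∀ t ∈ P, t ≠ 1 → Subgroup.centralizer ({t} : Set A) ≤ P)
    {a b : A} (ha : a ∈ P) (hb : b ∈ P) (ha3 : a ^ 3 = 1) (hb3 : b ^ 3 = 1) (h1 : a ≠ 1) (h2 : b ≠ 1)
    (h3 : a * b ≠ 1) (h4 : a * b * b ≠ 1) : P = ⊤ := by
  classical
  haveI : Fact (Nat.Prime 3) := ⟨by norm_num⟩
  have hpg : IsPGroup 3 P := IsPGroup.of_card (n := 3) (by rw [hcard]; norm_num)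
  obtain ⟨Q, hPQ⟩ := hpg.exists_le_sylow
  -- the Sylow subgroup is `P`
  have hQP : (Q : Subgroup A) = P := by
    by_contra hne
    have hlt : (P.subgroupOf (Q : Subgroup A)) < ⊤ := by
      rw [lt_top_iff_ne_top]
      intro htop
      apply hne
      apply le_antisymm _ hPQ
      intro x hx
      have : (⟨x, hx⟩ : (Q : Subgroup A)) ∈ P.subgroupOf (Q : Subgroup A) := by
        rw [htop]
        trivial
      exact this
    haveI : Group.IsNilpotent (Q : Subgroup A) := Q.isPGroup'.isNilpotent
    have hnc := normalizerCondition_of_isNilpotent (G := (Q : Subgroup A)) _ hlt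
    obtain ⟨⟨x, hx⟩, hx1, hx2⟩ := SetLike.exists_of_lt hnc
    apply hx2
    have hxP : x ∈ P := by
      apply hN
      rw [Subgroup.mem_normalizer_iff]
      intro y
      rw [Subgroup.mem_normalizer_iff] at hx1
      constructor
      · intro hy
        have h5 := (hx1 ⟨y, hPQ hy⟩).mp hy
        exact h5
      · intro hy
        have h6 : y ∈ (Q : Subgroup A) := by
          have h7 : x⁻¹ * (x * y * x⁻¹) * x ∈ (Q : Subgroup A) :=
            Subgroup.mul_mem _ (Subgroup.mul_mem _ (Subgroup.inv_mem _ hx) (hPQ hy)) hx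
          have h8 : x⁻¹ * (x * y * x⁻¹) * x = y := by group
          rwa [h8] at h7
        exact (hx1 ⟨y, h6⟩).mpr hy
    exact hxP
  have hle : normalizer (Q : Set A) ≤ centralizer (Q : Set A) := by
    have hS : (Q : Set A) = (P : Set A) := congrArg (fun S : Subgroup A => (S : Set A)) hQP
    rw [hS]
    intro x hx y hy
    exact hcomm y hy x (hN hx)
  have hcomp := MonoidHom.ker_transferSylow_isComplement' Q hle
  have hndvd := MonoidHom.not_dvd_card_ker_transferSylow Q hle
  set M : Subgroup A := (MonoidHom.transferSylow Q hle).ker with hM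
  haveI hMn : M.Normal := MonoidHom.normal_ker _
  have hdisj : Disjoint M (Q : Subgroup A) := hcomp.disjoint
  rw [hQP] at hdisj hcomp
  have fixM : ∀ y ∈ P, y ≠ 1 → ∀ v ∈ M, y * v * y⁻¹ = v → v = 1 := by
    intro y hy hy1 v hv hyv
    have h5 : v ∈ Subgroup.centralizer ({y} : Set A) := by
      rw [Subgroup.mem_centralizer_singleton_iff]
      calc v * y = (y * v * y⁻¹) * y := by rw [hyv]
        _ = y * v := by group
    have h6 := hC y hy hy1 h5
    exact Subgroup.disjoint_def.mp hdisj hv h6
  -- nilpotent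
  have hnil : Group.IsNilpotent M := by
    refine Cfsg.Agent.Lib.Thompson.Main.thompson_nilpotent (q := 3) (by norm_num) _ M
      (MulAut.conjNormal (H := M) a) rfl ?_ ?_
    · intro v hv
      apply Subtype.ext
      apply fixM a ha h1 v.1 v.2
      exact congrArg Subtype.val hv
    · intro v
      apply Subtype.ext
      show a * (a * (a * v.1 * a⁻¹) * a⁻¹) * a⁻¹ = v.1
      have h5 : a * a * a = 1 := by rw [← ha3, pow_three, mul_assoc]
      calc a * (a * (a * v.1 * a⁻¹) * a⁻¹) * a⁻¹ = (a * a * a) * v.1 * (a * a * a)⁻¹ := by group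
        _ = v.1 := by rw [h5]; group
  -- the centre
  set V : Subgroup A := M ⊓ Subgroup.centralizer (M : Set A) with hVdef
  haveI hVn : V.Normal := Subgroup.normal_inf_normal _ _
  have hVcomm : ∀ x ∈ V, ∀ y ∈ V, x * y = y * x := by
    intro x hx y hy
    exact (hy.2 x hx.1)
  have hV3 : ∀ v ∈ V, v = 1 := by
    intro v hv
    have h5 : v ^ 3 = 1 := by
      refine abelian_case V hVcomm (hcomm a ha b hb) ha3 hb3 ?_ hv
      rintro y (rfl | rfl | rfl | rfl) u hu huy
      · exact fixM _ ha h1 u hu.1 huy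
      · exact fixM _ hb h2 u hu.1 huy
      · exact fixM _ (P.mul_mem ha hb) h3 u hu.1 huy
      · exact fixM _ (P.mul_mem (P.mul_mem ha hb) hb) h4 u hu.1 huy
    have h6 : orderOf (⟨v, hv.1⟩ : M) ∣ Nat.card M := orderOf_dvd_natCard _
    rw [Subgroup.orderOf_mk] at h6
    have h7 : orderOf v ∣ 3 := orderOf_dvd_of_pow_eq_one h5
    rcases (Nat.dvd_prime (by norm_num : Nat.Prime 3)).mp h7 with h8 | h8
    · exact orderOf_eq_one_iff.mp h8
    · rw [h8] at h6
      exact absurd h6 hndvd
  have hMtriv : Subsingleton M := by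
    by_contra hns
    haveI : Nontrivial M := not_subsingleton_iff_nontrivial.mp hns
    apply Group.IsNilpotent.center_ne_bot (G := M)
    rw [Subgroup.eq_bot_iff_forall]
    intro z hz
    apply Subtype.ext
    apply hV3
    refine ⟨z.2, ?_⟩
    intro m hm
    have h5 := (Subgroup.mem_center_iff.mp hz) ⟨m, hm⟩
    exact congrArg Subtype.val h5
  have hcm := hcomp.card_mul
  rw [Nat.card_eq_one_iff_unique.mpr ⟨hMtriv, ⟨1⟩⟩, one_mul] at hcm
  exact Subgroup.eq_top_of_card_eq _ hcm

end Cfsg.Agent.Lib.Recog13
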