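import Mathlib
import Cfsg.Agent.Lib.Recog13.Degree
import Cfsg.Agent.Lib.Recog13.Final

/-!
# The end of the proof for the group `3^3:2^2`
-/

set_option autoImplicit false

namespace Cfsg.Agent.Lib.Recog13

open Cfsg Cfsg.Agent.Lib.Char.Virtual

universe u

variable {G : Type u} [Group G] [Fintype G] {H T : Subgroup G}

theorem mul_t0_eZ : ∀ (k : E13) (i : Fin 3), eZ i (k * t0).1 = eZ i k.1 := by decide +kernel

theorem gg_facts : gg 0 ∈ TT ∧ gg 1 ∈ TT ∧ gg 0 * gg 1 ≠ 1 ∧ gg 0 * gg 1 * gg 1 ≠ 1 := by decide +kernel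

theorem isIrr_of_signed_one {θ : G → ℂ} (h : IsSignedIrr G θ) (h1 : θ 1 = 1) : IsIrrCharacter G θ := by
  rcases h with h | h
  · exact h
  · exfalso
    obtain ⟨n, hn, hn'⟩ := exists_degree_of_isIrr h
    rw [Pi.neg_apply, h1] at hn'
    have h2 : ((n : ℤ) : ℂ) = ((-1 : ℤ) : ℂ) := by
      push_cast
      linear_combination -hn'
    have h3 : (n : ℤ) = -1 := by exact_mod_cast h2
    omega

/-- The theorem, with an isomorphism to the model. -/
theorem Sit.eq_top (S : Sit H T) (e : H ≃* E13) : H = ⊤ := by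
  classical
  obtain ⟨X, Y, Y', Z, D⟩ := S.exists_famD e
  obtain ⟨d0, d1, d2⟩ := S.degrees D
  have hirr : ∀ i, IsIrrCharacter G (X i) := by
    intro i
    fin_cases i
    · exact isIrr_of_signed_one (D.sgn (some (Sum.inl 0))) d0
    · exact isIrr_of_signed_one (D.sgn (some (Sum.inl 1))) d1
    · exact isIrr_of_signed_one (D.sgn (some (Sum.inl 2))) d2
  have hdeg : ∀ i, X i 1 = 1 := by
    intro i
    fin_cases i
    · exact d0
    · exact d1
    · exact d2
  choose φ hφ using fun i => Cfsg.Agent.Lib.Char.LinearChars.exists_hom_of_isCharacter_one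
    (Cfsg.Agent.Lib.Char.Basic.isCharacter_of_isIrrCharacter (hirr i)) (hdeg i)
  have hval : ∀ i (x : G), ((φ i x : ℂˣ) : ℂ) = X i x := by
    intro i x
    rw [hφ i]
  have hX : ∀ i k, ((φ i (iot e k) : ℂˣ) : ℂ) = (eZ i k.1 : ℂ) := by
    intro i k
    rw [hval]
    rcases prod_inA k with hk | hk
    · rw [(S.column D hk).1 i, eC]
    · have h1 : X i (iot e (k * t0)) = (eZ i k.1 : ℂ) := by
        rw [(S.column D hk).1 i, eC, mul_t0_eZ]
      have h2 : X i (iot e t0) = 1 := by
        rw [(S.column D t0_inA).1 i, eC, eZ_TT t0 t0_TT i]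
        simp
      have h3 : X i (iot e (k * t0)) = X i (iot e k) * X i (iot e t0) := by
        rw [← hval, ← hval, ← hval, map_mul, map_mul, Units.val_mul]
      rw [h3, h2, mul_one] at h1
      exact h1
  -- the kernel
  set K₀ : Subgroup G := (φ 0).ker ⊓ (φ 1).ker ⊓ (φ 2).ker with hK₀
  have hKn : K₀.Normal := by
    haveI : (φ 0).ker.Normal := MonoidHom.normal_ker _
    haveI : (φ 1).ker.Normal := MonoidHom.normal_ker _
    haveI : (φ 2).ker.Normal := MonoidHom.normal_ker _
    exact Subgroup.normal_inf_normal _ _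
  have hmem : ∀ k, iot e k ∈ K₀ ↔ k ∈ TT := by
    intro k
    have h1 : ∀ i, φ i (iot e k) = 1 ↔ eZ i k.1 = 1 := by
      intro i
      constructor
      · intro h
        have h2 := hX i k
        rw [h, Units.val_one] at h2
        exact_mod_cast h2.symm
      · intro h
        apply Units.ext
        rw [hX, h]
        simp
    constructor
    · rintro ⟨⟨h2, h3⟩, h4⟩
      apply TT_of_eZ
      intro i
      fin_cases i
      · exact (h1 0).mp h2
      · exact (h1 1).mp h3
      · exact (h1 2).mp h4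
    · intro hk
      exact ⟨⟨(h1 0).mpr (eZ_TT k hk 0), (h1 1).mpr (eZ_TT k hk 1)⟩, (h1 2).mpr (eZ_TT k hk 2)⟩
  have hTK : T ≤ K₀ := by
    intro x hx
    obtain ⟨k, rfl⟩ := exists_iot e (S.hTH hx)
    exact (hmem k).mpr ((S.mem_iff e k).mp hx)
  have hKH : ∀ x ∈ K₀, x ∈ H → x ∈ T := by
    intro x hx hxH
    obtain ⟨k, rfl⟩ := exists_iot e hxH
    exact (S.mem_iff e k).mpr ((hmem k).mp hx)
  -- the final step in `K₀`
  have hfin : T.subgroupOf K₀ = ⊤ := by
    obtain ⟨g1, g2, g3, g4⟩ := gg_facts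
    have ma : iot e (gg 0) ∈ T := (S.mem_iff e _).mpr g1
    have mb : iot e (gg 1) ∈ T := (S.mem_iff e _).mpr g2
    have ne : ∀ k : E13, k ≠ 1 → iot e k ≠ 1 := by
      intro k hk h
      apply hk
      apply iot_inj e
      rw [h, map_one]
    refine final_abs (a := ⟨iot e (gg 0), hTK ma⟩) (b := ⟨iot e (gg 1), hTK mb⟩) (T.subgroupOf K₀) ?_ ?_ ?_ ?_
      ma mb ?_ ?_ ?_ ?_ ?_ ?_
    · rw [Nat.card_congr (Subgroup.subgroupOfEquivOfLe hTK).toEquiv, S.hT]
    · intro x hx y hy
      exact Subtype.ext (S.comm e hx hy)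
    · intro x hx
      have hxH : x.1 ∈ H := by
        rw [← S.hN, Subgroup.mem_normalizer_iff]
        intro y
        rw [Subgroup.mem_normalizer_iff] at hx
        constructor
        · intro hy
          have h1 := (hx ⟨y, hTK hy⟩).mp hy
          exact h1
        · intro hy
          have h6 : y ∈ K₀ := by
            have h7 : x.1⁻¹ * (x.1 * y * x.1⁻¹) * x.1 ∈ K₀ :=
              K₀.mul_mem (K₀.mul_mem (K₀.inv_mem x.2) (hTK hy)) x.2
            have h8 : x.1⁻¹ * (x.1 * y * x.1⁻¹) * x.1 = y := by group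
            rwa [h8] at h7
          exact (hx ⟨y, h6⟩).mpr hy
      exact hKH x.1 x.2 hxH
    · intro t ht ht1 x hx
      have h1 : t.1 ≠ 1 := fun h => ht1 (Subtype.ext h)
      rw [Subgroup.mem_centralizer_singleton_iff] at hx
      have h2 : x.1 ∈ Subgroup.centralizer ({t.1} : Set G) := by
        rw [Subgroup.mem_centralizer_singleton_iff]
        exact congrArg Subtype.val hx
      exact hKH x.1 x.2 (S.hC t.1 ht h1 h2)
    · apply Subtype.ext
      show iot e (gg 0) ^ 3 = 1
      rw [← map_pow, (gg_ord 0).1, map_one]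
    · apply Subtype.ext
      show iot e (gg 1) ^ 3 = 1
      rw [← map_pow, (gg_ord 1).1, map_one]
    · intro h
      exact ne _ (gg_ord 0).2 (congrArg Subtype.val h)
    · intro h
      exact ne _ (gg_ord 1).2 (congrArg Subtype.val h)
    · intro h
      have h1 : iot e (gg 0) * iot e (gg 1) = 1 := congrArg Subtype.val h
      rw [← map_mul] at h1
      exact ne _ g3 h1
    · intro h
      have h1 : iot e (gg 0) * iot e (gg 1) * iot e (gg 1) = 1 := congrArg Subtype.val h
      rw [← map_mul, ← map_mul] at h1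
      exact ne _ g4 h1
  have hKT : K₀ ≤ T := by
    intro x hx
    have h1 : (⟨x, hx⟩ : K₀) ∈ T.subgroupOf K₀ := by
      rw [hfin]
      trivial
    exact h1
  have hTn : T = K₀ := le_antisymm hTK hKT
  have hnorm : Subgroup.normalizer (T : Set G) = ⊤ := by
    rw [eq_top_iff]
    intro g _
    rw [Subgroup.mem_normalizer_iff]
    intro y
    show y ∈ T ↔ g * y * g⁻¹ ∈ T
    rw [hTn]
    constructor
    · intro hy
      exact hKn.conj_mem y hy g
    · intro hy
      have h7 := hKn.conj_mem _ hy g⁻¹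
      have h8 : g⁻¹ * (g * y * g⁻¹) * g⁻¹⁻¹ = y := by group
      rwa [h8] at h7
  rw [← S.hN, hnorm]

end Cfsg.Agent.Lib.Recog13
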